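import Mathlib
import Cfsg.Agent.H28.AbIdx7

/-!
The case where the abelian subgroup of index `p` is not essential.
-/

set_option autoImplicit false

namespace Cfsg.Agent.H28

open Cfsg.FusionSystem
open scoped commutatorElement Pointwise

universe u v

section
variable {Ω : Type u} [Group Ω] {S A B R P Q K : Subgroup Ω} {p : ℕ} [hp : Fact p.Prime] [Finite S]
  {x y a b : Ω} {F : FusionSystem S} {f : Ω → Ω}

variable (h : AbIdx p S A) (hF : F.IsSaturated p)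
include h hF

/-- Subgroups of `Z` in nonabelian essential subgroups. -/
theorem AbIdx.nab_inv (hQe : F.IsEssential p Q) (hQA : Q ≠ A)
    (hQn : ¬ ∀ a ∈ Q, ∀ b ∈ Q, a * b = b * a) {Y : Subgroup Ω} (hYZ : Y ≤ centralizerIn S S)
    (hY : ∀ γ ∈ F.autGroup S, ∀ y ∈ Y, autFun γ y ∈ Y) :
    ∀ δ ∈ F.autGroup Q, ∀ y ∈ Y, autFun δ y ∈ Y := by
  have hS := h.pg
  have hQS := hQe.1.1
  have hC := centric_centralizer hQe.1
  have hZf : Finite (centralizerIn S S) := finite_of_le centralizerIn_le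
  have hZpos : 0 < Nat.card (centralizerIn S S) := Nat.card_pos
  obtain ⟨hZD, hN, x, hxQ, hxA, h1⟩ := h.ess_main hF hQe hQA
  obtain ⟨-, hinf, -, hZinv⟩ : (¬ ∀ a ∈ Q, ∀ b ∈ Q, a * b = b * a) ∧ Q ⊓ A = z2 S ∧
      Q = z2 S ⊔ Subgroup.zpowers x ∧ ∀ δ ∈ F.autGroup Q, ∀ z ∈ centralizerIn S S,
        autFun δ z ∈ centralizerIn S S := by
    rcases h1 with ⟨h1, -⟩ | h1
    · exact absurd h1 hQn
    · exact h1
  have hZQ : centralizerIn S S ≤ Q := le_trans (centralizerIn_anti hQS) hC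
  have hQf : Finite Q := finite_of_le hQS
  have hfn : F.IsFullyNormalized Q := hQe.2.1
  have hcardQ := h.card_inf hQS (fun hle => hxA (hle hxQ))
  rw [hinf, h.z2_card hZD] at hcardQ
  obtain ⟨-, T, hT⟩ := FN.fa hS hF hfn
  let C : Subgroup (F.autGroup Q) :=
    { carrier := {δ | ∀ z ∈ centralizerIn S S, autFun (δ : MulAut Q) z = z}
      one_mem' := fun z hz => autFun_one (hZQ hz)
      mul_mem' := by
        intro a b ha hb z hz
        show autFun ((a : MulAut Q) * (b : MulAut Q)) z = z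
        rw [autFun_mul _ _ (hZQ hz), hb z hz, ha z hz]
      inv_mem' := by
        intro a ha z hz
        show autFun (a : MulAut Q)⁻¹ z = z
        conv_lhs => rw [← ha z hz]
        rw [autFun_inv_apply _ (hZQ hz)] }
  have hCn : C.Normal := by
    refine ⟨fun b hb g => ?_⟩
    intro z hz
    show autFun ((g : MulAut Q) * (b : MulAut Q) * (g : MulAut Q)⁻¹) z = z
    have h2 := hZinv _ (inv_mem g.2) z hz
    rw [autFun_mul _ _ (hZQ hz), autFun_mul _ _ (autFun_mem _ (hZQ hz)), hb _ h2,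
      autFun_apply_inv _ (hZQ hz)]
  have hTC : (T : Subgroup (F.autGroup Q)) ≤ C := by
    rw [hT]
    intro δ hδ z hz
    obtain ⟨g, hg, h2⟩ := mem_autInducedBy'.1 (Subgroup.mem_subgroupOf.1 hδ)
    rw [h2 z (hZQ hz), ← (mem_centralizerIn.1 hz).2 g hg, mul_inv_cancel_right]
  have hfr := Sylow.normalizer_sup_eq_top' T hTC
  intro δ hδ y hy
  have h2 : (⟨δ, hδ⟩ : F.autGroup Q) ∈ Subgroup.normalizer ((T : Subgroup (F.autGroup Q)) : Set (F.autGroup Q)) ⊔ C := by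
    have : (⟨δ, hδ⟩ : F.autGroup Q) ∈ (⊤ : Subgroup (F.autGroup Q)) := Subgroup.mem_top _
    rw [← hfr] at this; exact this
  obtain ⟨ν, hν, c, hc, hνc⟩ := Subgroup.mem_sup_of_normal_right.1 h2
  have hyQ := hZQ (hYZ hy)
  have h3 : autFun δ y = autFun (ν : MulAut Q) y := by
    have h4 : δ = (ν : MulAut Q) * (c : MulAut Q) := by rw [← Subgroup.coe_mul, hνc]
    rw [h4, autFun_mul _ _ hyQ, hc y (hYZ hy)]
  rw [h3]
  have hνm := mor_autFun hQS ν.2
  have hrec : F.IsReceptive (img Q (autFun (ν : MulAut Q))) := by rw [img_autFun]; exact FN.rec hS hF hfn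
  obtain ⟨g, hg, hgx⟩ := receptive_extend hrec hνm
  have hNN : normalizerIn S Q ≤ Nf S Q (autFun (ν : MulAut Q)) := by
    intro t ht
    rw [mem_Nf]
    refine ⟨ht.1, ht.2, ?_⟩
    have ht2 : conjAut Q t ht.2 ∈ F.autGroup Q := autInducedBy_le hQS le_rfl (conjAut_mem ht.2 ht.1)
    have h4 : (⟨_, ht2⟩ : F.autGroup Q) ∈ (T : Subgroup (F.autGroup Q)) := by
      rw [hT]; exact conjAut_mem ht.2 ht.1
    have h5 := (Subgroup.mem_normalizer_iff.1 hν _).1 h4
    rw [hT] at h5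
    obtain ⟨t', ht', h6⟩ := mem_autInducedBy'.1 (Subgroup.mem_subgroupOf.1 h5)
    refine ⟨t', ht', fun x hx => ?_⟩
    have h7 := h6 (autFun (ν : MulAut Q) x) (autFun_mem _ hx)
    have h8 : autFun (((ν : MulAut Q) * conjAut Q t ht.2 * (ν : MulAut Q)⁻¹ : MulAut Q))
        (autFun (ν : MulAut Q) x) = autFun (ν : MulAut Q) (t * x * t⁻¹) := by
      rw [autFun_mul _ _ (autFun_mem _ hx), autFun_inv_apply _ hx, autFun_mul _ _ hx, autFun_conjAut _ hx]
    rw [← h8]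
    exact h7
  have hgN := hg.mono hNN
  have hNQ : Q ≤ normalizerIn S Q := le_normalizerIn hQS
  obtain ⟨γ, hγ, h4⟩ := h.ext_big hF normalizerIn_le (fun h5 => hQn fun a ha b hb => h5 a (hNQ ha) b (hNQ hb)) (by
    rw [hN, hcardQ]
    have := hp.out.one_lt
    have h6 : p * (p * (p * Nat.card (centralizerIn S S))) = p * (p ^ 2 * Nat.card (centralizerIn S S)) := by ring
    have h7 : 0 < p ^ 2 * Nat.card (centralizerIn S S) := by positivity
    rw [h6]; nlinarith) hgN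
  rw [← hgx y hyQ, h4 y (hNQ hyQ)]
  exact hY γ hγ y hy

/-- The good automorphism attached to a conjugate of `α`. -/
theorem AbIdx.exists_goodU (hp2 : p ≠ 2) (hPe : F.IsEssential p P) (hPA : P ≠ A)
    (hPc : ∀ a ∈ P, ∀ b ∈ P, a * b = b * a)
    {s : Ω} (hs : s ∈ S) (hsA : s ∈ A) (hsN : s ∈ Subgroup.normalizer (P : Set Ω)) (hsP : s ∉ P) :
    letI := cg hPc
    let α := conjAut P s hsN
    ∀ γ ∈ F.autGroup P, γ * α * γ⁻¹ ∉ Subgroup.zpowers α →
      ∃ g ∈ F.autGroup S, GoodU S (centralizerIn S S ⊓ ⁅S, S⁆) g ∧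
        ∀ z : P, (z : Ω) ∈ centralizerIn S S → (autFun g z = z ↔ z ∈ Cf (γ * α * γ⁻¹)) := by
  letI := cg hPc
  intro α γ hγ hn
  obtain ⟨htv, hαA, hsyl, -, hext, hCf, hUm, hZP, hUP⟩ := h.ab_data hF hPe hPA hPc hs hsA hsN hsP
  have hPf : Finite P := finite_of_le hPe.1.1
  have hPp : IsPGroup p P := h.pg.to_le hPe.1.1
  obtain ⟨τ, hτA, hτα, hτ1, hτ2, hτ3, hτ4⟩ := exists_tau hPp hsyl hαA htv hp2
    (mul_mem (mul_mem hγ hαA) (inv_mem hγ)) (htv.conj γ) hn
  have hτc : τ * α * τ⁻¹ = α := by rw [hτα, mul_inv_cancel_right]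
  obtain ⟨g, hg, hgx⟩ := hext τ hτA (by
    have : τ * conjAut P s hsN * τ⁻¹ = α := hτc
    rw [this]; exact Subgroup.mem_zpowers α)
  refine ⟨g, hg, ⟨fun u hu => ?_, fun z hz => ?_⟩, fun z hz => ?_⟩
  · have h1 := hτ1 ⟨u, hUP hu⟩ ((hUm _).2 hu)
    rw [hgx u (hUP hu), autFun_apply τ (hUP hu), h1]; rfl
  · have h1 := hτ3 ⟨z, hZP hz⟩ ((hCf _).2 hz)
    rw [hgx z (hZP hz), autFun_apply τ (hZP hz)]
    exact (hUm _).1 h1
  · have hzC : z ∈ Cf α := (hCf z).2 hz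
    rw [hgx z z.2, autFun_coe τ z]
    constructor
    · intro h; exact hτ4 z hzC (Subtype.ext h)
    · intro h; exact congrArg Subtype.val (hτ2 z ⟨hzC, h⟩)

/-- An element of `N_S(P) ⊓ A` outside `P`. -/
theorem AbIdx.exists_s (hPe : F.IsEssential p P) (hPA : P ≠ A) : ∃ s ∈ S, s ∈ A ∧
    s ∈ Subgroup.normalizer (P : Set Ω) ∧ s ∉ P := by
  have hS := h.pg
  have hPS := hPe.1.1
  have hne : P ≠ S := fun he => not_essential_top hS hF (he ▸ hPe)
  obtain ⟨hZD, hN, x, hxP, hxA, -⟩ := h.ess_main hF hPe hPA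
  have hPf : Finite P := finite_of_le hPS
  have hNf : Finite (normalizerIn S P) := finite_of_le normalizerIn_le
  by_contra hcon
  push Not at hcon
  have h1 : normalizerIn S P ⊓ A = P ⊓ A :=
    le_antisymm (le_inf (fun g hg => hcon g hg.1.1 hg.2 hg.1.2) inf_le_right)
      (inf_le_inf_right _ (le_normalizerIn hPS))
  have hcardN := h.card_inf normalizerIn_le (fun hle => hxA (hle (le_normalizerIn hPS hxP)))
  rw [h1, ← h.card_inf hPS (fun hle => hxA (hle hxP))] at hcardN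
  have h2 : 0 < Nat.card P := Nat.card_pos
  have := hp.out.one_lt
  nlinarith

/-- Some essential subgroup other than `A` is abelian. -/
theorem AbIdx.exists_abelian (hcore : F.core = ⊥) (hAe : ¬ F.IsEssential p A) :
    ∃ P, F.IsEssential p P ∧ P ≠ A ∧ ∀ a ∈ P, ∀ b ∈ P, a * b = b * a := by
  have hS := h.pg
  by_contra hcon
  push Not at hcon
  have hS1 : S ≠ ⊥ := by
    rintro rfl
    obtain ⟨a, ha, b, hb, hab⟩ : ∃ a ∈ (⊥ : Subgroup Ω), ∃ b ∈ (⊥ : Subgroup Ω), a * b ≠ b * a := by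
      by_contra hcon
      push Not at hcon
      exact h.nab hcon
    rw [Subgroup.mem_bot] at ha hb
    rw [ha, hb] at hab
    exact hab rfl
  obtain ⟨E, hE, hES⟩ := exists_ess hS hF hS1 hcore
  have hEA : E ≠ A := fun he => hAe (he ▸ hE)
  obtain ⟨hZD, -⟩ := h.ess_main hF hE hEA
  have hZn : F.IsNormal (centralizerIn S S) := by
    apply normal_of_essential hS hF
    intro P hP
    by_cases hPS : P = S
    · subst hPS
      refine ⟨centralizerIn_le, fun α hα => ?_⟩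
      haveI : Finite (centralizerIn P P) := finite_of_le centralizerIn_le
      have hm := mor_autFun le_rfl hα
      apply eq_of_le_of_card (img_le_iff.2 fun y hy => aut_center hα hy)
      rw [(hm.mono centralizerIn_le).card_img]
    · have hPe := hP.resolve_left hPS
      have hPA : P ≠ A := fun he => hAe (he ▸ hPe)
      obtain ⟨-, -, x, hx, hxA, h1⟩ := h.ess_main hF hPe hPA
      obtain ⟨a, ha, b, hb, hab⟩ := hcon P hPe hPA
      rcases h1 with ⟨h1, -⟩ | ⟨-, -, -, h1⟩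
      · exact absurd (h1 a ha b hb) hab
      have hZP : centralizerIn S S ≤ P := le_trans (centralizerIn_anti hPe.1.1) (centric_centralizer hPe.1)
      refine ⟨hZP, fun α hα => ?_⟩
      haveI : Finite (centralizerIn S S) := finite_of_le centralizerIn_le
      have hm := mor_autFun hPe.1.1 hα
      apply eq_of_le_of_card (img_le_iff.2 fun y hy => h1 α hα y hy)
      rw [(hm.mono hZP).card_img]
  have h2 := le_core hZn
  rw [hcore, le_bot_iff] at h2
  rw [h2, bot_inf_eq, Subgroup.card_bot] at hZD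
  exact hp.out.one_lt.ne hZD

/-- The centre is contained in the derived subgroup. -/
theorem AbIdx.center_eq (hp2 : p ≠ 2) (hcore : F.core = ⊥) (hAe : ¬ F.IsEssential p A) :
    centralizerIn S S ≤ ⁅S, S⁆ := by
  have hS := h.pg
  obtain ⟨P₀, hP₀, hP₀A, hP₀c⟩ := h.exists_abelian hF hcore hAe
  obtain ⟨hZD, -⟩ := h.ess_main hF hP₀ hP₀A
  obtain ⟨U, hUdef⟩ : ∃ U, U = centralizerIn S S ⊓ ⁅S, S⁆ := ⟨_, rfl⟩
  have hUZ : U ≤ centralizerIn S S := by rw [hUdef]; exact inf_le_left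
  have hU : Nat.card U = p := by rw [hUdef]; exact hZD
  have hUinv : ∀ γ ∈ F.autGroup S, ∀ u ∈ U, autFun γ u ∈ U := by
    intro γ hγ u hu
    rw [hUdef] at hu ⊢
    exact ⟨aut_center hγ hu.1, aut_derived hγ hu.2⟩
  obtain ⟨g₀, hg₀, hgg₀⟩ : ∃ g ∈ F.autGroup S, GoodU S U g := by
    obtain ⟨s, hs, hsA, hsN, hsP⟩ := h.exists_s hF hP₀ hP₀A
    obtain ⟨htv, hαA, hsyl, ⟨γ, hγ, hγn⟩, -⟩ := h.ab_data hF hP₀ hP₀A hP₀c hs hsA hsN hsP
    obtain ⟨g, hg, hgg, -⟩ := h.exists_goodU hF hp2 hP₀ hP₀A hP₀c hs hsA hsN hsP γ hγ hγn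
    exact ⟨g, hg, by rw [hUdef]; exact hgg⟩
  have hmg := mor_autFun le_rfl hg₀
  have hZS : ∀ z ∈ centralizerIn S S, z ∈ S := fun z hz => (mem_centralizerIn.1 hz).1
  let Y : Subgroup Ω :=
    { carrier := {z | z ∈ centralizerIn S S ∧ autFun g₀ z = z}
      one_mem' := ⟨one_mem _, hmg.one⟩
      mul_mem' := by
        rintro a b ⟨ha, ha'⟩ ⟨hb, hb'⟩
        exact ⟨mul_mem ha hb, by rw [hmg.mul (hZS a ha) (hZS b hb), ha', hb']⟩
      inv_mem' := by
        rintro a ⟨ha, ha'⟩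
        exact ⟨inv_mem ha, by rw [hmg.inv (hZS a ha), ha']⟩ }
  have hYfin : Finite Y := finite_of_le (B := S) (fun y hy => hZS y hy.1)
  have himg : ∀ {f : Ω → Ω} {P : Subgroup Ω}, Mor F P f → Y ≤ P → (∀ y ∈ Y, f y ∈ Y) → img Y f = Y := by
    intro f P hf hYP h
    apply eq_of_le_of_card (img_le_iff.2 h)
    rw [(hf.mono hYP).card_img]
  have huniq : ∀ {g : MulAut S}, g ∈ F.autGroup S → GoodU S U g → ∀ {z : Ω}, z ∈ centralizerIn S S →
      autFun g z = autFun g₀ z := fun hg hgg z hz => goodU_unique hS hF hUZ hU hg hg₀ hgg hgg₀ hz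
  -- Claim 2
  have claim2 : ∀ P, F.IsEssential p P → P ≠ A → (∀ a ∈ P, ∀ b ∈ P, a * b = b * a) →
      ∀ γ ∈ F.autGroup P, ∀ y ∈ Y, autFun γ y ∈ Y := by
    intro P hPe hPA hPc
    obtain ⟨s, hs, hsA, hsN, hsP⟩ := h.exists_s hF hPe hPA
    letI := cg hPc
    obtain ⟨htv, hαA, hsyl, ⟨γ₁, hγ₁, hγ₁n⟩, hext, hCf, hUm, hZP, hUP⟩ :=
      h.ab_data hF hPe hPA hPc hs hsA hsN hsP
    -- Claim 1
    have claim1 : ∀ γ ∈ F.autGroup P, ∀ y (hy : y ∈ Y),
        (γ * conjAut P s hsN * γ⁻¹) ⟨y, hZP hy.1⟩ = ⟨y, hZP hy.1⟩ := by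
      intro γ hγ y hy
      have hyC : (⟨y, hZP hy.1⟩ : P) ∈ Cf (conjAut P s hsN) := (hCf _).2 hy.1
      by_cases hn : γ * conjAut P s hsN * γ⁻¹ ∈ Subgroup.zpowers (conjAut P s hsN)
      · obtain ⟨n, hn⟩ := hn
        have hn' : (conjAut P s hsN) ^ n = γ * conjAut P s hsN * γ⁻¹ := hn
        rw [← hn']
        exact zpow_of_fix (conjAut P s hsN) (U := Cf (conjAut P s hsN)) (fun u hu => mem_Cf.1 hu) n _ hyC
      · obtain ⟨g, hg, hgg, hgz⟩ := h.exists_goodU hF hp2 hPe hPA hPc hs hsA hsN hsP γ hγ hn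
        rw [← hUdef] at hgg
        have h1 := (hgz ⟨y, hZP hy.1⟩ hy.1).1 (by
          rw [huniq hg hgg hy.1]; exact hy.2)
        exact mem_Cf.1 h1
    intro γ hγ y hy
    have hyP := hZP hy.1
    have key : ∀ δ ∈ F.autGroup P,
        (δ * conjAut P s hsN * δ⁻¹) (γ ⟨y, hyP⟩) = γ ⟨y, hyP⟩ := by
      intro δ hδ
      have h1 := claim1 (γ⁻¹ * δ) (mul_mem (inv_mem hγ) hδ) y hy
      have h2 : γ⁻¹ * δ * conjAut P s hsN * (γ⁻¹ * δ)⁻¹ =
          γ⁻¹ * (δ * conjAut P s hsN * δ⁻¹) * γ := by group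
      rw [h2, MulAut.mul_apply, MulAut.mul_apply] at h1
      have h3 := congrArg γ h1
      rwa [MulAut.apply_inv_self] at h3
    have h1 : γ ⟨y, hyP⟩ ∈ Cf (conjAut P s hsN) := by
      rw [mem_Cf]
      have := key 1 (one_mem _)
      rwa [one_mul, inv_one, mul_one] at this
    have h2 : ((γ ⟨y, hyP⟩ : P) : Ω) ∈ centralizerIn S S := (hCf _).1 h1
    rw [autFun_apply γ hyP]
    refine ⟨h2, ?_⟩
    obtain ⟨g, hg, hgg, hgz⟩ := h.exists_goodU hF hp2 hPe hPA hPc hs hsA hsN hsP γ₁ hγ₁ hγ₁n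
    rw [← hUdef] at hgg
    rw [← huniq hg hgg h2]
    exact (hgz _ h2).2 (mem_Cf.2 (key γ₁ hγ₁))
  -- Claim 3
  have claim3 : ∀ γ ∈ F.autGroup S, ∀ y ∈ Y, autFun γ y ∈ Y := by
    intro γ hγ y hy
    have hyS := hZS y hy.1
    have h1 := aut_center hγ hy.1
    refine ⟨h1, ?_⟩
    rw [← huniq (mul_mem (mul_mem hγ hg₀) (inv_mem hγ)) (goodU_conj hUZ hUinv hγ hgg₀) h1,
      autFun_mul _ _ (autFun_mem _ hyS), autFun_inv_apply _ hyS, autFun_mul _ _ hyS, hy.2]
  have hYn : F.IsNormal Y := by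
    apply normal_of_essential hS hF
    intro P hP
    by_cases hPS : P = S
    · subst hPS
      exact ⟨fun y hy => hZS y hy.1, fun α hα => himg (mor_autFun le_rfl hα) (fun y hy => hZS y hy.1)
        (claim3 α hα)⟩
    · have hPe := hP.resolve_left hPS
      have hPA : P ≠ A := fun he => hAe (he ▸ hPe)
      have hZP : centralizerIn S S ≤ P := le_trans (centralizerIn_anti hPe.1.1) (centric_centralizer hPe.1)
      have hYP : Y ≤ P := fun y hy => hZP hy.1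
      refine ⟨hYP, fun α hα => himg (mor_autFun hPe.1.1 hα) hYP ?_⟩
      by_cases hPc : ∀ a ∈ P, ∀ b ∈ P, a * b = b * a
      · exact claim2 P hPe hPA hPc α hα
      · exact h.nab_inv hF hPe hPA hPc (Y := Y) (fun y (hy : y ∈ Y) => hy.1) claim3 α hα
  have hY : Y = ⊥ := by
    have := le_core hYn
    rwa [hcore, le_bot_iff] at this
  -- the map `z ↦ g₀ z z⁻¹`
  have hZf : Finite (centralizerIn S S) := finite_of_le centralizerIn_le
  have hUf : Finite U := finite_of_le hUZ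
  have hcardle : Nat.card (centralizerIn S S) ≤ Nat.card U := by
    refine Nat.card_le_card_of_injective
      (fun z : centralizerIn S S => (⟨autFun g₀ z * (z : Ω)⁻¹, hgg₀.2 z z.2⟩ : U)) ?_
    intro z w hzw
    have h1 : autFun g₀ z * (z : Ω)⁻¹ = autFun g₀ w * (w : Ω)⁻¹ := congrArg Subtype.val hzw
    have hzS := hZS z z.2
    have hwS := hZS w w.2
    have h2 : (z : Ω) * (w : Ω)⁻¹ ∈ Y := by
      refine ⟨mul_mem z.2 (inv_mem w.2), ?_⟩
      rw [hmg.mul hzS (inv_mem hwS), hmg.inv hwS]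
      have h3 : autFun g₀ z = autFun g₀ w * (w : Ω)⁻¹ * z := by rw [← h1, inv_mul_cancel_right]
      have h4 : autFun g₀ w * (w : Ω)⁻¹ * z = z * (w : Ω)⁻¹ * autFun g₀ w := by
        have h5 : autFun g₀ w * ((w : Ω)⁻¹ * z) = ((w : Ω)⁻¹ * z) * autFun g₀ w :=
          ((mem_centralizerIn.1 (mul_mem (inv_mem w.2) z.2)).2 _ (autFun_mem _ hwS)).symm
        rw [mul_assoc, h5, (mem_centralizerIn.1 z.2).2 _ (inv_mem hwS)]
      rw [h3, h4, mul_inv_cancel_right]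
    rw [hY, Subgroup.mem_bot] at h2
    exact Subtype.ext (mul_inv_eq_one.1 h2)
  have h1 : U = centralizerIn S S := eq_of_le_of_card hUZ hcardle
  rw [← h1, hUdef]
  exact inf_le_right

end

end Cfsg.Agent.H28
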