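import Mathlib
import Cfsg.Prelude.Def_FusionSystem
import Cfsg.Prelude.Def_TwoFusion
import Cfsg.Agent.H28.FusInv
import Cfsg.Agent.H28.FusKNorm
import Cfsg.Agent.H28.FusFactor
import Cfsg.Agent.H28.FusProd

/-!
Fusion systems over internal direct products of strongly closed subgroups.
-/

set_option autoImplicit false
open Cfsg Cfsg.FusionSystem

namespace Cfsg.Agent.H28

universe u

section
variable {Ω : Type u} [Group Ω] {S S₁ S₂ : Subgroup Ω} {F : FusionSystem S} {P Q R X : Subgroup Ω}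
  {f g : Ω → Ω} {p : ℕ}

/-- A `p`-automorphism that extends has an extension of `p`-power order. -/
theorem lift_pel [Fact p.Prime] [Finite R] {γ : MulAut R} {α : MulAut P} (hPR : P ≤ R)
    (h : ∀ x ∈ P, autFun γ x = autFun α x) {m : ℕ} (hm : α ^ p ^ m = 1) :
    ∃ c a : ℕ, (γ ^ c) ^ p ^ a = 1 ∧ ∀ x ∈ P, autFun (γ ^ c) x = autFun α x := by
  haveI : Finite (MulAut R) := finite_mulAut
  obtain ⟨a, b, hab, hpb⟩ : ∃ a b : ℕ, orderOf γ = p ^ a * b ∧ ¬ p ∣ b := by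
    have : orderOf γ ≠ 0 := (orderOf_pos γ).ne'
    obtain ⟨a, b, h1, h2⟩ := Nat.exists_eq_pow_mul_and_not_dvd this p (Fact.out : p.Prime).ne_one
    exact ⟨a, b, h2, h1⟩
  have hcop : Nat.Coprime b (p ^ m) :=
    (Nat.Coprime.pow_right m ((Nat.Prime.coprime_iff_not_dvd Fact.out).2 hpb).symm)
  obtain ⟨c, hc0, hc1⟩ := Nat.chineseRemainder hcop 0 1
  have hbc : b ∣ c := (Nat.modEq_zero_iff_dvd).1 hc0
  obtain ⟨d, hd⟩ := hbc
  refine ⟨c, a, ?_, ?_⟩
  · rw [hd, ← pow_mul]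
    have : b * d * p ^ a = (p ^ a * b) * d := by ring
    rw [this, ← hab, pow_mul, pow_orderOf_eq_one, one_pow]
  · have hγpow : ∀ (n : ℕ) (x : Ω), x ∈ P → autFun (γ ^ n) x = autFun (α ^ n) x := by
      intro n
      induction n with
      | zero => intro x hx; rw [pow_zero, pow_zero, autFun_one (hPR hx), autFun_one hx]
      | succ n ihn =>
        intro x hx
        rw [pow_succ', pow_succ', autFun_mul _ _ (hPR hx), autFun_mul _ _ hx, ihn x hx,
          h _ (autFun_mem _ hx)]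
    have hαc : α ^ c = α := by
      have h1 : c ≡ 1 [MOD orderOf α] := hc1.of_dvd (orderOf_dvd_of_pow_eq_one hm)
      have := pow_eq_pow_iff_modEq.2 h1
      rwa [pow_one] at this
    intro x hx
    rw [hγpow c x hx, hαc]

theorem mem_sup_nrm' {A B : Subgroup Ω} (h : ∀ b ∈ B, ∀ a ∈ A, b * a * b⁻¹ ∈ A) {x : Ω} :
    x ∈ A ⊔ B ↔ ∃ a ∈ A, ∃ b ∈ B, a * b = x := by
  constructor
  · intro hx
    let K : Subgroup Ω :=
      { carrier := {x | ∃ a ∈ A, ∃ b ∈ B, a * b = x}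
        mul_mem' := by
          rintro _ _ ⟨a, ha, b, hb, rfl⟩ ⟨a', ha', b', hb', rfl⟩
          exact ⟨a * (b * a' * b⁻¹), A.mul_mem ha (h b hb a' ha'), b * b', B.mul_mem hb hb', by
            simp [mul_assoc]⟩
        one_mem' := ⟨1, A.one_mem, 1, B.one_mem, by simp⟩
        inv_mem' := by
          rintro _ ⟨a, ha, b, hb, rfl⟩
          refine ⟨b⁻¹ * a⁻¹ * b⁻¹⁻¹, h _ (B.inv_mem hb) _ (A.inv_mem ha), b⁻¹, B.inv_mem hb, ?_⟩
          simp [mul_assoc] }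
    have : A ⊔ B ≤ K := sup_le (fun a ha => ⟨a, ha, 1, B.one_mem, by simp⟩)
      (fun b hb => ⟨1, A.one_mem, b, hb, by simp⟩)
    exact this hx
  · rintro ⟨a, ha, b, hb, rfl⟩
    exact Subgroup.mul_mem_sup ha hb

/-- Internal direct products of strongly closed subgroups. -/
structure DPr (F : FusionSystem S) (S₁ S₂ : Subgroup Ω) : Prop where
  comm : ∀ a ∈ S₁, ∀ b ∈ S₂, a * b = b * a
  inf : S₁ ⊓ S₂ = ⊥
  sup : S₁ ⊔ S₂ = S
  sc1 : F.StronglyClosed S₁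
  sc2 : F.StronglyClosed S₂

theorem DPr.symm (h : DPr F S₁ S₂) : DPr F S₂ S₁ :=
  ⟨fun a ha b hb => (h.comm b hb a ha).symm, by rw [inf_comm, h.inf], by rw [sup_comm, h.sup], h.sc2, h.sc1⟩

theorem DPr.mem_sup (h : DPr F S₁ S₂) (hP : P ≤ S₁) {x : Ω} :
    x ∈ P ⊔ S₂ ↔ ∃ a ∈ P, ∃ b ∈ S₂, x = a * b := by
  constructor
  · intro hx
    have h1 : ∀ b ∈ S₂, ∀ a ∈ P, b * a * b⁻¹ ∈ P := fun b hb a ha => by
      rw [← h.comm a (hP ha) b hb]; simpa using ha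
    obtain ⟨a, ha, b, hb, e⟩ := (mem_sup_nrm' h1).1 hx
    exact ⟨a, ha, b, hb, e.symm⟩
  · rintro ⟨a, ha, b, hb, rfl⟩
    exact mul_mem (Subgroup.mem_sup_left ha) (Subgroup.mem_sup_right hb)

theorem DPr.le1 (h : DPr F S₁ S₂) : S₁ ≤ S := h.sc1.1

theorem DPr.le2 (h : DPr F S₁ S₂) : S₂ ≤ S := h.sc2.1

variable [Fact p.Prime] [Finite S] (hS : IsPGroup p S) (hF : F.IsSaturated p)
include hS hF

theorem DPr.extend (h : DPr F S₁ S₂) (hP : P ≤ S₁) (hf : Mor F P f) :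
    ∃ g, Mor F (P ⊔ S₂) g ∧ (∀ x ∈ P, g x = f x) ∧ img S₂ g = S₂ := by
  obtain ⟨g, hg, h1⟩ := mod_extend hS hF h.sc2 hf
  refine ⟨g, hg, fun x hx => ?_, img_sc_eq h.sc2 hg le_sup_right⟩
  obtain ⟨t, ht, e⟩ := h1 x hx
  have h2 : t ∈ S₁ := by
    have h3 : g x ∈ S₁ := sc_apply h.sc1 hg (Subgroup.mem_sup_left hx) (hP hx)
    have h4 : f x ∈ S₁ := sc_apply h.sc1 hf hx (hP hx)
    have h5 : t = (f x)⁻¹ * g x := by rw [e]; group
    rw [h5]; exact mul_mem (inv_mem h4) h3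
  have h6 : t ∈ S₁ ⊓ S₂ := ⟨h2, ht⟩
  rw [h.inf, Subgroup.mem_bot] at h6
  rw [e, h6, mul_one]

omit [Fact p.Prime] [Finite S] hS hF in
theorem DPr.mul_eq (h : DPr F S₁ S₂) {a a' b b' : Ω} (ha : a ∈ S₁) (ha' : a' ∈ S₁) (hb : b ∈ S₂)
    (hb' : b' ∈ S₂) (he : a * b = a' * b') : a = a' ∧ b = b' := by
  have h1 : a'⁻¹ * a = b' * b⁻¹ := by
    calc a'⁻¹ * a = a'⁻¹ * (a * b) * b⁻¹ := by group
      _ = b' * b⁻¹ := by rw [he]; group
  have h2 : a'⁻¹ * a ∈ S₁ ⊓ S₂ := ⟨mul_mem (S₁.inv_mem ha') ha, by rw [h1]; exact mul_mem hb' (S₂.inv_mem hb)⟩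
  rw [h.inf, Subgroup.mem_bot] at h2
  refine ⟨(inv_mul_eq_one.1 h2).symm, ?_⟩
  rw [h2] at h1
  exact (mul_inv_eq_one.1 h1.symm).symm

omit [Fact p.Prime] hS hF in
/-- The normalizer of `P S₂`. -/
theorem DPr.normalizer (h : DPr F S₁ S₂) (hP : P ≤ S₁) :
    normalizerIn S (P ⊔ S₂) = normalizerIn S₁ P ⊔ S₂ := by
  apply le_antisymm
  · intro s hs
    obtain ⟨hsS, hs2⟩ := mem_normalizerIn.1 hs
    rw [← h.sup, h.mem_sup le_rfl] at hsS
    obtain ⟨a, ha, b, hb, rfl⟩ := hsS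
    refine mul_mem (Subgroup.mem_sup_left ?_) (Subgroup.mem_sup_right hb)
    haveI : Finite S₁ := finite_of_le h.le1
    haveI : Finite P := finite_of_le hP
    refine ⟨ha, mem_normalizer_of_finite fun x hx => ?_⟩
    have h1 := (hs2 x).1 (Subgroup.mem_sup_left hx)
    have h2 : a * b * x * (a * b)⁻¹ = a * x * a⁻¹ := by
      have : b * x = x * b := (h.comm x (hP hx) b hb).symm
      calc a * b * x * (a * b)⁻¹ = a * (b * x) * b⁻¹ * a⁻¹ := by group
        _ = a * x * a⁻¹ := by rw [this]; group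
    rw [h2] at h1
    obtain ⟨c, hc, d, hd, e⟩ := (h.mem_sup hP).1 h1
    have h3 : a * x * a⁻¹ ∈ S₁ := mul_mem (mul_mem ha (hP hx)) (inv_mem ha)
    obtain ⟨e1, -⟩ := h.mul_eq h3 (hP hc) (one_mem S₂) hd (by rw [mul_one]; exact e)
    rw [e1]; exact hc
  · refine sup_le ?_ ?_
    · intro a ha
      refine ⟨h.le1 ha.1, ?_⟩
      haveI : Finite ↥(P ⊔ S₂) := finite_of_le (sup_le (hP.trans h.le1) h.le2)
      refine mem_normalizer_of_finite fun x hx => ?_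
      obtain ⟨c, hc, d, hd, rfl⟩ := (h.mem_sup hP).1 hx
      have h2 : a * (c * d) * a⁻¹ = (a * c * a⁻¹) * d := by
        have : a * d = d * a := h.comm a ha.1 d hd
        calc a * (c * d) * a⁻¹ = a * c * a⁻¹ * (a * d) * a⁻¹ := by group
          _ = (a * c * a⁻¹) * d := by rw [this]; group
      rw [h2]
      exact mul_mem (Subgroup.mem_sup_left (((mem_normalizerIn.1 ha).2 c).1 hc)) (Subgroup.mem_sup_right hd)
    · exact fun b hb => le_normalizerIn (sup_le (hP.trans h.le1) h.le2) (Subgroup.mem_sup_right hb)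

omit [Fact p.Prime] hS hF in
theorem DPr.card (h : DPr F S₁ S₂) (hP : P ≤ S₁) :
    Nat.card ↥(P ⊔ S₂) = Nat.card P * Nat.card S₂ := by
  rw [← Nat.card_prod]
  symm
  refine Nat.card_congr (Equiv.ofBijective
    (fun x : P × S₂ => (⟨x.1 * x.2, mul_mem (Subgroup.mem_sup_left x.1.2) (Subgroup.mem_sup_right x.2.2)⟩ :
      ↥(P ⊔ S₂))) ⟨?_, ?_⟩)
  · rintro ⟨a, b⟩ ⟨c, d⟩ he
    have h1 := congrArg Subtype.val he
    obtain ⟨e1, e2⟩ := h.mul_eq (hP a.2) (hP c.2) b.2 d.2 h1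
    exact Prod.ext (Subtype.ext e1) (Subtype.ext e2)
  · rintro ⟨x, hx⟩
    obtain ⟨a, ha, b, hb, rfl⟩ := (h.mem_sup hP).1 hx
    exact ⟨(⟨a, ha⟩, ⟨b, hb⟩), rfl⟩

/-- The full subsystem over a direct factor is saturated. -/
theorem DPr.full_saturated (h : DPr F S₁ S₂) (E : FusionSystem S₁)
    (hE : ∀ P f, Mor E P f ↔ P ≤ S₁ ∧ Mor F P f) : E.IsSaturated p := by
  haveI : Finite S₁ := finite_of_le h.le1
  have hS₁ : IsPGroup p S₁ := isPGroup_of_le hS h.le1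
  rw [saturated_iff_top hS₁]
  constructor
  · rw [fullyAutomized_iff hS₁]
    refine ⟨le_rfl, fun T hT hTp _ α hα => ?_⟩
    obtain ⟨m, hm⟩ := isPGroup_pow_one hTp hα
    have hαm := ((hE _ _).1 (mor_autFun le_rfl (hT hα))).2
    obtain ⟨g, hg, h1, h2⟩ := h.extend hS hF le_rfl hαm
    rw [h.sup] at hg
    obtain ⟨γ, hγ, h3⟩ := hg.exists_aut (isConj_top hg.isConj)
    obtain ⟨c, a, h4, h5⟩ := lift_pel (p := p) h.le1 (fun x hx => (h3 x (h.le1 hx)).trans (h1 x hx)) hm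
    obtain ⟨s, hs, h6⟩ := mem_autInducedBy'.1 (aut_top_inner hS hF (pow_mem hγ c) h4)
    rw [← h.sup, h.mem_sup le_rfl] at hs
    obtain ⟨u, hu, v, hv, rfl⟩ := hs
    rw [mem_autInducedBy']
    refine ⟨u, hu, fun x hx => ?_⟩
    rw [← h5 x hx, h6 x (h.le1 hx)]
    have : v * x = x * v := (h.comm x hx v hv).symm
    calc u * v * x * (u * v)⁻¹ = u * (v * x) * v⁻¹ * u⁻¹ := by group
      _ = u * x * u⁻¹ := by rw [this]; group
  · intro P hPn
    have hP := hPn.1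
    have hPS : P ⊔ S₂ ≤ S := sup_le (hP.trans h.le1) h.le2
    -- `P S₂` is fully normalized
    have hfn : F.IsFullyNormalized (P ⊔ S₂) := by
      rw [fullyNormalized_iff]
      refine ⟨hPS, fun f hf => ?_⟩
      have hfP := hf.mono (le_sup_left : P ≤ P ⊔ S₂)
      have hfPS : img P f ≤ S₁ := img_le_iff.2 fun x hx => sc_apply h.sc1 hfP hx (hP hx)
      have him : img (P ⊔ S₂) f = img P f ⊔ S₂ := by
        rw [hf.img_sup, img_sc_eq h.sc2 hf le_sup_right]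
      rw [him, h.normalizer hP, h.normalizer hfPS, h.card normalizerIn_le, h.card normalizerIn_le]
      exact Nat.mul_le_mul_right _ ((fullyNormalized_iff.1 hPn).2 f ((hE _ _).2 ⟨hP, hfP⟩))
    have hrec := FN.rec hS hF hfn
    rw [isReceptive_iff]
    refine ⟨hP, fun X f hf him => ?_⟩
    obtain ⟨hX, hfm⟩ := (hE _ _).1 hf
    obtain ⟨g, hg, h1, h2⟩ := h.extend hS hF hX hfm
    have himg : img (X ⊔ S₂) g = P ⊔ S₂ := by
      rw [hg.img_sup, h2, img_congr h1, him]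
    have hr : F.IsReceptive (img (X ⊔ S₂) g) := by rw [himg]; exact hrec
    obtain ⟨k, hk, h3⟩ := receptive_extend hr hg
    have hle : Nf S₁ X f ≤ Nf S (X ⊔ S₂) g := by
      intro s hs
      obtain ⟨hs1, hs2, t, ht, h4⟩ := mem_Nf.1 hs
      haveI : Finite ↥(X ⊔ S₂) := finite_of_le (sup_le (hX.trans h.le1) h.le2)
      have hconj : ∀ c ∈ X, ∀ d ∈ S₂, s * (c * d) * s⁻¹ = (s * c * s⁻¹) * d := by
        intro c hc d hd
        have : s * d = d * s := h.comm s hs1 d hd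
        calc s * (c * d) * s⁻¹ = s * c * s⁻¹ * (s * d) * s⁻¹ := by group
          _ = (s * c * s⁻¹) * d := by rw [this]; group
      have hsX : ∀ c ∈ X, s * c * s⁻¹ ∈ X := fun c hc => (Subgroup.mem_normalizer_iff.1 hs2 c).1 hc
      refine mem_Nf.2 ⟨h.le1 hs1, ?_, t, h.le1 ht, ?_⟩
      · refine mem_normalizer_of_finite fun x hx => ?_
        obtain ⟨c, hc, d, hd, rfl⟩ := (h.mem_sup hX).1 hx
        rw [hconj c hc d hd]
        exact mul_mem (Subgroup.mem_sup_left (hsX c hc)) (Subgroup.mem_sup_right hd)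
      · intro x hx
        obtain ⟨c, hc, d, hd, rfl⟩ := (h.mem_sup hX).1 hx
        have hgd : g d ∈ S₂ := sc_apply h.sc2 hg (Subgroup.mem_sup_right hd) hd
        have hcomm : t * g d = g d * t := h.comm t ht _ hgd
        rw [hconj c hc d hd, hg.mul (Subgroup.mem_sup_left (hsX c hc)) (Subgroup.mem_sup_right hd),
          hg.mul (Subgroup.mem_sup_left hc) (Subgroup.mem_sup_right hd), h1 _ (hsX c hc), h1 c hc,
          h4 c hc]
        calc t * f c * t⁻¹ * g d = t * f c * t⁻¹ * (g d * t) * t⁻¹ := by group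
          _ = t * (f c * g d) * t⁻¹ := by rw [← hcomm]; group
    refine ⟨k, (hE _ _).2 ⟨Nf_le, hk.mono hle⟩, fun x hx => ?_⟩
    rw [h3 x (Subgroup.mem_sup_left hx), h1 x hx]

omit hS hF [Fact p.Prime] in
theorem DPr.fullyCentralized (h : DPr F S₁ S₂) : F.IsFullyCentralized S₂ := by
  rw [fullyCentralized_iff]
  refine ⟨h.le2, fun f hf => ?_⟩
  rw [img_sc_eq h.sc2 hf le_rfl]

omit hS hF [Fact p.Prime] [Finite S] in
theorem DPr.cent (h : DPr F S₁ S₂) :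
    DPr (centSys F S₂ h.le2) S₁ (S₂ ⊓ centralizerIn S S₂) := by
  have hS₁ : S₁ ≤ centralizerIn S S₂ := fun a ha =>
    mem_centralizerIn.2 ⟨h.le1 ha, fun b hb => h.comm a ha b hb⟩
  refine ⟨fun a ha b hb => h.comm a ha b hb.1, ?_, ?_, ?_, ?_⟩
  · rw [eq_bot_iff, ← h.inf]
    exact fun x hx => ⟨hx.1, hx.2.1⟩
  · apply le_antisymm (sup_le hS₁ inf_le_right)
    intro x hx
    have hx' := hx
    obtain ⟨hxS, hxc⟩ := mem_centralizerIn.1 hx
    rw [← h.sup, h.mem_sup le_rfl] at hxS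
    obtain ⟨a, ha, b, hb, rfl⟩ := hxS
    refine mul_mem (Subgroup.mem_sup_left ha) (Subgroup.mem_sup_right ⟨hb, ?_⟩)
    have h1 := mul_mem ((centralizerIn S S₂).inv_mem (hS₁ ha)) hx'
    simpa using h1
  · rw [stronglyClosed_iff]
    refine ⟨hS₁, fun R f hR hf x hx => ?_⟩
    obtain ⟨-, -, g, hg, h1, -⟩ := mor_centSys.1 hf
    rw [← h1 x hx]
    exact sc_apply h.sc1 hg (Subgroup.mem_sup_left hx) (hR hx)
  · rw [stronglyClosed_iff]
    refine ⟨inf_le_right, fun R f hR hf x hx => ?_⟩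
    obtain ⟨-, -, g, hg, h1, h2⟩ := mor_centSys.1 hf
    rw [← h1 x hx, h2 x (hR hx).1]
    exact hR hx

/-- The maps over `S₁` extending by the identity on `S₂`: saturated. -/
theorem DPr.id_saturated (h : DPr F S₁ S₂) (E : FusionSystem S₁)
    (hE : ∀ P f, Mor E P f ↔ P ≤ S₁ ∧ Mor (centSys F S₂ h.le2) P f) : E.IsSaturated p := by
  haveI : Finite (centralizerIn S S₂) := finite_of_le centralizerIn_le
  exact DPr.full_saturated (isPGroup_of_le hS centralizerIn_le)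
    (centSys_saturated hS hF h.fullyCentralized) h.cent E hE

end

end Cfsg.Agent.H28
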