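import Mathlib
import Cfsg.Agent.H28.GCtl1
import Cfsg.Agent.L.KCtl2

/-!
The focal subgroup for primes at least five.
-/

set_option autoImplicit false
open Cfsg Cfsg.FusionSystem
open scoped commutatorElement

namespace Cfsg.Agent.H28

universe u v w

section
variable {Ω : Type u} [Group Ω] {S T : Subgroup Ω} {F E D : FusionSystem S} {P Q R V U X K : Subgroup Ω}
  {f g k χ : Ω → Ω} {x y s t : Ω} {p : ℕ} {ρ : Ω → Ω → Prop}

theorem derived_lt [Fact p.Prime] [Finite S] (hS : IsPGroup p S) (hne : S ≠ ⊥) : ⁅S, S⁆ < S := by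
  haveI := (Subgroup.nontrivial_iff_ne_bot S).2 hne
  haveI : Group.IsNilpotent S := hS.isNilpotent
  haveI : Group.IsSolvable S := inferInstance
  have h1 := Group.IsSolvable.commutator_lt_top_of_nontrivial S
  rw [← Subgroup.map_subtype_commutator]
  refine lt_of_le_of_ne (Subgroup.map_subtype_le _) fun h2 => h1.ne ?_
  rw [eq_top_iff]
  intro x _
  have h3 : (x : Ω) ∈ (commutator S).map S.subtype := by rw [h2]; exact x.2
  obtain ⟨y, hy, h4⟩ := h3
  have h5 : y = x := Subtype.ext h4
  rwa [← h5]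

/-- The local condition from control of transfer in groups. -/
theorem local_of_tc [Fact p.Prime] {W : ∀ (Q : Type u) [Group Q], Subgroup Q} (hW : IsCharPFunctor.{u} p W)
    (hTC : ∀ (G : Type u) [Group G] [Finite G], ControlsTransferIn p (inducedFunctor (G := G) W) ⊤)
    (G : Type u) [Group G] [Finite G] (P : Sylow p G) : Cfsg.pCore p G ⊓ commutator G ≤
        (commutator ↥(Subgroup.normalizer (((W ↥(P : Subgroup G)).map (P : Subgroup G).subtype : Subgroup G) : Set G))).map
          (Subgroup.normalizer (((W ↥(P : Subgroup G)).map (P : Subgroup G).subtype : Subgroup G) : Set G)).subtype := by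
  have h1 := (L.ct_iff (L.induced_isConjugacyFunctor hW G) (L.sylIn_top P)).1 (hTC G)
  rw [Subgroup.map_subtype_commutator]
  rintro x ⟨hx, hx2⟩
  have h2 : x ∈ (P : Subgroup G) := by
    obtain ⟨k, hk⟩ := IsPGroup.exists_le_sylow (Cfsg.Agent.H28.isPGroup_pCore (p := p) (X := G))
    have hn : (pCore p G).Normal := Cfsg.pCore_normal p G
    obtain ⟨g, hg⟩ := MulAction.exists_smul_eq G k P
    rw [← hg]
    rw [Sylow.smul_def] at *
    have h3 : g⁻¹ * x * g⁻¹⁻¹ ∈ pCore p G := hn.conj_mem x hx g⁻¹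
    refine ⟨g⁻¹ * x * g⁻¹⁻¹, hk h3, ?_⟩
    show g * (g⁻¹ * x * g⁻¹⁻¹) * g⁻¹ = x
    group
  have h3 : x ∈ (P : Subgroup G) ⊓ ⁅(⊤ : Subgroup G), ⊤⁆ := ⟨h2, hx2⟩
  rw [h1] at h3
  have h4 := h3.2
  rw [top_inf_eq] at h4
  exact h4

/-- The automizer of the factor group in the factor system. -/
theorem factor_inner {Ω' : Type v} [Group Ω'] {S' : Subgroup Ω'} {θ : S →* Ω'} {E : FusionSystem S'}
    (hE : F.IsFactorSystem T θ E) (hF : F.autGroup S ≤ Inn S) [Finite S] : E.autGroup S' ≤ Inn S' := by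
  intro α hα
  have hr := hE.2.2.1
  have h1 := mor_autFun le_rfl hα
  obtain ⟨-, f, hf, h2⟩ := (factor_mor_iff hE).1 h1
  have hpre : preimageAlong θ S' = S := by
    apply le_antisymm preimageAlong_le
    intro x hx
    refine mem_preimageAlong.2 ⟨hx, ?_⟩
    rw [← hr]; exact tf_mem_range hx
  rw [hpre] at hf h2
  have himg : img S f = S := eq_of_le_of_card hf.img_le (by rw [hf.card_img])
  obtain ⟨β, hβ, h3⟩ := hf.exists_aut himg
  obtain ⟨s, hs, h4⟩ := mem_Inn.1 (hF hβ)
  refine mem_Inn.2 ⟨tf θ s, by rw [← hr]; exact tf_mem_range hs, fun y hy => ?_⟩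
  obtain ⟨x, hx, rfl⟩ := exists_tf_eq hr hy
  rw [h2 x hx, ← h3 x hx, h4 x hx, tf_conj hs hx]

/-- The focal subgroup is proper if the automizer of the Sylow group is inner and some functor controls transfer. -/
theorem focal_lt [Fact p.Prime] {W : ∀ (Q : Type u) [Group Q], Subgroup Q} (hW : IsCharPFunctor.{u} p W)
    (hTC : ∀ (G : Type u) [Group G] [Finite G], ControlsTransferIn p (inducedFunctor (G := G) W) ⊤) :
    ∀ (n : ℕ) (Ω : Type u) [Group Ω] (S : Subgroup Ω) [Finite S] (F : FusionSystem S), Nat.card S ≤ n →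
      IsPGroup p S → F.IsSaturated p → S ≠ ⊥ → F.autGroup S ≤ Inn S → F.focalSubgroup < S := by
  intro n
  induction n with
  | zero =>
    intro Ω _ S _ F hn
    have := Nat.card_pos (α := S)
    omega
  | succ n ih =>
    intro Ω _ S _ F hn hS hF hne haut
    have hR := relCls_transfer W hW.1 hW.2 (fun G _ _ P _ => local_of_tc hW hTC G P)
    obtain ⟨K, hK⟩ : ∃ K, K = WF p W Ω S := ⟨_, rfl⟩
    have hKS : K ≤ S := by rw [hK]; exact WF_le S
    have hKne : K ≠ ⊥ := by rw [hK]; exact WF_ne_bot hW.1 S hS hne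
    have hKn : S ≤ Subgroup.normalizer (K : Set Ω) := by
      rw [hK]; exact char_le_normalizerIn (WF_le S) (WF_char hW.2 S)
    -- it suffices to find D
    suffices h : ∃ D : Subgroup Ω, ⁅S, S⁆ ≤ D ∧ D < S ∧ ∀ P f, Mor (normS F K hKS hKn) P f → ∀ x ∈ P, x⁻¹ * f x ∈ D by
      obtain ⟨D, hD1, hD2, hD3⟩ := h
      refine lt_of_le_of_lt ?_ hD2
      rw [foc_le_iff]
      refine rel_machine (ρ := relD D) hR hS hF ⟨D, hD1, rfl⟩ ?_
      rintro X f ⟨hf, g, hg, h1, h2⟩ x hx
      have hg' : Mor F (X ⊔ K) g ∧ img K g = K := by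
        rw [hK]; exact ⟨hg, h2⟩
      exact hD3 X f (mor_normS.2 ⟨hf.le, g, hg'.1, h1, hg'.2⟩) x hx
    obtain ⟨N, hN⟩ : ∃ N, N = normS F K hKS hKn := ⟨_, rfl⟩
    rw [← hN]
    have hNs : N.IsSaturated p := by rw [hN]; exact normS_saturated hS hF
    have hNn : N.IsNormal K := by rw [hN]; exact normS_normal
    have hNaut : N.autGroup S ≤ Inn S := by
      refine le_trans (fun α hα => ?_) haut
      rw [← mor_autFun_iff le_rfl] at hα ⊢
      have h1 : N ≤ F := by rw [hN]; exact normS_le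
      exact le_iff_mor.1 h1 _ _ hα
    by_cases hKeq : K = S
    · refine ⟨⁅S, S⁆, le_rfl, derived_lt hS hne, fun P f hf x hx => ?_⟩
      obtain ⟨g, hg, h1, h2⟩ := (isNormal_iff.1 hNn).2 P f hf
      rw [hKeq] at h2
      have hgS : Mor N S g := hg.mono (by rw [hKeq]; exact le_sup_right)
      obtain ⟨β, hβ, h3⟩ := hgS.exists_aut h2
      obtain ⟨s, hs, h4⟩ := mem_Inn.1 (hNaut hβ)
      have hxS := hf.le hx
      rw [← h1 x hx, ← h3 x hxS, h4 x hxS]
      have h5 : x⁻¹ * (s * x * s⁻¹) = ⁅x⁻¹, s⁆ := by rw [commutatorElement_def]; group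
      rw [h5]
      exact Subgroup.commutator_mem_commutator (inv_mem hxS) hs
    · obtain ⟨Ω', _, S', θ, E, hE, hEs, hS', hfin, hcard⟩ := exists_factor hS hNs hNn
      have hKf : Finite K := finite_of_le hKS
      have hr := hE.2.2.1
      have hKlt : Nat.card K < Nat.card S := card_lt_of_lt' (lt_of_le_of_ne hKS hKeq)
      have hS'ne : S' ≠ ⊥ := by
        intro h
        have h1 : Nat.card S' = 1 := by rw [h]; simp
        rw [hcard, h1] at hKlt
        omega
      have hK1 : 1 < Nat.card K := by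
        have h1 := Nat.card_pos (α := K)
        have h2 : Nat.card K ≠ 1 := fun h => hKne ((Subgroup.card_eq_one).1 h)
        omega
      have hS'c : Nat.card S' ≤ n := by
        have h1 := Nat.card_pos (α := S')
        have h2 : Nat.card S' < Nat.card K * Nat.card S' := by nlinarith
        omega
      have h1 := ih Ω' S' E hS'c hS' hEs hS'ne (factor_inner hE hNaut)
      refine ⟨preimageAlong θ E.focalSubgroup, ?_, ?_, fun P f hf x hx => ?_⟩
      · rw [Subgroup.commutator_le]
        intro a ha b hb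
        refine mem_preimageAlong.2 ⟨?_, ?_⟩
        · rw [commutatorElement_def]
          exact mul_mem (mul_mem (mul_mem ha hb) (inv_mem ha)) (inv_mem hb)
        · apply derived_le_foc
          rw [commutatorElement_def, tf_mul (mul_mem (mul_mem ha hb) (inv_mem ha))
            (inv_mem hb), tf_mul (mul_mem ha hb) (inv_mem ha), tf_mul ha hb, tf_inv ha, tf_inv hb]
          exact Subgroup.commutator_mem_commutator (by rw [← hr]; exact tf_mem_range ha)
            (by rw [← hr]; exact tf_mem_range hb)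
      · refine lt_of_le_of_ne preimageAlong_le fun h2 => h1.ne (le_antisymm h1.le fun y hy => ?_)
        obtain ⟨x, hx, rfl⟩ := exists_tf_eq hr hy
        rw [← h2] at hx
        exact (mem_preimageAlong.1 hx).2
      · obtain ⟨g, hg, h2, h3⟩ := (isNormal_iff.1 hNn).2 P f hf
        have hsc := normal_stronglyClosed hNn
        obtain ⟨f', hf', h4⟩ := factor_induced hE hsc hg le_sup_right
        have hx' : x ∈ P ⊔ K := Subgroup.mem_sup_left hx
        have hxS := hf.le hx
        refine mem_preimageAlong.2 ⟨mul_mem (inv_mem hxS) (hf.mem hx), ?_⟩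
        rw [tf_mul (inv_mem hxS) (hf.mem hx), tf_inv hxS, ← h2 x hx, ← h4 x hx']
        exact foc_mem hf' (mem_imageAlong.2 ⟨x, hxS, hx', rfl⟩)

end
end Cfsg.Agent.H28
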