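import Mathlib
import Cfsg.Agent.H28.CIdx7
import Cfsg.Agent.H28.AbIdx3

/-!
Groups whose derived subgroup has order `p`, is central and contains all `p`-th powers.
-/

set_option autoImplicit false

namespace Cfsg.Agent.H28

open Cfsg.FusionSystem
open scoped commutatorElement Pointwise

universe u v

/-- Generalized extraspecial groups. -/
structure GX (p : ℕ) {Ω : Type u} [Group Ω] (P : Subgroup Ω) : Prop where
  card : Nat.card (⁅P, P⁆ : Subgroup Ω) = p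
  pw : ∀ a ∈ P, a ^ p ∈ ⁅P, P⁆
  cen : ∀ z ∈ ⁅P, P⁆, ∀ a ∈ P, a * z = z * a

section
variable {Ω : Type u} [Group Ω] {P R X C Z H : Subgroup Ω} {p : ℕ} [hp : Fact p.Prime]
  {x y a b g : Ω}

theorem comm_mem_P (ha : a ∈ P) (hb : b ∈ P) : a * b * a⁻¹ * b⁻¹ ∈ ⁅P, P⁆ := by
  rw [← commutatorElement_def]
  exact Subgroup.commutator_mem_commutator ha hb

theorem zpow_dvd_of_mem (h1 : x ^ p ∈ H) (h2 : x ∉ H) {k : ℤ} (h3 : x ^ k ∈ H) : (p : ℤ) ∣ k := by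
  by_contra hcon
  apply h2
  have h4 : IsCoprime k (p : ℤ) := by
    rw [isCoprime_comm]
    exact (Prime.coprime_iff_not_dvd (Nat.prime_iff_prime_int.1 hp.out)).2 hcon
  obtain ⟨u, v, huv⟩ := h4
  have h5 : x = (x ^ k) ^ u * (x ^ p) ^ v := by
    rw [← zpow_natCast, ← zpow_mul, ← zpow_mul, ← zpow_add, mul_comm k u, mul_comm (p : ℤ) v, huv, zpow_one]
  rw [h5]
  exact mul_mem (zpow_mem h3 u) (zpow_mem h1 v)

theorem mem_zpowers_of_card [Finite Z] (hZ : Nat.card Z = p) (hx : x ∈ Z) (hx1 : x ≠ 1) (hy : y ∈ Z) :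
    ∃ k : ℤ, x ^ k = y := by
  have h1 : Nat.card (Subgroup.zpowers x) = p := by
    rw [Nat.card_zpowers]
    apply orderOf_eq_prime _ hx1
    have h4 : (⟨x, hx⟩ : Z) ^ Nat.card Z = 1 := pow_card_eq_one'
    rw [hZ] at h4
    exact congrArg Subtype.val h4
  have h2 : Subgroup.zpowers x = Z :=
    eq_of_le_of_card ((Subgroup.zpowers_le).2 hx) (by rw [h1, hZ])
  rw [← h2] at hy
  exact hy

theorem GX.le : ⁅P, P⁆ ≤ P := Subgroup.commutator_le.2 (fun a ha b hb =>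
  mul_mem (mul_mem (mul_mem ha hb) (inv_mem ha)) (inv_mem hb))

variable (h : GX p P)
include h

/-- The homomorphism `x ↦ [x, y]`. -/
def GX.kap (y : Ω) (hy : y ∈ P) : P →* Ω where
  toFun x := (x : Ω) * y * (x : Ω)⁻¹ * y⁻¹
  map_one' := by simp
  map_mul' a b := by
    have h1 : (b : Ω) * y * (b : Ω)⁻¹ * y⁻¹ ∈ ⁅P, P⁆ := comm_mem_P b.2 hy
    obtain ⟨w, hw⟩ : ∃ w, w = (b : Ω) * y * (b : Ω)⁻¹ * y⁻¹ := ⟨_, rfl⟩
    rw [← hw] at h1
    rw [← hw]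
    have h2 : (b : Ω) * y * (b : Ω)⁻¹ = w * y := by rw [hw]; group
    have h3 := h.cen w h1 a a.2
    have h5 : (a : Ω) * y * (a : Ω)⁻¹ * y⁻¹ ∈ P := GX.le (comm_mem_P a.2 hy)
    calc ((a * b : P) : Ω) * y * ((a * b : P) : Ω)⁻¹ * y⁻¹
        = a * ((b : Ω) * y * (b : Ω)⁻¹) * (a : Ω)⁻¹ * y⁻¹ := by
          rw [Subgroup.coe_mul]; group
      _ = a * w * y * (a : Ω)⁻¹ * y⁻¹ := by rw [h2]; group
      _ = w * (a * y * (a : Ω)⁻¹ * y⁻¹) := by rw [h3]; group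
      _ = (a * y * (a : Ω)⁻¹ * y⁻¹) * w := (h.cen w h1 _ h5).symm

theorem GX.kap_mem (hy : y ∈ P) (x : P) : h.kap y hy x ∈ ⁅P, P⁆ := comm_mem_P x.2 hy

theorem GX.card_cut [Finite P] (hX : X ≤ P) (hy : y ∈ P) (hne : ∃ x ∈ X, x * y ≠ y * x) :
    Nat.card X = p * Nat.card (X ⊓ Subgroup.centralizer {y} : Subgroup Ω) := by
  have hfin : Finite (⁅P, P⁆ : Subgroup Ω) := finite_of_le GX.le
  have h1 := card_map_ker (h.kap y hy) (X.subgroupOf P)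
  have h2 : (X.subgroupOf P) ⊓ (h.kap y hy).ker = (X ⊓ Subgroup.centralizer {y} : Subgroup Ω).subgroupOf P := by
    ext a
    rw [Subgroup.mem_inf, Subgroup.mem_subgroupOf, MonoidHom.mem_ker, Subgroup.mem_subgroupOf,
      Subgroup.mem_inf, Subgroup.mem_centralizer_singleton_iff]
    refine and_congr_right fun _ => ?_
    show (a : Ω) * y * (a : Ω)⁻¹ * y⁻¹ = 1 ↔ _
    rw [mul_inv_eq_one, mul_inv_eq_iff_eq_mul]
  rw [h2, card_subgroupOf' hX, card_subgroupOf' (inf_le_left.trans hX)] at h1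
  have h3 : (X.subgroupOf P).map (h.kap y hy) ≤ ⁅P, P⁆ := by
    rintro _ ⟨a, -, rfl⟩; exact h.kap_mem hy a
  have h4 : Nat.card ((X.subgroupOf P).map (h.kap y hy)) = p := by
    have h5 := Subgroup.card_dvd_of_le h3
    rw [h.card] at h5
    rcases (Nat.dvd_prime hp.out).1 h5 with h6 | h6
    · exfalso
      rw [Subgroup.card_eq_one] at h6
      obtain ⟨x, hx, hxy⟩ := hne
      apply hxy
      have h7 : h.kap y hy ⟨x, hX hx⟩ ∈ (X.subgroupOf P).map (h.kap y hy) := ⟨⟨x, hX hx⟩, hx, rfl⟩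
      rw [h6, Subgroup.mem_bot] at h7
      have h8 : x * y * x⁻¹ * y⁻¹ = 1 := h7
      rwa [mul_inv_eq_one, mul_inv_eq_iff_eq_mul] at h8
    · exact h6
  rw [h1, h4, mul_comm]

end

section
variable {Ω : Type u} [Group Ω] {C Z : Subgroup Ω} {p : ℕ} [hp : Fact p.Prime]

/-- Complements of subgroups of order `p` in elementary abelian groups. -/
theorem exists_compl_prime [Finite C] (hc : ∀ a ∈ C, ∀ b ∈ C, a * b = b * a) (he : ∀ a ∈ C, a ^ p = 1)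
    (hZC : Z ≤ C) (hZ : Nat.card Z = p) : ∃ A ≤ C, A ⊓ Z = ⊥ ∧ ∀ x ∈ C, ∃ a ∈ A, ∃ z ∈ Z, a * z = x := by
  classical
  have hfin : Finite {A : Subgroup Ω // A ≤ C} := by
    have : Finite (Subgroup C) := inferInstance
    refine Finite.of_injective (fun A : {A : Subgroup Ω // A ≤ C} => A.1.subgroupOf C) ?_
    rintro ⟨A, hA⟩ ⟨B, hB⟩ hAB
    apply Subtype.ext
    show A = B
    have := congrArg (Subgroup.map C.subtype) hAB
    simpa [Subgroup.subgroupOf_map_subtype, inf_eq_left.2 hA, inf_eq_left.2 hB] using this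
  have hfs : ({A : Subgroup Ω | A ≤ C ∧ A ⊓ Z = ⊥}).Finite := by
    have h1 : ({A : Subgroup Ω | A ≤ C ∧ A ⊓ Z = ⊥}) ⊆ Set.range (fun A : {A : Subgroup Ω // A ≤ C} => (A : Subgroup Ω)) :=
      fun A hA => ⟨⟨A, hA.1⟩, rfl⟩
    exact (Set.finite_range _).subset h1
  obtain ⟨A, hA⟩ := hfs.exists_maximal ⟨⊥, bot_le, bot_inf_eq Z⟩
  obtain ⟨⟨hAC, hAZ⟩, hmax⟩ := hA
  refine ⟨A, hAC, hAZ, fun x hx => ?_⟩
  let K : Subgroup Ω :=
    { carrier := {x | x ∈ C ∧ ∃ a ∈ A, ∃ z ∈ Z, a * z = x}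
      one_mem' := ⟨one_mem _, 1, one_mem _, 1, one_mem _, one_mul 1⟩
      mul_mem' := by
        rintro _ _ ⟨h1, a, ha, z, hz, rfl⟩ ⟨h2, b, hb, w, hw, rfl⟩
        refine ⟨mul_mem h1 h2, a * b, mul_mem ha hb, z * w, mul_mem hz hw, ?_⟩
        have := hc z (hZC hz) b (hAC hb)
        calc a * b * (z * w) = a * (b * z) * w := by group
          _ = a * z * (b * w) := by rw [← this]; group
      inv_mem' := by
        rintro _ ⟨h1, a, ha, z, hz, rfl⟩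
        refine ⟨inv_mem h1, a⁻¹, inv_mem ha, z⁻¹, inv_mem hz, ?_⟩
        rw [mul_inv_rev, hc z⁻¹ (inv_mem (hZC hz)) a⁻¹ (inv_mem (hAC ha))] }
  suffices hxK : x ∈ K from hxK.2
  by_contra hxK
  have hAK : A ≤ K := fun a ha => ⟨hAC ha, a, ha, 1, one_mem _, mul_one a⟩
  have hZK : Z ≤ K := fun z hz => ⟨hZC hz, 1, one_mem _, z, hz, one_mul z⟩
  let B : Subgroup Ω :=
    { carrier := {y | ∃ a ∈ A, ∃ k : ℤ, a * x ^ k = y}
      one_mem' := ⟨1, one_mem _, 0, by simp⟩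
      mul_mem' := by
        rintro _ _ ⟨a, ha, k, rfl⟩ ⟨b, hb, l, rfl⟩
        refine ⟨a * b, mul_mem ha hb, k + l, ?_⟩
        have := hc (x ^ k) (zpow_mem hx k) b (hAC hb)
        rw [zpow_add]
        calc a * b * (x ^ k * x ^ l) = a * (b * x ^ k) * x ^ l := by group
          _ = a * x ^ k * (b * x ^ l) := by rw [← this]; group
      inv_mem' := by
        rintro _ ⟨a, ha, k, rfl⟩
        refine ⟨a⁻¹, inv_mem ha, -k, ?_⟩
        rw [mul_inv_rev, zpow_neg, hc _ (inv_mem (zpow_mem hx k)) a⁻¹ (inv_mem (hAC ha))] }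
  have hAB : A ≤ B := fun a ha => ⟨a, ha, 0, by simp⟩
  have hxB : x ∈ B := ⟨1, one_mem _, 1, by simp⟩
  have hBC : B ≤ C := by
    rintro _ ⟨a, ha, k, rfl⟩
    exact mul_mem (hAC ha) (zpow_mem hx k)
  have hBZ : B ⊓ Z = ⊥ := by
    rw [eq_bot_iff]
    rintro y ⟨⟨a, ha, k, rfl⟩, hyZ⟩
    have h1 : x ^ k ∈ K := by
      have h2 := mul_mem (inv_mem (hAK ha)) (hZK hyZ)
      rwa [inv_mul_cancel_left] at h2
    obtain ⟨j, hj⟩ := zpow_dvd_of_mem (p := p) (H := K) (by rw [he x hx]; exact one_mem _) hxK h1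
    have h2 : x ^ k = 1 := by rw [hj, zpow_mul, zpow_natCast, he x hx, one_zpow]
    rw [h2, mul_one] at hyZ ⊢
    have h3 : a ∈ A ⊓ Z := ⟨ha, hyZ⟩
    rw [hAZ] at h3
    exact h3
  have h1 := hmax (⟨hBC, hBZ⟩ : B ≤ C ∧ B ⊓ Z = ⊥) hAB
  exact hxK (hAK (h1 hxB))

end

/-- The central product decomposition. -/
theorem GX.decomp {Ω : Type u} [Group Ω] {P R : Subgroup Ω} {p : ℕ} [hp : Fact p.Prime] [Finite P]
    (h : GX p P) (hRP : R ≤ P) (hRc : ∀ a ∈ R, ∀ b ∈ R, a * b = b * a) (hRe : ∀ a ∈ R, a ^ p = 1)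
    {z₁ g : Ω} (hz₁ : z₁ ∈ R) (hz : ∀ x ∈ P, x * z₁ = z₁ * x → x ∈ R) (hg : g ∈ P) (hgR : g ∉ R)
    (hgp : g ^ p = 1) :
    ∃ A ≤ P, (∀ a ∈ A, a ^ p = 1) ∧ (∀ a ∈ A, ∀ b ∈ A, a * b = b * a) ∧
      Nat.card (Subgroup.closure ({g, z₁} : Set Ω)) = p ^ 3 ∧
      Nonempty (P ≃* (Subgroup.closure ({g, z₁} : Set Ω)) × A) := by
  obtain ⟨Z, hZdef⟩ : ∃ Z, Z = ⁅P, P⁆ := ⟨_, rfl⟩
  have hZcard : Nat.card Z = p := hZdef ▸ h.card
  have hZP : Z ≤ P := hZdef ▸ GX.le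
  have hZfin : Finite Z := finite_of_le hZP
  have hRfin : Finite R := finite_of_le hRP
  have hZcen : ∀ z ∈ Z, ∀ a ∈ P, a * z = z * a := hZdef ▸ h.cen
  have hZR : Z ≤ R := fun z hzz => hz z (hZP hzz) (hZcen z hzz z₁ (hRP hz₁)).symm
  have hgz : g * z₁ ≠ z₁ * g := fun h1 => hgR (hz g hg h1)
  obtain ⟨c, hc⟩ : ∃ c, c = g * z₁ * g⁻¹ * z₁⁻¹ := ⟨_, rfl⟩
  have hcZ : c ∈ Z := by rw [hc, hZdef]; exact comm_mem_P hg (hRP hz₁)
  have hc1 : c ≠ 1 := by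
    intro h1
    rw [hc, mul_inv_eq_one, mul_inv_eq_iff_eq_mul] at h1
    exact hgz h1
  obtain ⟨C, hCdef⟩ : ∃ C, C = R ⊓ Subgroup.centralizer {g} := ⟨_, rfl⟩
  have hCmem : ∀ x, x ∈ C ↔ x ∈ R ∧ x * g = g * x := by
    intro x; rw [hCdef, Subgroup.mem_inf, Subgroup.mem_centralizer_singleton_iff]
  have hCR : C ≤ R := fun x hx => ((hCmem x).1 hx).1
  have hCfin : Finite C := finite_of_le hCR
  have hZC : Z ≤ C := fun z hzz => (hCmem z).2 ⟨hZR hzz, (hZcen z hzz g hg).symm⟩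
  obtain ⟨A, hAC, hAZ, hdecA⟩ := exists_compl_prime (p := p) (fun a ha b hb => hRc a (hCR ha) b (hCR hb))
    (fun a ha => hRe a (hCR ha)) hZC hZcard
  have hAR := hAC.trans hCR
  have hAP := hAR.trans hRP
  have hdec1 : ∀ x ∈ P, ∃ k : ℤ, x * (g ^ k)⁻¹ ∈ R := by
    intro x hx
    have h1 : h.kap z₁ (hRP hz₁) ⟨x, hx⟩ ∈ Z := by rw [hZdef]; exact h.kap_mem _ _
    obtain ⟨k, hk⟩ := mem_zpowers_of_card hZcard hcZ hc1 h1
    refine ⟨k, hz _ (mul_mem hx (inv_mem (zpow_mem hg k))) ?_⟩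
    have h2 : h.kap z₁ (hRP hz₁) ⟨g, hg⟩ = c := hc.symm
    have h3 : h.kap z₁ (hRP hz₁) (⟨x, hx⟩ * (⟨g, hg⟩ ^ k)⁻¹) = 1 := by
      rw [map_mul, map_inv, map_zpow, h2, ← hk, mul_inv_cancel]
    have h4 : x * (g ^ k)⁻¹ * z₁ * (x * (g ^ k)⁻¹)⁻¹ * z₁⁻¹ = 1 := h3
    rwa [mul_inv_eq_one, mul_inv_eq_iff_eq_mul] at h4
  have hAcen : ∀ a ∈ A, ∀ x ∈ P, a * x = x * a := by
    intro a ha x hx
    obtain ⟨k, hk⟩ := hdec1 x hx
    have h1 : a * g = g * a := ((hCmem a).1 (hAC ha)).2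
    have h2 : a * g ^ k = g ^ k * a := Commute.zpow_right (show Commute a g from h1) k
    have h3 := hRc a (hAR ha) _ hk
    calc a * x = a * (x * (g ^ k)⁻¹) * g ^ k := by group
      _ = (x * (g ^ k)⁻¹) * (a * g ^ k) := by rw [h3]; group
      _ = x * a := by rw [h2]; group
  have hdec2 : ∀ r ∈ R, ∃ i : ℤ, r * (z₁ ^ i)⁻¹ ∈ C := by
    intro r hr
    have h1 : h.kap g hg ⟨r, hRP hr⟩ ∈ Z := by rw [hZdef]; exact h.kap_mem _ _
    have h2 : h.kap g hg ⟨z₁, hRP hz₁⟩ = c⁻¹ := by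
      show z₁ * g * z₁⁻¹ * g⁻¹ = c⁻¹
      rw [hc]; group
    obtain ⟨k, hk⟩ := mem_zpowers_of_card hZcard (inv_mem hcZ) (fun h => hc1 (inv_eq_one.1 h)) h1
    refine ⟨k, (hCmem _).2 ⟨mul_mem hr (inv_mem (zpow_mem hz₁ k)), ?_⟩⟩
    have h3 : h.kap g hg (⟨r, hRP hr⟩ * (⟨z₁, hRP hz₁⟩ ^ k)⁻¹) = 1 := by
      rw [map_mul, map_inv, map_zpow, h2, ← hk, mul_inv_cancel]
    have h4 : r * (z₁ ^ k)⁻¹ * g * (r * (z₁ ^ k)⁻¹)⁻¹ * g⁻¹ = 1 := h3
    rwa [mul_inv_eq_one, mul_inv_eq_iff_eq_mul] at h4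
  obtain ⟨E, hEdef⟩ : ∃ E, E = Subgroup.closure ({g, z₁} : Set Ω) := ⟨_, rfl⟩
  rw [← hEdef]
  have hEg : g ∈ E := by rw [hEdef]; exact Subgroup.subset_closure (by simp)
  have hEz : z₁ ∈ E := by rw [hEdef]; exact Subgroup.subset_closure (by simp)
  have hEP : E ≤ P := by
    rw [hEdef, Subgroup.closure_le]
    rintro x (rfl | rfl)
    · exact hg
    · exact hRP hz₁
  have hEZ : Z ≤ E := by
    intro z hzz
    obtain ⟨k, rfl⟩ := mem_zpowers_of_card hZcard hcZ hc1 hzz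
    apply zpow_mem
    rw [hc]
    exact mul_mem (mul_mem (mul_mem hEg hEz) (inv_mem hEg)) (inv_mem hEz)
  let K : Subgroup Ω :=
    { carrier := {x | ∃ z ∈ Z, ∃ i k : ℤ, z * (z₁ ^ i * g ^ k) = x}
      one_mem' := ⟨1, one_mem _, 0, 0, by simp⟩
      mul_mem' := by
        rintro _ _ ⟨z, hzz, i, k, rfl⟩ ⟨z', hz', i', k', rfl⟩
        obtain ⟨w, hw⟩ : ∃ w, w = g ^ k * z₁ ^ i' * (g ^ k)⁻¹ * (z₁ ^ i')⁻¹ := ⟨_, rfl⟩
        have hwZ : w ∈ Z := by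
          rw [hw, hZdef]; exact comm_mem_P (zpow_mem hg k) (zpow_mem (hRP hz₁) i')
        have h1 : g ^ k * z₁ ^ i' = w * z₁ ^ i' * g ^ k := by rw [hw]; group
        refine ⟨z * z' * w, mul_mem (mul_mem hzz hz') hwZ, i + i', k + k', ?_⟩
        have h2 := hZcen z' hz' _ (mul_mem (zpow_mem (hRP hz₁) i) (zpow_mem hg k))
        have h3 := hZcen w hwZ _ (zpow_mem (hRP hz₁) i)
        calc z * z' * w * (z₁ ^ (i + i') * g ^ (k + k'))
            = z * z' * (w * z₁ ^ i) * z₁ ^ i' * g ^ k * g ^ k' := by rw [zpow_add, zpow_add]; group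
          _ = z * z' * z₁ ^ i * (w * z₁ ^ i' * g ^ k) * g ^ k' := by rw [← h3]; group
          _ = z * (z' * (z₁ ^ i * g ^ k)) * z₁ ^ i' * g ^ k' := by rw [← h1]; group
          _ = z * (z₁ ^ i * g ^ k) * (z' * (z₁ ^ i' * g ^ k')) := by rw [← h2]; group
      inv_mem' := by
        rintro _ ⟨z, hzz, i, k, rfl⟩
        obtain ⟨w, hw⟩ : ∃ w, w = g ^ (-k) * z₁ ^ (-i) * (g ^ (-k))⁻¹ * (z₁ ^ (-i))⁻¹ := ⟨_, rfl⟩
        have hwZ : w ∈ Z := by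
          rw [hw, hZdef]; exact comm_mem_P (zpow_mem hg _) (zpow_mem (hRP hz₁) _)
        refine ⟨z⁻¹ * w, mul_mem (inv_mem hzz) hwZ, -i, -k, ?_⟩
        have h1 : g ^ (-k) * z₁ ^ (-i) = w * z₁ ^ (-i) * g ^ (-k) := by rw [hw]; group
        have h2 := hZcen z⁻¹ (inv_mem hzz) _ (mul_mem (zpow_mem hg (-k)) (zpow_mem (hRP hz₁) (-i)))
        calc z⁻¹ * w * (z₁ ^ (-i) * g ^ (-k)) = z⁻¹ * (w * z₁ ^ (-i) * g ^ (-k)) := by group
          _ = g ^ (-k) * z₁ ^ (-i) * z⁻¹ := by rw [← h1, ← h2]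
          _ = (z * (z₁ ^ i * g ^ k))⁻¹ := by rw [zpow_neg, zpow_neg]; group }
  have hEK : E ≤ K := by
    rw [hEdef, Subgroup.closure_le]
    rintro x (rfl | rfl)
    · exact ⟨1, one_mem _, 0, 1, by simp⟩
    · exact ⟨1, one_mem _, 1, 0, by simp⟩
  have hEA : ∀ e ∈ E, e ∈ A → e = 1 := by
    intro e he heA
    obtain ⟨z, hzz, i, k, rfl⟩ := hEK he
    have h1 : g ^ k ∈ R := by
      have h2 := mul_mem (inv_mem (mul_mem (hZR hzz) (zpow_mem hz₁ i))) (hAR heA)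
      have h3 : (z * z₁ ^ i)⁻¹ * (z * (z₁ ^ i * g ^ k)) = g ^ k := by group
      rwa [h3] at h2
    obtain ⟨j, hj⟩ := zpow_dvd_of_mem (p := p) (H := R) (by rw [hgp]; exact one_mem _) hgR h1
    have h2 : g ^ k = 1 := by rw [hj, zpow_mul, zpow_natCast, hgp, one_zpow]
    rw [h2, mul_one] at heA ⊢
    have h3 : z₁ ^ i ∈ C := by
      have h4 := mul_mem (inv_mem (hZC hzz)) (hAC heA)
      rwa [inv_mul_cancel_left] at h4
    have h5 : z₁ ∉ C := fun h6 => hgz ((hCmem z₁).1 h6).2.symm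
    obtain ⟨j', hj'⟩ := zpow_dvd_of_mem (p := p) (H := C) (by rw [hRe z₁ hz₁]; exact one_mem _) h5 h3
    have h6 : z₁ ^ i = 1 := by rw [hj', zpow_mul, zpow_natCast, hRe z₁ hz₁, one_zpow]
    rw [h6, mul_one] at heA ⊢
    have h7 : z ∈ A ⊓ Z := ⟨heA, hzz⟩
    rw [hAZ] at h7
    exact h7
  have hsurj : ∀ x ∈ P, ∃ e ∈ E, ∃ a ∈ A, e * a = x := by
    intro x hx
    obtain ⟨k, hk⟩ := hdec1 x hx
    obtain ⟨i, hi⟩ := hdec2 _ hk
    obtain ⟨a, ha, z, hzz, haz⟩ := hdecA _ hi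
    refine ⟨z * (z₁ ^ i * g ^ k), mul_mem (hEZ hzz) (mul_mem (zpow_mem hEz i) (zpow_mem hEg k)), a, ha, ?_⟩
    rw [← hAcen a ha _ (mul_mem (hZP hzz) (mul_mem (zpow_mem (hRP hz₁) i) (zpow_mem hg k))), ← mul_assoc, haz]
    group
  let f : E × A →* P :=
    { toFun := fun q => ⟨(q.1 : Ω) * q.2, mul_mem (hEP q.1.2) (hAP q.2.2)⟩
      map_one' := by simp
      map_mul' := by
        rintro ⟨e, a⟩ ⟨e', a'⟩
        apply Subtype.ext
        show (e : Ω) * e' * (a * a') = e * a * (e' * a')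
        have := hAcen a a.2 e' (hEP e'.2)
        calc (e : Ω) * e' * (a * a') = e * (e' * a) * a' := by group
          _ = e * a * (e' * a') := by rw [← this]; group }
  have hfinj : Function.Injective f := by
    rw [injective_iff_map_eq_one]
    rintro ⟨e, a⟩ h1
    have h2 : (e : Ω) * a = 1 := congrArg Subtype.val h1
    have h3 : (e : Ω) = (a : Ω)⁻¹ := mul_eq_one_iff_eq_inv.1 h2
    have h4 : (e : Ω) = 1 := hEA e e.2 (by rw [h3]; exact inv_mem a.2)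
    have h5 : (a : Ω) = 1 := by rw [h4, one_mul] at h2; exact h2
    exact Prod.ext (Subtype.ext h4) (Subtype.ext h5)
  have hfsurj : Function.Surjective f := by
    rintro ⟨x, hx⟩
    obtain ⟨e, he, a, ha, hea⟩ := hsurj x hx
    exact ⟨(⟨e, he⟩, ⟨a, ha⟩), Subtype.ext hea⟩
  have heq : P ≃* E × A := (MulEquiv.ofBijective f ⟨hfinj, hfsurj⟩).symm
  refine ⟨A, hAP, fun a ha => hRe a (hAR ha), fun a ha b hb => hRc a (hAR ha) b (hAR hb), ?_, ⟨heq⟩⟩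
  have c1 : Nat.card P = Nat.card E * Nat.card A := by
    rw [Nat.card_congr heq.toEquiv, Nat.card_prod]
  have c2 : Nat.card P = p * Nat.card R := by
    have hPC : P ⊓ Subgroup.centralizer {z₁} = R := by
      apply le_antisymm
      · rintro x ⟨hx, hxz⟩
        exact hz x hx (Subgroup.mem_centralizer_singleton_iff.1 hxz)
      · intro x hx
        exact ⟨hRP hx, Subgroup.mem_centralizer_singleton_iff.2 (hRc x hx z₁ hz₁)⟩
    rw [h.card_cut le_rfl (hRP hz₁) ⟨g, hg, hgz⟩, hPC]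
  have c3 : Nat.card R = p * Nat.card C := by
    rw [hCdef]; exact h.card_cut hRP hg ⟨z₁, hz₁, hgz.symm⟩
  have c4 : Nat.card C = Nat.card A * p := by
    rw [← hZcard, ← Nat.card_prod]
    let k : A × Z → C := fun q => ⟨(q.1 : Ω) * q.2, mul_mem (hAC q.1.2) (hZC q.2.2)⟩
    have hk : Function.Bijective k := by
      constructor
      · rintro ⟨a, z⟩ ⟨b, w⟩ h1
        have h2 : (a : Ω) * z = b * w := congrArg Subtype.val h1
        have h3 : (b : Ω)⁻¹ * a = w * (z : Ω)⁻¹ := by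
          rw [eq_mul_inv_iff_mul_eq, mul_assoc, h2, inv_mul_cancel_left]
        have h4 : (b : Ω)⁻¹ * a ∈ A ⊓ Z := ⟨mul_mem (Subgroup.inv_mem _ b.2) a.2, by
          rw [h3]; exact mul_mem w.2 (Subgroup.inv_mem _ z.2)⟩
        rw [hAZ, Subgroup.mem_bot] at h4
        have h5 : (a : Ω) = b := (inv_mul_eq_one.1 h4).symm
        rw [h4] at h3
        have h6 : (w : Ω) = z := mul_inv_eq_one.1 h3.symm
        exact Prod.ext (Subtype.ext h5) (Subtype.ext h6.symm)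
      · rintro ⟨x, hx⟩
        obtain ⟨a, ha, z, hz', haz⟩ := hdecA x hx
        exact ⟨(⟨a, ha⟩, ⟨z, hz'⟩), Subtype.ext haz⟩
    exact (Nat.card_congr (Equiv.ofBijective k hk)).symm
  have hAfin : Finite A := finite_of_le hAP
  have hApos : 0 < Nat.card A := Nat.card_pos
  rw [c2, c3, c4] at c1
  have h9 : Nat.card A * p ^ 3 = Nat.card A * Nat.card E := by
    calc Nat.card A * p ^ 3 = p * (p * (Nat.card A * p)) := by ring
      _ = Nat.card E * Nat.card A := c1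
      _ = _ := mul_comm _ _
  exact (Nat.eq_of_mul_eq_mul_left hApos h9).symm

end Cfsg.Agent.H28
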