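import Mathlib
import Cfsg.Agent.H28.GES1
import Cfsg.Agent.H28.ExtTop

/-!
Strongly closed generalized extraspecial subgroups.
-/

set_option autoImplicit false

namespace Cfsg.Agent.H28

open Cfsg.FusionSystem
open scoped commutatorElement Pointwise

universe u v

section
variable {E : Type u} [CommGroup E] [Finite E] {p : ℕ} [hp : Fact p.Prime] (hE : IsPGroup p E)
  {α β : MulAut E} (hα : IsTv p α) (hβ : IsTv p β)
include hE hα hβ

/-- The element inverting `Um α` and commuting with `α`. -/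
theorem exists_tau_pair (hn : ¬ IsPGroup p (Subgroup.closure ({α, β} : Set (MulAut E)))) :
    ∃ τ ∈ Subgroup.closure ({α, β} : Set (MulAut E)), τ * α = α * τ ∧ (∀ u ∈ Um α, τ u = u⁻¹) := by
  obtain ⟨m, hm1, hm2⟩ := exists_inversion hE hα hβ hn
  obtain ⟨τ, hτ⟩ : ∃ τ, τ = (α ^ m * β * α ^ m) ^ 2 := ⟨_, rfl⟩
  rw [← hτ] at hm1
  have hτc : ∀ c ∈ Cf α ⊓ Cf β, τ c = c := by
    intro c hc
    rw [hτ, sq, MulAut.mul_apply, hm2 c hc, hm2 c hc]
  have hα' : α ∈ Subgroup.closure ({α, β} : Set (MulAut E)) := Subgroup.subset_closure (by simp)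
  have hβ' : β ∈ Subgroup.closure ({α, β} : Set (MulAut E)) := Subgroup.subset_closure (by simp)
  refine ⟨τ, ?_, ?_, fun u hu => hm1 u (Subgroup.mem_sup_left hu)⟩
  · rw [hτ]; exact pow_mem (mul_mem (mul_mem (pow_mem hα' m) hβ') (pow_mem hα' m)) 2
  · ext x
    obtain ⟨v, hv, c, hc, rfl⟩ := exists_decomp hE hα hβ hn x
    have hαv : α v ∈ Um α ⊔ Um β := by
      have h1 := mul_mem (Subgroup.mem_sup_left (S := Um α) (T := Um β) (dl_mem_Um α v)) hv
      rwa [inv_mul_cancel_right] at h1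
    rw [MulAut.mul_apply, MulAut.mul_apply, map_mul, map_mul, map_mul, map_mul, mem_Cf.1 hc.1, hτc c hc,
      mem_Cf.1 hc.1, hm1 v hv, hm1 _ hαv, map_inv]

end

section
variable {Ω : Type u} [Group Ω] {S : Subgroup Ω} {F : FusionSystem S} {P Q R E : Subgroup Ω} {f : Ω → Ω}
  {p : ℕ} [hp : Fact p.Prime] [Finite S] (hS : IsPGroup p S) (hF : F.IsSaturated p)
include hS

/-- Chains of length three. -/
theorem radical_chain3 (hr : F.IsRadical p Q) (hc : F.IsCentric Q) {W V : Subgroup Ω} (hVW : V ≤ W)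
    (hWQ : W ≤ Q)
    (hV : ∀ δ ∈ F.autGroup Q, ∀ w ∈ V, autFun δ w ∈ V)
    (hW : ∀ δ ∈ F.autGroup Q, ∀ w ∈ W, autFun δ w ∈ W) {g : Ω} (hg : g ∈ S)
    (hgN : g ∈ Subgroup.normalizer (Q : Set Ω)) (h1 : ∀ w ∈ V, g * w * g⁻¹ = w)
    (h2 : ∀ x ∈ W, x⁻¹ * (g * x * g⁻¹) ∈ V)
    (h3 : ∀ x ∈ Q, x⁻¹ * (g * x * g⁻¹) ∈ W) : g ∈ Q := by
  have hQS := hc.1
  have hQf : Finite Q := finite_of_le hQS
  have hWf : Finite W := finite_of_le hWQ
  have hVf : Finite V := finite_of_le hVW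
  have hVQ : V ≤ Q := hVW.trans hWQ
  obtain ⟨n, hn⟩ := IsPGroup.iff_card.1 (hS.to_le (hWQ.trans hQS))
  obtain ⟨m, hm⟩ := IsPGroup.iff_card.1 (hS.to_le (hVQ.trans hQS))
  let B : Subgroup (F.autGroup Q) :=
    { carrier := {δ | (∀ w ∈ V, autFun (δ : MulAut Q) w = w) ∧
        (∀ x ∈ W, x⁻¹ * autFun (δ : MulAut Q) x ∈ V) ∧ ∀ x ∈ Q, x⁻¹ * autFun (δ : MulAut Q) x ∈ W}
      one_mem' := ⟨fun w hw => autFun_one (hVQ hw), fun x hx => by
        show x⁻¹ * autFun (1 : MulAut Q) x ∈ V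
        rw [autFun_one (hWQ hx), inv_mul_cancel]; exact one_mem _, fun x hx => by
        show x⁻¹ * autFun (1 : MulAut Q) x ∈ W
        rw [autFun_one hx, inv_mul_cancel]; exact one_mem _⟩
      mul_mem' := by
        rintro a b ⟨a1, a2, a3⟩ ⟨b1, b2, b3⟩
        refine ⟨fun w hw => ?_, fun x hx => ?_, fun x hx => ?_⟩
        · show autFun ((a : MulAut Q) * (b : MulAut Q)) w = w
          rw [autFun_mul _ _ (hVQ hw), b1 w hw, a1 w hw]
        · show x⁻¹ * autFun ((a : MulAut Q) * (b : MulAut Q)) x ∈ V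
          rw [autFun_mul _ _ (hWQ hx)]
          have := mul_mem (b2 x hx) (a2 _ (hW _ b.2 x hx))
          rwa [mul_assoc, mul_inv_cancel_left] at this
        · show x⁻¹ * autFun ((a : MulAut Q) * (b : MulAut Q)) x ∈ W
          rw [autFun_mul _ _ hx]
          have := mul_mem (b3 x hx) (a3 _ (autFun_mem (b : MulAut Q) hx))
          rwa [mul_assoc, mul_inv_cancel_left] at this
      inv_mem' := by
        rintro a ⟨a1, a2, a3⟩
        have ha' : ((a : MulAut Q)⁻¹) ∈ F.autGroup Q := Subgroup.inv_mem _ a.2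
        have a1' : ∀ w ∈ V, autFun (a : MulAut Q)⁻¹ w = w := by
          intro w hw
          conv_lhs => rw [← a1 w hw]
          rw [autFun_inv_apply _ (hVQ hw)]
        refine ⟨a1', fun x hx => ?_, fun x hx => ?_⟩
        · show x⁻¹ * autFun (a : MulAut Q)⁻¹ x ∈ V
          have h3 := a2 _ (hW _ ha' x hx)
          rw [autFun_apply_inv _ (hWQ hx)] at h3
          have h4 := Subgroup.inv_mem _ h3
          rwa [mul_inv_rev, inv_inv] at h4
        · show x⁻¹ * autFun (a : MulAut Q)⁻¹ x ∈ W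
          have h3 := a3 _ (autFun_mem (a : MulAut Q)⁻¹ hx)
          rw [autFun_apply_inv _ hx] at h3
          have h4 := Subgroup.inv_mem _ h3
          rwa [mul_inv_rev, inv_inv] at h4 }
  have hBn : B.Normal := by
    refine ⟨fun b hb g => ?_⟩
    obtain ⟨b1, b2, b3⟩ := hb
    have hgm := mor_autFun hQS g.2
    have hgi : ((g : MulAut Q)⁻¹) ∈ F.autGroup Q := Subgroup.inv_mem _ g.2
    refine ⟨fun w hw => ?_, fun x hx => ?_, fun x hx => ?_⟩
    · show autFun ((g : MulAut Q) * (b : MulAut Q) * (g : MulAut Q)⁻¹) w = w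
      rw [autFun_mul _ _ (hVQ hw), autFun_mul _ _ (autFun_mem _ (hVQ hw)), b1 _ (hV _ hgi w hw),
        autFun_apply_inv _ (hVQ hw)]
    · show x⁻¹ * autFun ((g : MulAut Q) * (b : MulAut Q) * (g : MulAut Q)⁻¹) x ∈ V
      have hx' : autFun (g : MulAut Q)⁻¹ x ∈ W := hW _ hgi x hx
      have h3 := hV _ g.2 _ (b2 _ hx')
      rw [hgm.mul (Subgroup.inv_mem _ (hWQ hx')) (autFun_mem _ (hWQ hx')), hgm.inv (hWQ hx'), autFun_apply_inv _ (hWQ hx)] at h3
      rw [autFun_mul _ _ (hWQ hx), autFun_mul _ _ (hWQ hx')]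
      exact h3
    · show x⁻¹ * autFun ((g : MulAut Q) * (b : MulAut Q) * (g : MulAut Q)⁻¹) x ∈ W
      have hx' : autFun (g : MulAut Q)⁻¹ x ∈ Q := autFun_mem _ hx
      have h3 := hW _ g.2 _ (b3 _ hx')
      rw [hgm.mul (Subgroup.inv_mem _ hx') (autFun_mem _ hx'), hgm.inv hx', autFun_apply_inv _ hx] at h3
      rw [autFun_mul _ _ hx, autFun_mul _ _ hx']
      exact h3
  have key : ∀ {X Y : Subgroup Ω} {n : ℕ}, X ≤ Y → Y ≤ Q → Nat.card X = p ^ n → Finite X →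
      ∀ b ∈ F.autGroup Q, (∀ w ∈ X, autFun b w = w) → (∀ x ∈ Y, x⁻¹ * autFun b x ∈ X) →
      ∀ x ∈ Y, autFun (b ^ p ^ n) x = x := by
    intro X Y n hXY hYQ hX hXf b hb b1 b2 x hx
    have hbm := mor_autFun hQS hb
    have h3 : ∀ m : ℕ, autFun (b ^ m) x = x * (x⁻¹ * autFun b x) ^ m := by
      intro m
      induction m with
      | zero => rw [pow_zero, autFun_one (hYQ hx), pow_zero, mul_one]
      | succ m ih =>
        have h4 := b2 x hx
        have h5 : ∀ w ∈ X, autFun b w = w := b1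
        rw [pow_succ', autFun_mul _ _ (hYQ hx), ih,
          hbm.mul (hYQ hx) (Subgroup.pow_mem _ (hYQ (hXY h4)) m), h5 _ (Subgroup.pow_mem _ h4 m),
          pow_succ', ← mul_assoc x, mul_inv_cancel_left]
    rw [h3]
    have h4 : (⟨_, b2 x hx⟩ : X) ^ Nat.card X = 1 := pow_card_eq_one'
    rw [hX] at h4
    have h5 : (x⁻¹ * autFun b x) ^ p ^ n = 1 := congrArg Subtype.val h4
    rw [h5, mul_one]
  have hBp : IsPGroup p B := by
    rintro ⟨b, hb⟩
    refine ⟨m + n, Subtype.ext (Subtype.ext ?_)⟩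
    show (b : MulAut Q) ^ p ^ (m + n) = 1
    have hbm : b ^ p ^ m ∈ B := Subgroup.pow_mem _ hb _
    have h5 := key hVW hWQ hm hVf b b.2 hb.1 hb.2.1
    have h6 := key hWQ le_rfl hn hWf ((b : MulAut Q) ^ p ^ m) (Subgroup.pow_mem _ b.2 _) h5 hbm.2.2
    apply mulAut_ext
    intro x hx
    rw [pow_add, pow_mul, h6 x hx, autFun_one hx]
  have h4 : B ≤ Cfsg.pCore p (F.autGroup Q) := le_pCore hBn hBp
  have hgA : conjAut Q g hgN ∈ F.autGroup Q := autInducedBy_le hQS le_rfl (conjAut_mem hgN hg)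
  have h5 : (⟨_, hgA⟩ : F.autGroup Q) ∈ B := by
    refine ⟨fun w hw => ?_, fun x hx => ?_, fun x hx => ?_⟩
    · show autFun (conjAut Q g hgN) w = w
      rw [autFun_conjAut hgN (hVQ hw)]; exact h1 w hw
    · show x⁻¹ * autFun (conjAut Q g hgN) x ∈ V
      rw [autFun_conjAut hgN (hWQ hx)]; exact h2 x hx
    · show x⁻¹ * autFun (conjAut Q g hgN) x ∈ W
      rw [autFun_conjAut hgN hx]; exact h3 x hx
  have h6 : conjAut Q g hgN ∈ Inn Q := by
    rw [← hr.2]; exact ⟨_, h4 h5, rfl⟩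
  obtain ⟨u, hu, h6⟩ := mem_Inn.1 h6
  have h7 : u⁻¹ * g ∈ centralizerIn S Q := by
    refine mem_centralizerIn.2 ⟨mul_mem (Subgroup.inv_mem _ (hQS hu)) hg, fun y hy => ?_⟩
    have h8 := h6 y hy
    rw [autFun_conjAut hgN hy] at h8
    have h10 : g * y = u * y * u⁻¹ * g := by rw [← h8]; simp
    calc u⁻¹ * g * y = u⁻¹ * (g * y) := by rw [mul_assoc]
      _ = y * (u⁻¹ * g) := by rw [h10]; simp [mul_assoc]
  simpa using mul_mem hu (centric_centralizer hc h7)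

include hF

/-- The local analysis. -/
theorem ges_local (h : GX p P) (hP : F.StronglyClosed P) (hRP : R ≤ P)
    (hRc : ∀ a ∈ R, ∀ b ∈ R, a * b = b * a) (hRe : ∀ a ∈ R, a ^ p = 1)
    (hRC : ∀ g ∈ P, (∀ r ∈ R, g * r = r * g) → g ∈ R) (hfn : F.IsFullyNormalized R)
    {β : MulAut R} (hβ : β ∈ F.autGroup R) {z₀ : Ω} (hz₀ : z₀ ∈ ⁅P, P⁆) (hβz : autFun β z₀ ∉ ⁅P, P⁆) :
    ∃ z₁ ∈ R, (∀ x ∈ P, x * z₁ = z₁ * x → x ∈ R) ∧ (p ≠ 2 → ∀ x ∈ P, x ^ p = 1) := by
  have hPS := hP.1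
  have hRS : R ≤ S := hRP.trans hPS
  have hPf : Finite P := finite_of_le hPS
  have hRf : Finite R := finite_of_le hRS
  obtain ⟨Z, hZdef⟩ : ∃ Z, Z = ⁅P, P⁆ := ⟨_, rfl⟩
  rw [← hZdef] at hz₀ hβz
  have hZcard : Nat.card Z = p := hZdef ▸ h.card
  have hZP : Z ≤ P := hZdef ▸ GX.le
  have hZcen : ∀ z ∈ Z, ∀ a ∈ P, a * z = z * a := hZdef ▸ h.cen
  have hZR : Z ≤ R := fun z hz => hRC z (hZP hz) (fun r hr => (hZcen z hz r (hRP hr)).symm)
  have hZf : Finite Z := finite_of_le hZR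
  have hPN : ∀ g ∈ P, g ∈ Subgroup.normalizer (R : Set Ω) := by
    intro g hg
    apply mem_normalizer_of_finite
    intro x hx
    have h1 : g * x * g⁻¹ * x⁻¹ ∈ R := hZR (by rw [hZdef]; exact comm_mem_P hg (hRP hx))
    have h2 := mul_mem h1 hx
    rwa [inv_mul_cancel_right] at h2
  letI := cg hRc
  have hRp : IsPGroup p R := hS.to_le hRS
  have htvd : ∀ g (hg : g ∈ P), g ∉ R → (∀ x : R, x ∈ Um (conjAut R g (hPN g hg)) ↔ (x : Ω) ∈ Z) ∧
      IsTv p (conjAut R g (hPN g hg)) := by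
    intro g hg hgR
    obtain ⟨α, hα⟩ : ∃ α, α = conjAut R g (hPN g hg) := ⟨_, rfl⟩
    rw [← hα]
    have hαx : ∀ x ∈ R, autFun α x = g * x * g⁻¹ := fun x hx => by rw [hα]; exact autFun_conjAut _ hx
    have hle : (Um α).map R.subtype ≤ Z := by
      rintro _ ⟨w, hw, rfl⟩
      obtain ⟨y, rfl⟩ := mem_Um.1 hw
      have h2 : ((α y * y⁻¹ : R) : Ω) = g * y * g⁻¹ * (y : Ω)⁻¹ := by
        rw [Subgroup.coe_mul, ← autFun_coe, hαx y y.2]; rfl
      show ((α y * y⁻¹ : R) : Ω) ∈ Z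
      rw [h2, hZdef]; exact comm_mem_P hg (hRP y.2)
    have hcard : Nat.card ((Um α).map R.subtype) = p := by
      have h2 := Subgroup.card_dvd_of_le hle
      rw [hZcard] at h2
      rcases (Nat.dvd_prime hp.out).1 h2 with h3 | h3
      · exfalso
        rw [Subgroup.card_eq_one] at h3
        apply hgR
        apply hRC g hg
        intro r hr
        have h4 : ((α ⟨r, hr⟩ * (⟨r, hr⟩ : R)⁻¹ : R) : Ω) ∈ (Um α).map R.subtype := ⟨_, dl_mem_Um α ⟨r, hr⟩, rfl⟩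
        rw [h3, Subgroup.mem_bot] at h4
        have h5 : ((α ⟨r, hr⟩ * (⟨r, hr⟩ : R)⁻¹ : R) : Ω) = g * r * g⁻¹ * r⁻¹ := by
          rw [Subgroup.coe_mul, ← autFun_coe, hαx r hr]; rfl
        rw [h5, mul_inv_eq_one, mul_inv_eq_iff_eq_mul] at h4
        exact h4
      · exact h3
    have heq : (Um α).map R.subtype = Z := eq_of_le_of_card hle (by rw [hcard, hZcard])
    have hUm : ∀ x : R, x ∈ Um α ↔ (x : Ω) ∈ Z := by
      intro y
      rw [← heq]
      constructor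
      · intro hy; exact ⟨y, hy, rfl⟩
      · rintro ⟨z, hz, hzy⟩
        have : z = y := Subtype.ext hzy
        exact this ▸ hz
    refine ⟨hUm, ?_, ?_⟩
    · apply pElement_of_chain hRp (U := Um α) (fun x => dl_mem_Um α x)
      intro u hu
      apply Subtype.ext
      rw [← autFun_coe, hαx u u.2, hZcen u ((hUm u).1 hu) g hg, mul_inv_cancel_right]
    · rw [← hcard]
      exact Nat.card_congr ((Um α).equivMapOfInjective _ (Subgroup.subtype_injective R)).toEquiv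
  have hcA : ∀ g (hg : g ∈ P), conjAut R g (hPN g hg) ∈ F.autGroup R := fun g hg =>
    autInducedBy_le hRS le_rfl (conjAut_mem _ (hPS hg))
  -- conjugates into `Aut_S(R)` come from stabilizers of `Z`
  have hstab : ∀ δ ∈ F.autGroup R, ∀ g (hg : g ∈ P), g ∉ R →
      δ * conjAut R g (hPN g hg) * δ⁻¹ ∈ autInducedBy S R → ∀ z ∈ Z, autFun δ z ∈ Z := by
    intro δ hδ g hg hgR hmem z hz
    obtain ⟨s, hs, h1⟩ := mem_autInducedBy'.1 hmem
    have hδm := mor_autFun hRS hδ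
    have hrec : F.IsReceptive (img R (autFun δ)) := by rw [img_autFun]; exact FN.rec hS hF hfn
    obtain ⟨k, hk, hkx⟩ := receptive_extend hrec hδm
    have hgN : g ∈ Nf S R (autFun δ) := by
      rw [mem_Nf]
      refine ⟨hPS hg, hPN g hg, s, hs, fun x hx => ?_⟩
      have h2 := h1 (autFun δ x) (autFun_mem _ hx)
      rw [autFun_mul _ _ (autFun_mem _ hx), autFun_inv_apply _ hx, autFun_mul _ _ hx, autFun_conjAut _ hx] at h2
      exact h2
    have hRNf : R ≤ Nf S R (autFun δ) := hδm.le_Nf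
    have hkg : k g ∈ P := sc_apply hP hk hgN hg
    have h2 : (⟨z, hZR hz⟩ : R) ∈ Um (conjAut R g (hPN g hg)) := ((htvd g hg hgR).1 _).2 hz
    obtain ⟨y, hy⟩ := mem_Um.1 h2
    have h3 : z = g * y * g⁻¹ * (y : Ω)⁻¹ := by
      have h4 : ((conjAut R g (hPN g hg) y * y⁻¹ : R) : Ω) = z := congrArg Subtype.val hy
      rw [← h4, Subgroup.coe_mul, ← autFun_coe, autFun_conjAut _ y.2]; rfl
    have hyN := hRNf y.2
    have h4 : autFun δ z = k g * k y * (k g)⁻¹ * (k y)⁻¹ := by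
      rw [← hkx z (hZR hz), h3, hk.mul (mul_mem (mul_mem hgN hyN) (Subgroup.inv_mem _ hgN)) (Subgroup.inv_mem _ hyN),
        hk.mul (mul_mem hgN hyN) (Subgroup.inv_mem _ hgN), hk.mul hgN hyN, hk.inv hgN, hk.inv hyN]
    have hky : k y ∈ P := by rw [hkx y y.2]; exact hRP (autFun_mem _ y.2)
    rw [h4, hZdef]
    exact comm_mem_P hkg hky
  -- pairs
  have hpair : ∀ g (hg : g ∈ P), g ∉ R → ∀ g' (hg' : g' ∈ P), g' ∉ R →
      ¬ IsPGroup p (Subgroup.closure ({conjAut R g (hPN g hg), β * conjAut R g' (hPN g' hg') * β⁻¹} : Set (MulAut R))) := by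
    intro g hg hgR g' hg' hgR' hpg
    obtain ⟨δ, hδ, h1⟩ := exists_conj_le_autInduced (FN.fa hS hF hfn) ((Subgroup.closure_le _).2 (by
      rintro x (rfl | rfl)
      · exact hcA g hg
      · exact mul_mem (mul_mem hβ (hcA g' hg')) (Subgroup.inv_mem _ hβ))) hpg
    have h2 := hstab δ hδ g hg hgR (h1 _ (Subgroup.subset_closure (by simp)))
    have h3 := hstab (δ * β) (mul_mem hδ hβ) g' hg' hgR' (by
      have h4 := h1 (β * conjAut R g' (hPN g' hg') * β⁻¹) (Subgroup.subset_closure (by simp))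
      have h5 : δ * β * conjAut R g' (hPN g' hg') * (δ * β)⁻¹ = δ * (β * conjAut R g' (hPN g' hg') * β⁻¹) * δ⁻¹ := by
        rw [mul_inv_rev]; simp only [mul_assoc]
      rw [h5]; exact h4)
    have h4 := h3 z₀ hz₀
    rw [autFun_mul _ _ (hZR hz₀)] at h4
    have hδm := (mor_autFun hRS hδ).mono hZR
    have h5 : img Z (autFun δ) = Z := by
      apply eq_of_le_of_card (img_le_iff.2 h2)
      rw [hδm.card_img]
    rw [← h5, hδm.mem_img] at h4
    obtain ⟨w, hw, hwe⟩ := h4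
    have h6 := (mor_autFun hRS hδ).inj (hZR hw) (autFun_mem β (hZR hz₀)) hwe
    exact hβz (h6 ▸ hw)
  -- an element outside R
  obtain ⟨g₀, hg₀, hg₀R⟩ : ∃ g ∈ P, g ∉ R := by
    by_contra hcon
    push Not at hcon
    have h1 : Z = ⊥ := by
      rw [hZdef, eq_bot_iff, Subgroup.commutator_le]
      intro a ha b hb
      rw [Subgroup.mem_bot, commutatorElement_def, hRc a (hcon a ha) b (hcon b hb)]
      group
    rw [h1, Subgroup.card_bot] at hZcard
    exact hp.out.one_lt.ne hZcard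
  refine ⟨autFun β z₀, autFun_mem _ (hZR hz₀), ?_, ?_⟩
  · intro g hg hgz
    by_contra hgR
    obtain ⟨hU, htv⟩ := htvd g hg hgR
    obtain ⟨hU0, htv0⟩ := htvd g₀ hg₀ hg₀R
    obtain ⟨t, ht⟩ : ∃ t, t = β * conjAut R g₀ (hPN g₀ hg₀) * β⁻¹ := ⟨_, rfl⟩
    have htvt : IsTv p t := by rw [ht]; exact htv0.conj β
    obtain ⟨k, hk⟩ := htv.pow
    have h1 : (⟨z₀, hZR hz₀⟩ : R) ∈ Um (conjAut R g₀ (hPN g₀ hg₀)) := (hU0 _).2 hz₀
    have h2 : β ⟨z₀, hZR hz₀⟩ ∈ Um t := by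
      rw [ht, mem_Um_conj, MulAut.inv_apply_self]; exact h1
    have hne : β ⟨z₀, hZR hz₀⟩ ≠ 1 := by
      intro h3
      apply hβz
      rw [autFun_apply β (hZR hz₀), h3]
      exact one_mem _
    obtain ⟨h3, -⟩ := zpowers_eq_of_card htvt.card h2 hne
    have h4 := isPGroup_closure hRp (U := Um t) (α := t) (β := conjAut R g (hPN g hg))
      (fun x => dl_mem_Um t x) htvt.fix (by
        intro u hu
        rw [← h3] at hu
        obtain ⟨i, rfl⟩ := hu
        show (conjAut R g (hPN g hg)) (β ⟨z₀, hZR hz₀⟩ ^ i) = β ⟨z₀, hZR hz₀⟩ ^ i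
        rw [map_zpow]
        congr 1
        apply Subtype.ext
        rw [← autFun_coe, autFun_conjAut _ (β ⟨z₀, hZR hz₀⟩).2, ← autFun_apply β (hZR hz₀), hgz,
          mul_inv_cancel_right]) hk
    apply hpair g hg hgR g₀ hg₀ hg₀R
    rw [Set.pair_comm, ← ht]
    exact h4
  · intro hp2 x hx
    by_cases hxR : x ∈ R
    · exact hRe x hxR
    obtain ⟨hU, htv⟩ := htvd x hx hxR
    obtain ⟨τ, hτ, hτc, hτu⟩ := exists_tau_pair hRp htv (htv.conj β) (hpair x hx hxR x hx hxR)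
    have hτA : τ ∈ F.autGroup R := ((Subgroup.closure_le _).2 (by
      rintro y (rfl | rfl)
      · exact hcA x hx
      · exact mul_mem (mul_mem hβ (hcA x hx)) (Subgroup.inv_mem _ hβ))) hτ
    have hτm := mor_autFun hRS hτA
    have hrec : F.IsReceptive (img R (autFun τ)) := by rw [img_autFun]; exact FN.rec hS hF hfn
    obtain ⟨k, hk, hkx⟩ := receptive_extend hrec hτm
    have hτc' : ∀ y ∈ R, autFun τ (x * y * x⁻¹) = x * autFun τ y * x⁻¹ := by
      intro y hy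
      have h1 : autFun (τ * conjAut R x (hPN x hx)) y = autFun (conjAut R x (hPN x hx) * τ) y := by rw [hτc]
      rw [autFun_mul _ _ hy, autFun_mul _ _ hy, autFun_conjAut _ hy, autFun_conjAut _ (autFun_mem _ hy)] at h1
      exact h1
    have hxN : x ∈ Nf S R (autFun τ) := by
      rw [mem_Nf]
      exact ⟨hPS hx, hPN x hx, x, hPS hx, hτc'⟩
    have hRNf : R ≤ Nf S R (autFun τ) := hτm.le_Nf
    have hkP : k x ∈ P := sc_apply hP hk hxN hx
    obtain ⟨r, hr⟩ : ∃ r, r = x⁻¹ * k x := ⟨_, rfl⟩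
    have hrR : r ∈ R := by
      apply hRC r (by rw [hr]; exact mul_mem (Subgroup.inv_mem _ hx) hkP)
      intro y hy
      -- y = τ y'
      have hy' : autFun τ⁻¹ y ∈ R := autFun_mem _ hy
      have e1 : k (x * autFun τ⁻¹ y * x⁻¹) = k x * y * (k x)⁻¹ := by
        rw [hk.mul (mul_mem hxN (hRNf hy')) (Subgroup.inv_mem _ hxN), hk.mul hxN (hRNf hy'), hk.inv hxN, hkx _ hy',
          autFun_apply_inv _ hy]
      have e2 : k (x * autFun τ⁻¹ y * x⁻¹) = x * y * x⁻¹ := by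
        rw [hkx _ ((Subgroup.mem_normalizer_iff.1 (hPN x hx) _).1 hy'), hτc' _ hy', autFun_apply_inv _ hy]
      have e3 : k x * y * (k x)⁻¹ = x * y * x⁻¹ := e1.symm.trans e2
      rw [hr]
      calc x⁻¹ * k x * y = x⁻¹ * (k x * y * (k x)⁻¹) * k x := by group
        _ = y * (x⁻¹ * k x) := by rw [e3]; group
    have hkx' : k x = x * r := by rw [hr]; group
    have hcomm : ⁅r, x⁆ ∈ Z := by
      rw [hZdef]; exact Subgroup.commutator_mem_commutator (hRP hrR) hx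
    have hcp : ⁅r, x⁆ ^ p = 1 := by
      have h4 : (⟨⁅r, x⁆, hcomm⟩ : Z) ^ Nat.card Z = 1 := pow_card_eq_one'
      rw [hZcard] at h4
      exact congrArg Subtype.val h4
    have hdiv : p ∣ p * (p - 1) / 2 := by
      have h9 : 2 ∣ p - 1 := by
        rcases hp.out.eq_two_or_odd' with h | h
        · exact absurd h hp2
        · obtain ⟨k, hk⟩ := h
          exact ⟨k, by omega⟩
      rw [Nat.mul_div_assoc _ h9]
      exact dvd_mul_right _ _
    obtain ⟨l, hl⟩ := hdiv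
    have e1 : (x * r) ^ p = x ^ p := by
      rw [H2.mul_pow_of_comm (hZcen _ hcomm x hx) (hZcen _ hcomm r (hRP hrR)) p, hRe r hrR, hl, pow_mul, hcp,
        one_pow, mul_one, mul_one]
    have hxp : x ^ p ∈ Z := by rw [hZdef]; exact h.pw x hx
    have e2 : k (x ^ p) = x ^ p := by rw [hk.pow hxN, hkx', e1]
    have e3 : k (x ^ p) = (x ^ p)⁻¹ := by
      rw [hkx _ (hZR hxp), autFun_apply τ (hZR hxp), hτu _ ((hU _).2 hxp)]; rfl
    have e4 : (x ^ p) ^ 2 = 1 := by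
      rw [sq]; nth_rewrite 1 [← e2]; rw [e3, inv_mul_cancel]
    have e5 : (x ^ p) ^ p = 1 := by
      have h4 : (⟨x ^ p, hxp⟩ : Z) ^ Nat.card Z = 1 := pow_card_eq_one'
      rw [hZcard] at h4
      exact congrArg Subtype.val h4
    have h9 : orderOf (x ^ p) ∣ 1 := by
      have h10 : Nat.Coprime p 2 := (Nat.coprime_primes hp.out Nat.prime_two).2 hp2
      rw [← h10]
      exact Nat.dvd_gcd (orderOf_dvd_of_pow_eq_one e5) (orderOf_dvd_of_pow_eq_one e4)
    exact orderOf_eq_one_iff.1 (Nat.dvd_one.1 h9)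

end

end Cfsg.Agent.H28
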