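import Mathlib
import Cfsg.Agent.H28.GES2
import Cfsg.Agent.H28.AbIdx7
import Cfsg.Agent.H19.Cube

/-!
Strongly closed generalized extraspecial subgroups: the main theorem.
-/

set_option autoImplicit false

namespace Cfsg.Agent.H28

open Cfsg.FusionSystem
open scoped commutatorElement Pointwise

universe u v

section
variable {Ω : Type u} [Group Ω] {S : Subgroup Ω} {F : FusionSystem S} {P Q R E K X Z : Subgroup Ω} {f : Ω → Ω}
  {p : ℕ} [hp : Fact p.Prime] {s : Ω}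

theorem exists_norm_mem [Finite S] (hS : IsPGroup p S) (hQS : Q ≤ S) (hKS : K ≤ S)
    (hQK : Q ≤ Subgroup.normalizer (K : Set Ω)) (hn : ¬ K ≤ Q) :
    ∃ g ∈ K, g ∈ Subgroup.normalizer (Q : Set Ω) ∧ g ∉ Q := by
  have hT : Q ⊔ K ≤ S := sup_le hQS hKS
  have hTf : Finite (Q ⊔ K : Subgroup Ω) := finite_of_le hT
  have hlt : Q < Q ⊔ K := lt_of_le_of_ne le_sup_left (fun h => hn (by rw [h]; exact le_sup_right))
  obtain ⟨x, hx, hxQ⟩ := SetLike.exists_of_lt (lt_normalizerIn (hS.to_le hT) hlt)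
  have h1 : x ∈ (Q : Set Ω) * (K : Set Ω) := by
    rw [← Subgroup.coe_mul_of_left_le_normalizer_right Q K hQK]; exact hx.1
  obtain ⟨q, hq, g, hg, rfl⟩ := Set.mem_mul.1 h1
  refine ⟨g, hg, ?_, fun hgQ => hxQ (mul_mem hq hgQ)⟩
  have h2 := mul_mem (Subgroup.inv_mem _ (Subgroup.le_normalizer hq)) hx.2
  rwa [inv_mul_cancel_left] at h2

theorem central_of_card_prime [Finite S] (hS : IsPGroup p S) (hZS : Z ≤ S) (hZ : Nat.card Z = p)
    (hn : S ≤ Subgroup.normalizer (Z : Set Ω)) (hs : s ∈ S) {z : Ω} (hz : z ∈ Z) : s * z = z * s := by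
  have hZf : Finite Z := finite_of_le hZS
  have hcy : IsCyclic Z := isCyclic_of_prime_card hZ
  have hcomm : ∀ a ∈ Z, ∀ b ∈ Z, a * b = b * a := by
    intro a ha b hb
    obtain ⟨w, hw⟩ := hcy.exists_generator
    obtain ⟨i, hi⟩ := hw ⟨a, ha⟩
    obtain ⟨j, hj⟩ := hw ⟨b, hb⟩
    have h1 : (⟨a, ha⟩ : Z) * ⟨b, hb⟩ = ⟨b, hb⟩ * ⟨a, ha⟩ := by
      rw [← hi, ← hj]; exact (Commute.refl w).zpow_zpow i j
    exact congrArg Subtype.val h1
  letI := cg hcomm
  by_cases hz1 : z = 1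
  · rw [hz1]; simp
  obtain ⟨k, hk⟩ := hS ⟨s, hs⟩
  have hk' : s ^ p ^ k = 1 := congrArg Subtype.val hk
  obtain ⟨α, hα⟩ : ∃ α, α = conjAut Z s (hn hs) := ⟨_, rfl⟩
  have hαx : ∀ x : Z, ((α x : Z) : Ω) = s * x * s⁻¹ := by
    intro x
    rw [← autFun_coe, hα, autFun_conjAut _ x.2]
  have hαn : ∀ (n : ℕ) (x : Z), (((α ^ n) x : Z) : Ω) = s ^ n * x * (s ^ n)⁻¹ := by
    intro n
    induction n with
    | zero => intro x; simp
    | succ n ih => intro x; rw [pow_succ', MulAut.mul_apply, hαx, ih, pow_succ']; group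
  have hord : orderOf (⟨z, hz⟩ : Z) = p := by
    apply orderOf_eq_prime
    · rw [← hZ]; exact pow_card_eq_one'
    · intro h; exact hz1 (congrArg Subtype.val h)
  have h1 := fix_of_prime (α := α) (u := ⟨z, hz⟩) hord (by
    obtain ⟨m, hm⟩ := mem_zpowers_of_card hZ hz hz1 (α ⟨z, hz⟩).2
    exact ⟨m, Subtype.ext hm⟩) (k := k) (by
    apply Subtype.ext
    rw [hαn, hk']; simp)
  have h2 : s * z * s⁻¹ = z := by rw [← hαx ⟨z, hz⟩, h1]
  exact mul_inv_eq_iff_eq_mul.1 h2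

theorem GX.exists_comm (h : GX p P) : ∃ a ∈ P, ∃ b ∈ P, a * b * a⁻¹ * b⁻¹ ≠ 1 := by
  by_contra hcon
  push Not at hcon
  have h1 : ⁅P, P⁆ = ⊥ := by
    rw [eq_bot_iff, Subgroup.commutator_le]
    intro a ha b hb
    rw [Subgroup.mem_bot, commutatorElement_def]
    exact hcon a ha b hb
  have h2 := h.card
  rw [h1, Subgroup.card_bot] at h2
  exact hp.out.one_lt.ne h2

theorem GX.mor_mem [Finite S] (h : GX p P) (hP : F.StronglyClosed P) (hf : Mor F X f) (hPX : P ≤ X) {z : Ω}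
    (hz : z ∈ ⁅P, P⁆) : f z ∈ ⁅P, P⁆ := by
  obtain ⟨a, ha, b, hb, hab⟩ := h.exists_comm
  have hPf : Finite P := finite_of_le hP.1
  have hZf : Finite (⁅P, P⁆ : Subgroup Ω) := finite_of_le GX.le
  obtain ⟨k, rfl⟩ := mem_zpowers_of_card h.card (comm_mem_P ha hb) hab hz
  have ha' := hPX ha
  have hb' := hPX hb
  have hw : a * b * a⁻¹ * b⁻¹ ∈ X := hPX (GX.le (comm_mem_P ha hb))
  rw [hf.zpow hw]
  apply zpow_mem
  rw [hf.mul (mul_mem (mul_mem ha' hb') (Subgroup.inv_mem _ ha')) (Subgroup.inv_mem _ hb'),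
    hf.mul (mul_mem ha' hb') (Subgroup.inv_mem _ ha'), hf.mul ha' hb', hf.inv ha', hf.inv hb']
  exact comm_mem_P (sc_apply hP hf ha' ha) (sc_apply hP hf hb' hb)

variable [Finite S] (hS : IsPGroup p S) (hF : F.IsSaturated p)
include hS hF

theorem ges_main (h : GX p P) (hP : F.StronglyClosed P) (hn : ¬ F.IsNormal P) :
    ∃ R z₁, R ≤ P ∧ (∀ a ∈ R, ∀ b ∈ R, a * b = b * a) ∧ (∀ a ∈ R, a ^ p = 1) ∧ z₁ ∈ R ∧
      (∀ x ∈ P, x * z₁ = z₁ * x → x ∈ R) ∧ (p ≠ 2 → ∀ x ∈ P, x ^ p = 1) := by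
  have hPS := hP.1
  have hPf : Finite P := finite_of_le hPS
  obtain ⟨Q, hQ, hPQ⟩ : ∃ Q, (Q = S ∨ F.IsEssential p Q) ∧ ¬ P ≤ Q := by
    by_contra hcon
    push Not at hcon
    apply hn
    apply normal_of_essential hS hF
    intro Q hQ
    have h1 := hcon Q hQ
    have hQS : Q ≤ S := by
      rcases hQ with rfl | hQ
      · exact le_rfl
      · exact hQ.1.1
    exact ⟨h1, fun α hα => sc_img_eq hP (mor_autFun hQS hα) h1⟩
  have hQe : F.IsEssential p Q := by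
    rcases hQ with rfl | hQ
    · exact absurd hPS hPQ
    · exact hQ
  have hc := hQe.1
  have hr := essential_radical hS hQe
  have hQS := hc.1
  obtain ⟨Z, hZdef⟩ : ∃ Z, Z = ⁅P, P⁆ := ⟨_, rfl⟩
  have hZP : Z ≤ P := hZdef ▸ GX.le
  have hZcard : Nat.card Z = p := hZdef ▸ h.card
  have hZf : Finite Z := finite_of_le hZP
  have hSP := sc_normalizer hP
  have hSZ : S ≤ Subgroup.normalizer (Z : Set Ω) := by
    intro s hs
    apply mem_normalizer_of_finite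
    intro z hz
    rw [hZdef] at hz ⊢
    exact h.mor_mem hP (mor_conj (F := F) le_rfl hs) hPS hz
  have hZcS : ∀ z ∈ Z, ∀ s ∈ S, s * z = z * s := fun z hz s hs =>
    central_of_card_prime hS (hZP.trans hPS) hZcard hSZ hs hz
  have hZQ : Z ≤ Q := by
    refine le_trans (fun z hz => mem_centralizerIn.2 ⟨hPS (hZP hz), fun y hy => (hZcS z hz y (hQS hy)).symm⟩)
      (centric_centralizer hc)
  obtain ⟨R, hRdef⟩ : ∃ R, R = Q ⊓ P := ⟨_, rfl⟩
  have hRP : R ≤ P := by rw [hRdef]; exact inf_le_right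
  have hRQ : R ≤ Q := by rw [hRdef]; exact inf_le_left
  have hRS := hRP.trans hPS
  have hRf : Finite R := finite_of_le hRS
  have hZR : Z ≤ R := by rw [hRdef]; exact le_inf hZQ hZP
  have hRinv : ∀ δ ∈ F.autGroup Q, ∀ x ∈ R, autFun δ x ∈ R := by
    intro δ hδ x hx
    rw [hRdef] at hx ⊢
    exact ⟨autFun_mem _ hx.1, sc_apply hP (mor_autFun hQS hδ) hx.1 hx.2⟩
  have hcomm1 : ∀ g ∈ P, g ∈ Subgroup.normalizer (Q : Set Ω) → ∀ x ∈ Q, x⁻¹ * (g * x * g⁻¹) ∈ R := by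
    intro g hg hgN x hx
    rw [hRdef]
    refine ⟨mul_mem (Subgroup.inv_mem _ hx) ((Subgroup.mem_normalizer_iff.1 hgN x).1 hx), ?_⟩
    have h1 : x⁻¹ * g * x⁻¹⁻¹ ∈ P := (Subgroup.mem_normalizer_iff.1 (hSP (Subgroup.inv_mem _ (hQS hx))) g).1 hg
    have h2 : x⁻¹ * (g * x * g⁻¹) = (x⁻¹ * g * x⁻¹⁻¹) * g⁻¹ := by group
    rw [h2]
    exact mul_mem h1 (Subgroup.inv_mem _ hg)
  -- an automorphism moving Z
  obtain ⟨α, hα, z, hz, hαz⟩ : ∃ α ∈ F.autGroup Q, ∃ z ∈ Z, autFun α z ∉ Z := by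
    by_contra hcon
    push Not at hcon
    obtain ⟨g, hgP, hgN, hgQ⟩ := exists_norm_mem hS hQS hPS (hQS.trans hSP) hPQ
    apply hgQ
    refine radical_chain3 hS hr hc hZR hRQ hcon hRinv (hPS hgP) hgN ?_ ?_ (hcomm1 g hgP hgN)
    · intro w hw
      rw [hZcS w hw g (hPS hgP), mul_inv_cancel_right]
    · intro x hx
      have h1 := comm_mem_P (P := P) (Subgroup.inv_mem _ (hRP hx)) hgP
      rw [inv_inv] at h1
      have h2 : x⁻¹ * (g * x * g⁻¹) = x⁻¹ * g * x * g⁻¹ := by group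
      rw [h2, hZdef]; exact h1
  have hαm := mor_autFun hQS hα
  -- R is elementary abelian
  have hnz : ∀ w ∈ Z, w ∈ Q → autFun α w ∈ Z → w = 1 := by
    intro w hw hwQ hαw
    by_contra hw1
    obtain ⟨k, hk⟩ := mem_zpowers_of_card hZcard hw hw1 hz
    apply hαz
    rw [← hk, hαm.zpow hwQ]
    exact zpow_mem hαw k
  have hRc : ∀ a ∈ R, ∀ b ∈ R, a * b = b * a := by
    intro a ha b hb
    have ha' := hRQ ha
    have hb' := hRQ hb
    have h1 : a * b * a⁻¹ * b⁻¹ = 1 := by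
      apply hnz
      · rw [hZdef]; exact comm_mem_P (hRP ha) (hRP hb)
      · exact mul_mem (mul_mem (mul_mem ha' hb') (Subgroup.inv_mem _ ha')) (Subgroup.inv_mem _ hb')
      · rw [hαm.mul (mul_mem (mul_mem ha' hb') (Subgroup.inv_mem _ ha')) (Subgroup.inv_mem _ hb'),
          hαm.mul (mul_mem ha' hb') (Subgroup.inv_mem _ ha'), hαm.mul ha' hb', hαm.inv ha', hαm.inv hb', hZdef]
        exact comm_mem_P (hRP (hRinv α hα a ha)) (hRP (hRinv α hα b hb))
    rwa [mul_inv_eq_one, mul_inv_eq_iff_eq_mul] at h1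
  have hRe : ∀ a ∈ R, a ^ p = 1 := by
    intro a ha
    apply hnz
    · rw [hZdef]; exact h.pw a (hRP ha)
    · exact Subgroup.pow_mem _ (hRQ ha) p
    · rw [hαm.pow (hRQ ha), hZdef]
      exact h.pw _ (hRP (hRinv α hα a ha))
  -- R is self-centralizing in P
  have hRC : ∀ g ∈ P, (∀ r ∈ R, g * r = r * g) → g ∈ R := by
    intro g hg hgr
    obtain ⟨K, hK⟩ : ∃ K, K = P ⊓ Subgroup.centralizer (R : Set Ω) := ⟨_, rfl⟩
    have hgK : g ∈ K := by
      rw [hK]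
      refine Subgroup.mem_inf.2 ⟨hg, Subgroup.mem_centralizer_iff.2 ?_⟩
      intro r hr; exact (hgr r hr).symm
    have hKP : K ≤ P := by rw [hK]; exact inf_le_left
    have hKf : Finite K := finite_of_le hKP
    have hKc : ∀ k ∈ K, ∀ r ∈ R, k * r = r * k := by
      intro k hk r hr
      rw [hK] at hk
      exact (Subgroup.mem_centralizer_iff.1 hk.2 r hr).symm
    have hRnorm : ∀ q ∈ Q, ∀ r ∈ R, q * r * q⁻¹ ∈ R := by
      intro q hq r hr
      rw [hRdef] at hr ⊢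
      exact ⟨mul_mem (mul_mem hq hr.1) (Subgroup.inv_mem _ hq),
        (Subgroup.mem_normalizer_iff.1 (hSP (hQS hq)) r).1 hr.2⟩
    have hQK : Q ≤ Subgroup.normalizer (K : Set Ω) := by
      intro q hq
      apply mem_normalizer_of_finite
      intro k hk
      rw [hK]
      refine Subgroup.mem_inf.2 ⟨(Subgroup.mem_normalizer_iff.1 (hSP (hQS hq)) k).1 (hKP hk),
        Subgroup.mem_centralizer_iff.2 ?_⟩
      intro r hr
      have h1 := hRnorm q⁻¹ (Subgroup.inv_mem _ hq) r hr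
      have h2 := hKc k hk _ h1
      have h3 : r * (q * k * q⁻¹) = q * (q⁻¹ * r * q⁻¹⁻¹ * k) * q⁻¹ := by group
      rw [h3, ← h2]; group
    have hKQ : K ≤ Q := by
      by_contra hKQ
      obtain ⟨k, hk, hkN, hkQ⟩ := exists_norm_mem hS hQS (hKP.trans hPS) hQK hKQ
      apply hkQ
      refine radical_chain hS hF hr hc hRQ hRinv (hPS (hKP hk)) hkN ?_ (hcomm1 k (hKP hk) hkN)
      intro w hw
      rw [hKc k hk w hw, mul_inv_cancel_right]
    rw [hRdef]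
    exact ⟨hKQ hgK, hg⟩
  -- move to a fully normalized subgroup
  have hPN : P ≤ normalizerIn S R := by
    intro g hg
    refine ⟨hPS hg, ?_⟩
    apply mem_normalizer_of_finite
    intro x hx
    have h1 : g * x * g⁻¹ * x⁻¹ ∈ R := hZR (by rw [hZdef]; exact comm_mem_P hg (hRP hx))
    have h2 := mul_mem h1 hx
    rwa [inv_mul_cancel_right] at h2
  obtain ⟨R', hR', hfn⟩ := exists_fullyNormalized (F := F) hRS
  obtain ⟨χ, hχ, hχR⟩ := FN.exists_map hS hF hfn hR'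
  have hχP : img P χ = P := sc_img_eq hP hχ hPN
  have hχP' := hχ.mono hPN
  have hχR' := hχ.mono (hRP.trans hPN)
  have hχm : ∀ x ∈ P, χ x ∈ P := fun x hx => by
    have := mem_img_of_mem (f := χ) hx
    rwa [hχP] at this
  have hR'P : R' ≤ P := by
    rw [← hχR, img_le_iff]
    exact fun x hx => hχm x (hRP hx)
  have hcomm' : ∀ a ∈ R', ∀ b ∈ R', a * b = b * a := by
    have h1 := (comm_img_iff hχR').2 hRc
    rwa [hχR] at h1
  have hexp' : ∀ a ∈ R', a ^ p = 1 := by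
    rw [← hχR]
    intro a ha
    obtain ⟨b, hb, rfl⟩ := hχR'.mem_img.1 ha
    rw [← hχR'.pow hb, hRe b hb, hχR'.one]
  have hRC' : ∀ g ∈ P, (∀ r ∈ R', g * r = r * g) → g ∈ R' := by
    intro g hg hgr
    have hg' := hg
    rw [← hχP, hχP'.mem_img] at hg'
    obtain ⟨g', hg'P, rfl⟩ := hg'
    rw [← hχR]
    apply mem_img_of_mem
    apply hRC g' hg'P
    intro r hr
    apply hχP'.inj (mul_mem hg'P (hRP hr)) (mul_mem (hRP hr) hg'P)
    rw [hχP'.mul hg'P (hRP hr), hχP'.mul (hRP hr) hg'P]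
    apply hgr
    rw [← hχR]; exact mem_img_of_mem hr
  obtain ⟨i, hi, hi1, hi2, hi3⟩ := hχR'.inverse
  rw [hχR] at hi hi2
  have hiR : ∀ x ∈ R', i x ∈ R := by
    intro x hx
    rw [← hχR, hχR'.mem_img] at hx
    obtain ⟨y, hy, rfl⟩ := hx
    rw [hi1 y hy]; exact hy
  have hαR := hαm.mono hRQ
  have hcomp := (hi.comp hαR (fun x hx => hiR x hx)).comp hχR' (fun x hx => hRinv α hα _ (hiR x hx))
  have hcimg : img R' (fun x => χ (autFun α (i x))) = R' := by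
    have hR'f : Finite R' := finite_of_le hR'P
    apply eq_of_le_of_card
    · rw [img_le_iff]
      intro x hx
      rw [← hχR]
      exact mem_img_of_mem (hRinv α hα _ (hiR x hx))
    · exact (hcomp.card_img).ge
  obtain ⟨β, hβ, hβx⟩ := hcomp.exists_aut hcimg
  have hz' : χ z ∈ ⁅P, P⁆ := h.mor_mem hP hχ hPN (hZdef ▸ hz)
  have hZχ : img Z χ = Z := by
    apply eq_of_le_of_card
    · rw [img_le_iff]
      intro w hw
      rw [hZdef] at hw ⊢
      exact h.mor_mem hP hχ hPN hw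
    · rw [(hχ.mono (hZP.trans hPN)).card_img]
  obtain ⟨z₁, hz₁, h1, h2⟩ := ges_local hS hF h hP hR'P hcomm' hexp' hRC' hfn hβ hz' (by
    have hzR : χ z ∈ R' := by rw [← hχR]; exact mem_img_of_mem (hZR hz)
    rw [hβx _ hzR]
    show χ (autFun α (i (χ z))) ∉ ⁅P, P⁆
    rw [hi1 z (hZR hz), ← hZdef]
    intro hmem
    rw [← hZχ, (hχ.mono (hZP.trans hPN)).mem_img] at hmem
    obtain ⟨w, hw, hwe⟩ := hmem
    have h3 := hχP'.inj (hZP hw) (hRP (hRinv α hα z (hZR hz))) hwe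
    exact hαz (h3 ▸ hw))
  exact ⟨R', z₁, hR'P, hcomm', hexp', hz₁, h1, h2⟩

end

end Cfsg.Agent.H28
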