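import Mathlib
import Cfsg.Agent.H28.IPI3

/-!
Subsystems of index prime to `p`: the main theorem.
-/

set_option autoImplicit false

namespace Cfsg.Agent.H28

open Cfsg.FusionSystem

universe u

section
variable {Ω : Type u} [Group Ω] {S T : Subgroup Ω} {F E : FusionSystem S} {P Q X Y Z P₁ W M D : Subgroup Ω}
  {f g φ θ χ : Ω → Ω} {p : ℕ}

/-- The property of maps used in the induction. -/
def PnProp (F E : FusionSystem S) (Y : Subgroup Ω) (f : Ω → Ω) : Prop :=
  ∀ χ χ', Mor E (normalizerIn S Y) χ → F.IsFullyNormalized (img Y χ) →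
    Mor E (normalizerIn S (img Y f)) χ' → F.IsFullyNormalized (img (img Y f) χ') →
    ∃ ψ, Mor E (img Y χ ⊔ centralizerIn S (img Y χ)) ψ ∧ ∀ y ∈ Y, ψ (χ y) = χ' (f y)

theorem PnProp.congr (h : PnProp F E Y f) (hfg : ∀ x ∈ Y, f x = g x) : PnProp F E Y g := by
  have h1 : img Y g = img Y f := img_congr fun x hx => (hfg x hx).symm
  intro χ χ' h2 h3 h4 h5
  rw [h1] at h4 h5
  obtain ⟨ψ, hψ, e⟩ := h χ χ' h2 h3 h4 h5
  exact ⟨ψ, hψ, fun y hy => by rw [e y hy, hfg y hy]⟩

variable [hp : Fact p.Prime] [Finite S] (hS : IsPGroup p S) (hF : F.IsSaturated p) (h : IPP p F E)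
include hS hF h

/-- The basic maps have the property. -/
theorem IPP.basic (hf : Mor E D f) (hYD : Y ≤ D) (hDN : D ≤ Subgroup.normalizer (Y : Set Ω))
    (hor : Y ≠ D ∨ F.IsCentric Y)
    (IH : ∀ (X : Subgroup Ω) (f : Ω → Ω), Nat.card Y < Nat.card X → Mor E X f → F.IsFullyCentralized X →
      F.IsFullyCentralized (img X f) → ∃ ψ, Mor E (X ⊔ centralizerIn S X) ψ ∧ ∀ x ∈ X, ψ x = f x) :
    PnProp F E Y f := by
  intro χ χ' hχ hfn hχ' hfn'
  have hYS : Y ≤ S := hYD.trans hf.le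
  have hDS : D ≤ normalizerIn S Y := fun d hd => ⟨hf.le hd, hDN hd⟩
  have hYf : Finite Y := finite_of_le hYS
  have hDf : Finite D := finite_of_le hf.le
  have hχD := hχ.mono hDS
  have hχY := hχD.mono hYD
  obtain ⟨i, hi, hi1, hi2, hi3⟩ := hχD.inverse
  have hiD : ∀ y ∈ img D χ, i y ∈ D := by
    intro y hy
    obtain ⟨x, hx, rfl⟩ := hχD.mem_img.1 hy
    rw [hi1 x hx]; exact hx
  have hfD := img_le_norm hf hYD hDN
  have hφ := (hi.comp hf hiD).comp hχ' (fun y hy => hfD (mem_img_of_mem (hiD y hy)))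
  have himg : img (img Y χ) (fun y => χ' (f (i y))) = img (img Y f) χ' := by
    rw [hχY.img_comp, (hf.mono hYD).img_comp]
    apply img_congr
    intro x hx
    rw [hi1 x (hYD hx)]
  have hcard : Nat.card (img Y χ) = Nat.card Y := hχY.card_img
  obtain ⟨ψ, hψ, e⟩ := h.step hS hF hfn (by rw [himg]; exact hfn') hφ (img_mono hYD)
    (img_le_norm hχD hYD hDN) (by
      rcases hor with h1 | h1
      · left
        intro h2
        apply h1
        apply eq_of_le_of_card hYD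
        rw [← hχY.card_img, h2, hχD.card_img]
      · right
        exact centric_img h1 (h.sub _ _ hχY))
    (by rw [hcard]; exact IH)
  refine ⟨ψ, hψ, fun y hy => ?_⟩
  rw [e _ (mem_img_of_mem hy), hi1 y (hYD hy)]

theorem IPP.comp_pn (h1 : PnProp F E Y f) (h2 : PnProp F E (img Y f) g) (hf : Mor E Y f)
    (hg : Mor E (img Y f) g) : PnProp F E Y (fun x => g (f x)) := by
  intro χ χ' hχ hfn hχ' hfn'
  obtain ⟨χ₁, hχ₁, hfn₁⟩ := h.exists_fn hS hF hf.img_le
  obtain ⟨ψ₁, hψ₁, e1⟩ := h1 χ χ₁ hχ hfn hχ₁ hfn₁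
  have h3 : img Y (fun x => g (f x)) = img (img Y f) g := hf.img_comp.symm
  rw [h3] at hχ' hfn'
  obtain ⟨ψ₂, hψ₂, e2⟩ := h2 χ₁ χ' hχ₁ hfn₁ hχ' hfn'
  have hχY := hχ.mono (le_normalizerIn hf.le)
  have h4 : img (img Y χ) ψ₁ = img (img Y f) χ₁ := by
    rw [hχY.img_comp, hf.img_comp]
    exact img_congr e1
  refine ⟨_, hψ₁.comp hψ₂ (fun x hx => ?_), fun y hy => ?_⟩
  · have h5 := img_sup_cent_le hψ₁ (mem_img_of_mem hx)
    rwa [h4] at h5
  · show ψ₂ (ψ₁ (χ y)) = χ' (g (f y))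
    rw [e1 y hy, e2 _ (mem_img_of_mem hy)]

theorem IPP.inv_pn (h1 : PnProp F E Y f) (hf : Mor E Y f) (hg : ∀ y ∈ Y, g (f y) = y) :
    PnProp F E (img Y f) g := by
  intro χ χ' hχ hfn hχ' hfn'
  have hmg : img (img Y f) g = Y := by
    rw [hf.img_comp]; exact img_id' hg
  rw [hmg] at hχ' hfn'
  obtain ⟨ψ, hψ, e⟩ := h1 χ' χ hχ' hfn' hχ hfn
  have hχ'Y := hχ'.mono (le_normalizerIn hf.le)
  have hχY := hχ.mono (le_normalizerIn hf.img_le)
  have h4 : img (img Y χ') ψ = img (img Y f) χ := by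
    rw [hχ'Y.img_comp, hf.img_comp]
    exact img_congr e
  have hfc := FN.fc hS hF hfn'
  have h5 := img_cent_eq hψ ((fullyCentralized_iff.1 hfc).2 ψ ((h.sub _ _ hψ).mono le_sup_left))
  have h6 : img (img Y χ' ⊔ centralizerIn S (img Y χ')) ψ =
      img (img Y f) χ ⊔ centralizerIn S (img (img Y f) χ) := by
    rw [hψ.img_sup, h5, h4]
  obtain ⟨j, hj, hj1, hj2, -⟩ := hψ.inverse
  rw [h6] at hj
  refine ⟨j, hj, fun y hy => ?_⟩
  obtain ⟨x, hx, rfl⟩ := hf.mem_img.1 hy
  rw [← e x hx, hg x hx]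
  exact hj1 _ (le_sup_left (b := centralizerIn S (img Y χ')) (mem_img_of_mem hx))

/-- Receptivity in `E` of the fully normalized subgroups. -/
theorem IPP.recep : ∀ (n : ℕ) (X : Subgroup Ω), Nat.card S - Nat.card X ≤ n → ∀ g, Mor E X g →
    F.IsFullyNormalized (img X g) → ∃ ψ, Mor E (Nf S X g) ψ ∧ ∀ x ∈ X, ψ x = g x := by
  intro n
  induction n using Nat.strong_induction_on with
  | _ n ih =>
  intro X hn g hg hfn
  have hXS := hg.le
  have IH : ∀ (X' : Subgroup Ω) (f : Ω → Ω), Nat.card X < Nat.card X' → Mor E X' f → F.IsFullyCentralized X' →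
      F.IsFullyCentralized (img X' f) → ∃ ψ, Mor E (X' ⊔ centralizerIn S X') ψ ∧ ∀ x ∈ X', ψ x = f x := by
    intro X' f hlt hf _ hfc
    refine h.cent_of_rec hS hF hf (fun g hg hfn => ?_) hfc
    have h1 := card_le_of_le hf.le
    exact ih (Nat.card S - Nat.card X') (by omega) X' le_rfl g hg hfn
  have hC : MapProp E (fun P f => ∀ Y ≤ P, Nat.card Y = Nat.card X → PnProp F E Y f) := by
    refine ⟨?_, ?_, ?_, ?_⟩
    · intro P f g _ h1 h2 Y hY hYc
      exact (h2 Y hY hYc).congr fun x hx => h1 x (hY hx)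
    · intro P s hP hs Y hY hYc
      have hYS := hY.trans hP
      have hYf : Finite Y := finite_of_le hYS
      refine h.basic hS hF (mor_conj (F := E) (P := normalizerIn S Y) normalizerIn_le hs) (le_normalizerIn hYS)
        (fun d hd => hd.2) ?_ (by rw [hYc]; exact IH)
      by_cases hYS' : Y = S
      · right; rw [hYS']; exact centric_self
      · left; exact (lt_normalizerIn hS (lt_of_le_of_ne hYS hYS')).ne
    · intro P Q f g hf hg hm h1 h2 Y hY hYc
      have hfY := hf.mono hY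
      have h3 : img Y f ≤ Q := img_le_iff.2 fun x hx => hm x (hY hx)
      exact h.comp_pn hS hF (h1 Y hY hYc) (h2 _ h3 (by rw [hfY.card_img, hYc])) hfY (hg.mono h3)
    · intro P f i hf hi h1 h2 h3 Y hY hYc
      have hiY := hi.mono hY
      have h4 : img Y i ≤ P := by
        rw [img_le_iff]
        intro y hy
        obtain ⟨x, hx, rfl⟩ := hf.mem_img.1 (hY hy)
        rw [h1 x hx]; exact hx
      have h5 : img (img Y i) f = Y := by
        rw [hiY.img_comp]; exact img_id' fun y hy => h2 y (hY hy)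
      have h6 := h3 (img Y i) h4 (by rw [hiY.card_img, hYc])
      have h7 := h.inv_pn hS hF (g := i) h6 (hf.mono h4) (fun y hy => h1 y (h4 hy))
      rwa [h5] at h7
  have hgen : Mor (propSys E _ hC) X g := by
    apply h.gen _ _ _ _ hg
    intro P f hPc hf
    rw [mor_propSys]
    refine ⟨hf, fun Y hY hYc => ?_⟩
    have hPf : Finite P := finite_of_le hf.le
    have hD : P ⊓ Subgroup.normalizer (Y : Set Ω) ≤ P := inf_le_left
    refine (h.basic hS hF (hf.mono hD) (le_inf hY Subgroup.le_normalizer) inf_le_right ?_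
      (by rw [hYc]; exact IH))
    by_cases hYP : Y = P
    · right; rw [hYP]; exact hPc
    · left
      exact (lt_inf_normalizer (hS.to_le hf.le) (lt_of_le_of_ne hY hYP)).ne
  have hPn := (mor_propSys.1 hgen).2 X le_rfl rfl
  obtain ⟨χ, hχ, hfnχ⟩ := h.exists_fn hS hF hXS
  have hXN := le_normalizerIn hXS
  have hχX := hχ.mono hXN
  have hid : img (img X g) (fun x => x) = img X g := img_self
  obtain ⟨ψ, hψ, e⟩ := hPn χ (fun x => x) hχ hfnχ (mor_self normalizerIn_le) (by rw [hid]; exact hfn)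
  have hψP := hψ.mono (le_sup_left : img X χ ≤ _)
  have himg : img (img X χ) ψ = img X g := by
    rw [hχX.img_comp]; exact img_congr e
  obtain ⟨ψ', hψ', e'⟩ := h.ext_of_centric hS hF (P₁ := img X χ) (W := img X χ ⊔ centralizerIn S (img X χ))
    (by rw [himg]; exact hfn) hψP hψ le_sup_left
    (sup_le (le_normalizerIn hχX.img_le) centralizerIn_le_normalizerIn)
    (FC_sup_centric (FN.fc hS hF hfnχ)) (fun x _ => rfl)
  have hNfN : Nf S X g ≤ normalizerIn S X := fun u hu => ⟨Nf_le hu, Nf_le_normalizer hu⟩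
  refine ⟨_, (hχ.mono hNfN).comp hψ' (fun u hu => ?_), fun x hx => ?_⟩
  · obtain ⟨h1, h2, s, hs, h3⟩ := mem_Nf.1 hu
    rw [mem_Nf]
    have h4 := img_le_norm hχ hXN (fun d hd => hd.2) (mem_img_of_mem (hNfN hu))
    refine ⟨h4.1, h4.2, s, hs, fun y hy => ?_⟩
    obtain ⟨x, hx, rfl⟩ := hχX.mem_img.1 hy
    have hx' : u * x * u⁻¹ ∈ X := (Subgroup.mem_normalizer_iff.1 h2 x).1 hx
    rw [← hχ.conj (hNfN hu) (hXN hx), e _ hx', e x hx, h3 x hx]
  · show ψ' (χ x) = g x
    rw [e' _ (mem_img_of_mem hx), e x hx]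

/-- Subsystems of index prime to `p` are saturated. -/
theorem IPP.saturated : E.IsSaturated p := by
  intro X hX
  obtain ⟨χ, hχ, hfn⟩ := h.exists_fn hS hF hX
  have hχX := hχ.mono (le_normalizerIn hX)
  refine ⟨img X χ, hχX.isConj, ?_, ?_⟩
  · rw [fullyAutomized_iff hS]
    refine ⟨hfn.1, fun T hT hTp hle => ?_⟩
    refine ((fullyAutomized_iff hS).1 (FN.fa hS hF hfn)).2 T (fun t ht => ?_) hTp hle
    rw [← mor_autFun_iff hfn.1]
    exact h.sub _ _ (mor_autFun hfn.1 (hT ht))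
  · rw [isReceptive_iff]
    refine ⟨hfn.1, fun P f hf himg => ?_⟩
    exact h.recep hS hF _ P le_rfl f hf (by rw [himg]; exact hfn)

end

end Cfsg.Agent.H28
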