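import Mathlib
import Cfsg.Agent.H28.IPI4
import Cfsg.Prelude.Def_FusionComponents

/-!
Subsystems of index prime to `p`: the least one.
-/

set_option autoImplicit false

namespace Cfsg.Agent.H28

open Cfsg.FusionSystem

universe u

section
variable {Ω : Type u} [Group Ω] {S T : Subgroup Ω} {F E E' : FusionSystem S} {P Q X Y Z P₁ W M D : Subgroup Ω}
  {f g φ θ χ : Ω → Ω} {p : ℕ}

theorem inv_mor_of (h : Mor E P f) {i : Ω → Ω} (h1 : ∀ x ∈ P, i (f x) = x) : Mor E (img P f) i := by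
  obtain ⟨j, hj, hj1, hj2, -⟩ := h.inverse
  refine hj.congr fun y hy => ?_
  obtain ⟨x, hx, rfl⟩ := h.mem_img.1 hy
  rw [hj1 x hx, h1 x hx]

/-- The conjugate of a system. -/
theorem conj_prop {γ : MulAut S} (hγ : γ ∈ F.autGroup S) (E' : FusionSystem S) :
    MapProp F (fun P f => Mor E' (img P (autFun γ)) (fun x => autFun γ (f (autFun γ⁻¹ x)))) where
  congr P f g hP h1 h2 := by
    refine h2.congr fun y hy => ?_
    obtain ⟨x, hx, rfl⟩ := ((mor_autFun le_rfl hγ).mono hP).mem_img.1 hy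
    rw [autFun_inv_apply _ (hP hx), h1 x hx]
  conj P s hP hs := by
    have hm := (mor_autFun le_rfl hγ).mono hP
    have hm' := mor_autFun le_rfl hγ
    refine (mor_conj (F := E') hm.img_le (autFun_mem γ hs)).congr fun y hy => ?_
    obtain ⟨x, hx, rfl⟩ := hm.mem_img.1 hy
    rw [autFun_inv_apply _ (hP hx), hm'.conj hs (hP hx)]
  comp P Q f g hf hg hm h1 h2 := by
    have hγP := (mor_autFun le_rfl hγ).mono hf.le
    refine (h1.comp h2 fun y hy => ?_).congr fun y hy => ?_
    · obtain ⟨x, hx, rfl⟩ := hγP.mem_img.1 hy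
      rw [autFun_inv_apply _ (hf.le hx)]
      exact mem_img_of_mem (hm x hx)
    · obtain ⟨x, hx, rfl⟩ := hγP.mem_img.1 hy
      rw [autFun_inv_apply _ (hf.le hx), autFun_inv_apply _ (hf.mem hx)]
  inv P f i hf hi h1 h2 h3 := by
    have hγP := (mor_autFun le_rfl hγ).mono hf.le
    have hγI := (mor_autFun le_rfl hγ).mono hf.img_le
    have h4 := inv_mor_of (i := fun y => autFun γ (i (autFun γ⁻¹ y))) h3 (fun y hy => by
      obtain ⟨x, hx, rfl⟩ := hγP.mem_img.1 hy
      rw [autFun_inv_apply _ (hf.le hx), autFun_inv_apply _ (hf.mem hx), h1 x hx])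
    have h5 : img (img P (autFun γ)) (fun x => autFun γ (f (autFun γ⁻¹ x))) = img (img P f) (autFun γ) := by
      rw [hγP.img_comp, hf.img_comp]
      apply img_congr
      intro x hx
      rw [autFun_inv_apply _ (hf.le hx)]
    rw [h5] at h4
    exact h4

/-- The family of all subsystems with the extension property containing the `p`-elements. -/
structure PFam (p : ℕ) (F E : FusionSystem S) : Prop where
  sub : ∀ P f, Mor E P f → Mor F P f
  pel : ∀ Q, F.IsCentric Q → ∀ α ∈ F.autGroup Q, (∃ k : ℕ, α ^ p ^ k = 1) → α ∈ E.autGroup Q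
  ext : ∀ P X f, F.IsCentric P → P ≤ X → Mor F X f → Mor E P f → Mor E X f

theorem PFam.conj {γ : MulAut S} (hγ : γ ∈ F.autGroup S) (h : PFam p F E) :
    PFam p F (propSys F _ (conj_prop hγ E)) where
  sub P f hf := (mor_propSys.1 hf).1
  pel Q hQ α hα := by
    rintro ⟨k, hk⟩
    have hγm := mor_autFun le_rfl hγ
    have hγQ := hγm.mono hQ.1
    rw [← mor_autFun_iff hQ.1, mor_propSys]
    refine ⟨mor_autFun hQ.1 hα, ?_⟩
    have h1 := hγQ.transport_mem hα
    have h2 := h.pel _ (centric_img hQ hγQ) _ h1 ⟨k, by rw [← map_pow, hk, map_one]⟩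
    refine (mor_autFun hγQ.img_le h2).congr fun y hy => ?_
    obtain ⟨x, hx, rfl⟩ := hγQ.mem_img.1 hy
    rw [hγQ.transport_apply _ hx, autFun_inv_apply _ (hQ.1 hx)]
  ext P X f hP hPX hf hfP := by
    rw [mor_propSys] at hfP ⊢
    refine ⟨hf, ?_⟩
    have hγX := (mor_autFun le_rfl hγ).mono hf.le
    have hγX' := (mor_autFun le_rfl (Subgroup.inv_mem _ hγ)).mono hγX.img_le
    refine h.ext _ _ _ (centric_img hP (hγX.mono hPX)) (img_mono hPX) ?_ hfP.2
    refine (hγX'.comp hf fun y hy => ?_).comp (mor_autFun le_rfl hγ) fun y hy => ?_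
    · obtain ⟨x, hx, rfl⟩ := hγX.mem_img.1 hy
      rw [autFun_inv_apply _ (hf.le hx)]; exact hx
    · obtain ⟨x, hx, rfl⟩ := hγX.mem_img.1 hy
      rw [autFun_inv_apply _ (hf.le hx)]; exact hf.mem hx

theorem capProp (F : FusionSystem S) (R : FusionSystem S → Prop) :
    MapProp F (fun P f => ∀ E', R E' → Mor E' P f) where
  congr P f g _ h1 h2 E' hE' := (h2 E' hE').congr h1
  conj P s hP hs E' _ := mor_conj hP hs
  comp P Q f g hf hg hm h1 h2 E' hE' := (h1 E' hE').comp (h2 E' hE') hm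
  inv P f i hf hi h1 h2 h3 E' hE' := inv_mor_of (h3 E' hE') h1

/-- The intersection of the family. -/
def capSys (p : ℕ) (F : FusionSystem S) : FusionSystem S := propSys F _ (capProp F (PFam p F))

theorem capSys_fam : PFam p F (capSys p F) where
  sub P f hf := (mor_propSys.1 hf).1
  pel Q hQ α hα hk := by
    rw [← mor_autFun_iff hQ.1]
    exact mor_propSys.2 ⟨mor_autFun hQ.1 hα, fun E' hE' => mor_autFun hQ.1 (hE'.pel Q hQ α hα hk)⟩
  ext P X f hP hPX hf hfP :=
    mor_propSys.2 ⟨hf, fun E' hE' => hE'.ext P X f hP hPX hf ((mor_propSys.1 hfP).2 E' hE')⟩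

theorem capSys_inv {γ : MulAut S} (hγ : γ ∈ F.autGroup S) (hf : Mor (capSys p F) P f) :
    Mor (capSys p F) (img P (autFun γ)) (fun x => autFun γ (f (autFun γ⁻¹ x))) := by
  have hfF := capSys_fam.sub _ _ hf
  have hγP := (mor_autFun le_rfl hγ).mono hfF.le
  have hγP' := (mor_autFun le_rfl (Subgroup.inv_mem _ hγ)).mono hγP.img_le
  refine mor_propSys.2 ⟨?_, fun E' hE' => ?_⟩
  · refine (hγP'.comp hfF fun y hy => ?_).comp (mor_autFun le_rfl hγ) fun y hy => ?_
    · obtain ⟨x, hx, rfl⟩ := hγP.mem_img.1 hy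
      rw [autFun_inv_apply _ (hfF.le hx)]; exact hx
    · obtain ⟨x, hx, rfl⟩ := hγP.mem_img.1 hy
      rw [autFun_inv_apply _ (hfF.le hx)]; exact hfF.mem hx
  · exact (mor_propSys.1 ((mor_propSys.1 hf).2 _ (hE'.conj hγ))).2

/-- The system generated by the maps of `capSys` on centric subgroups. -/
def resSys (p : ℕ) (F : FusionSystem S) : FusionSystem S :=
  propSys (capSys p F) _ (capProp (capSys p F)
    (fun E' => ∀ P f, F.IsCentric P → Mor (capSys p F) P f → Mor E' P f))

theorem resSys_centric (hP : F.IsCentric P) : Mor (resSys p F) P f ↔ Mor (capSys p F) P f :=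
  ⟨fun h => (mor_propSys.1 h).1, fun h => mor_propSys.2 ⟨h, fun _ hE' => hE' P f hP h⟩⟩

theorem resSys_ipp : IPP p F (resSys p F) where
  sub P f hf := capSys_fam.sub _ _ (mor_propSys.1 hf).1
  inv γ hγ P f hf := by
    obtain ⟨h1, h2⟩ := mor_propSys.1 hf
    refine mor_propSys.2 ⟨capSys_inv hγ h1, fun E' hE' => ?_⟩
    refine (mor_propSys.1 (h2 (propSys F _ (conj_prop hγ E')) fun P f hP hf => ?_)).2
    refine mor_propSys.2 ⟨capSys_fam.sub _ _ hf, ?_⟩
    exact hE' _ _ (centric_img hP ((mor_autFun le_rfl hγ).mono hP.1)) (capSys_inv hγ hf)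
  pel Q hQ α hα hk := by
    rw [← mor_autFun_iff hQ.1, resSys_centric hQ]
    exact mor_autFun hQ.1 (capSys_fam.pel Q hQ α hα hk)
  ext P X f hP hPX hf hfP := by
    have hX := centric_mono hP hPX hf.le
    rw [resSys_centric hX]
    exact capSys_fam.ext P X f hP hPX hf ((resSys_centric hP).1 hfP)
  gen E' hE' P f hf := (mor_propSys.1 hf).2 E' fun P f hP h => hE' P f hP ((resSys_centric hP).2 h)

end

section
variable {Ω : Type u} [Group Ω] {S T : Subgroup Ω} {F E E' : FusionSystem S} {P Q X Y Z P₁ W M D : Subgroup Ω}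
  {f g φ θ χ : Ω → Ω} {p : ℕ}
variable [hp : Fact p.Prime] [Finite S] (hS : IsPGroup p S) (hF : F.IsSaturated p)
include hS hF

/-- Automorphisms of `p`-power order of arbitrary subgroups. -/
theorem PPair.pel_all (h : PPair p F E) (hP : P ≤ S) {α : MulAut P} (hα : α ∈ F.autGroup P)
    (hk : ∃ k : ℕ, α ^ p ^ k = 1) : α ∈ E.autGroup P := by
  obtain ⟨k, hk⟩ := hk
  obtain ⟨ρ, hρ, -, s, hs, h1⟩ := exists_conj_of_pElement hS hF hP hα hk
  obtain ⟨γ, hγ, ρ₀, hρ₀, e⟩ := h.factor hS hF hρ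
  obtain ⟨i, hi, hi1, hi2, -⟩ := hρ₀.inverse
  have hγm := mor_autFun le_rfl hγ
  have hγ'm := mor_autFun le_rfl (Subgroup.inv_mem _ hγ)
  have hs' : autFun γ⁻¹ s ∈ S := autFun_mem _ hs
  have h2 : ∀ x ∈ P, autFun γ⁻¹ s * ρ₀ x * (autFun γ⁻¹ s)⁻¹ = ρ₀ (autFun α x) := by
    intro x hx
    have h3 := h1 x hx
    rw [e _ (autFun_mem α hx), e x hx] at h3
    have h4 : autFun γ⁻¹ (s * autFun γ (ρ₀ x) * s⁻¹) = autFun γ⁻¹ s * ρ₀ x * (autFun γ⁻¹ s)⁻¹ := by
      rw [hγ'm.conj hs (autFun_mem γ (hρ₀.mem hx)), autFun_inv_apply _ (hρ₀.mem hx)]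
    rw [← h4, ← h3, autFun_inv_apply _ (hρ₀.mem (autFun_mem α hx))]
  have h5 := (hρ₀.comp (mor_conj (F := E) le_rfl hs') (fun x hx => hρ₀.mem hx)).comp hi (fun x hx => by
    rw [h2 x hx]; exact mem_img_of_mem (autFun_mem α hx))
  rw [← mor_autFun_iff hP]
  refine h5.congr fun x hx => ?_
  rw [h2 x hx, hi1 _ (autFun_mem α hx)]

theorem PPair.index (h : PPair p F E) : E.HasPrimeToPIndexIn F p := by
  refine ⟨fun P φ hφ => ?_, fun P hP => ?_⟩
  · exact mor_toFun_iff.1 (h.sub _ _ (mor_toFun hφ))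
  · rintro _ ⟨α, hα, rfl⟩
    show (α : MulAut P) ∈ E.autGroup P
    induction hα using Subgroup.closure_induction with
    | mem α hα =>
      obtain ⟨k, hk⟩ := hα
      refine h.pel_all hS hF hP α.2 ⟨k, ?_⟩
      have h1 : α ^ p ^ k = 1 := by rw [← hk]; exact pow_orderOf_eq_one α
      exact congrArg Subtype.val h1
    | one => exact one_mem _
    | mul a b _ _ ha hb => exact mul_mem ha hb
    | inv a _ ha => exact Subgroup.inv_mem _ ha

/-- Saturated subsystems of index prime to `p` belong to the family. -/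
theorem fam_of_saturated (hE : E.IsSaturated p) (hi : E.HasPrimeToPIndexIn F p) : PFam p F E := by
  have hsub : ∀ P f, Mor E P f → Mor F P f := by
    rintro P f ⟨φ, hφ, h1⟩
    exact ⟨φ, hi.1 P hφ, h1⟩
  refine ⟨hsub, fun Q hQ α hα hk => ?_, ?_⟩
  · obtain ⟨k, hk⟩ := hk
    have h1 : (⟨α, hα⟩ : F.autGroup Q) ^ p ^ k = 1 := Subtype.ext hk
    obtain ⟨j, -, hj⟩ := (Nat.dvd_prime_pow hp.out).1 (orderOf_dvd_of_pow_eq_one h1)
    exact hi.2 Q hQ.1 ⟨⟨α, hα⟩, Subgroup.subset_closure ⟨j, hj⟩, rfl⟩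
  · have key : ∀ (n : ℕ) (P X : Subgroup Ω) (f : Ω → Ω), F.IsCentric P → P ≤ X → Nat.card X - Nat.card P ≤ n →
        Mor F X f → Mor E P f → Mor E X f := by
      intro n
      induction n using Nat.strong_induction_on with
      | _ n ih =>
      intro P X f hP hPX hn hf hfP
      by_cases hPX' : P = X
      · subst hPX'; exact hfP
      have hXf : Finite X := finite_of_le hf.le
      have hlt := lt_inf_normalizer (hS.to_le hf.le) (lt_of_le_of_ne hPX hPX')
      obtain ⟨M, hM⟩ : ∃ M, M = X ⊓ Subgroup.normalizer (P : Set Ω) := ⟨_, rfl⟩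
      rw [← hM] at hlt
      have hMX : M ≤ X := by rw [hM]; exact inf_le_left
      have hMN : M ≤ Subgroup.normalizer (P : Set Ω) := by rw [hM]; exact inf_le_right
      have hMf : Finite M := finite_of_le hMX
      -- f(P) is receptive in E
      have hfPc := centric_img hP (hf.mono hPX)
      have hEc : E.IsCentric (img P f) := by
        refine ⟨hfPc.1, fun Q hQ => hfPc.2 Q ?_⟩
        obtain ⟨g, hg, hgi⟩ := isConj_iff.1 hQ
        exact isConj_iff.2 ⟨g, hsub _ _ hg, hgi⟩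
      have hrec := fullyCentralized_receptive hS hE (FC_of_centric hEc)
      obtain ⟨g, hg, hgx⟩ := receptive_extend hrec hfP
      have hMNf : M ≤ Nf S P f := by
        intro m hm
        rw [mem_Nf]
        refine ⟨hf.le (hMX hm), hMN hm, f m, hf.mem (hMX hm), fun x hx => ?_⟩
        rw [hf.conj (hMX hm) (hPX hx)]
      have hgM := hg.mono hMNf
      obtain ⟨z, hz, -, hz2⟩ := agree_on_centric hS hF hP hlt.le (hsub _ _ hgM) (hf.mono hMX) (fun x hx => hgx x hx)
      have hzM := hlt.le hz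
      have hfM : Mor E M f := by
        refine ((mor_conj (F := E) hgM.le (hgM.le hzM)).comp hgM fun x hx => ?_).congr fun x hx => ?_
        · exact mul_mem (mul_mem hzM hx) (Subgroup.inv_mem _ hzM)
        · exact (hz2 x hx).symm
      have hcard : Nat.card P < Nat.card M :=
        lt_of_le_of_ne (card_le_of_le hlt.le) fun h1 => hlt.ne (eq_of_le_of_card hlt.le h1.ge)
      have hcard' := card_le_of_le hMX
      exact ih (Nat.card X - Nat.card M) (by omega) M X f (centric_mono hP hlt.le hgM.le) hMX le_rfl hf hfM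
    intro P X f hP hPX hf hfP
    exact key _ P X f hP hPX le_rfl hf hfP

/-- The `p'`-residual subsystem exists. -/
theorem resSys_residual : F.IsPPrimeResidual p (resSys p F) := by
  have h := resSys_ipp (p := p) (F := F)
  refine ⟨h.saturated hS hF, h.pair.index hS hF, fun D hD hDi => ?_⟩
  intro P φ hφ
  have h1 := fam_of_saturated hS hF hD hDi
  have h2 := (mor_propSys.1 (mor_propSys.1 (mor_toFun hφ)).1).2 D h1
  exact mor_toFun_iff.1 h2

end

end Cfsg.Agent.H28
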