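import Mathlib
import Cfsg.Agent.H28.IPI5

/-!
Subsystems of index prime to `p` given on a smaller family of centric subgroups.
-/

set_option autoImplicit false

namespace Cfsg.Agent.H28

open Cfsg.FusionSystem

universe u

section
variable {Ω : Type u} [Group Ω] {S T : Subgroup Ω} {F E E' : FusionSystem S} {P Q X Y Z P₁ W M D : Subgroup Ω}
  {f g φ θ χ κ : Ω → Ω} {p : ℕ} {s : Ω}

/-- The core of `Aut_S(P)` in `Aut_F(P)`. -/
def CS (F : FusionSystem S) (P : Subgroup Ω) : Subgroup (MulAut P) where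
  carrier := {α | α ∈ F.autGroup P ∧ ∀ β ∈ F.autGroup P, β * α * β⁻¹ ∈ autInducedBy S P}
  one_mem' := ⟨one_mem _, fun β _ => by rw [mul_one, mul_inv_cancel]; exact one_mem _⟩
  mul_mem' := by
    rintro a b ⟨ha, ha'⟩ ⟨hb, hb'⟩
    refine ⟨mul_mem ha hb, fun β hβ => ?_⟩
    have h1 : β * (a * b) * β⁻¹ = (β * a * β⁻¹) * (β * b * β⁻¹) := by group
    rw [h1]; exact mul_mem (ha' β hβ) (hb' β hβ)
  inv_mem' := by
    rintro a ⟨ha, ha'⟩
    refine ⟨Subgroup.inv_mem _ ha, fun β hβ => ?_⟩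
    have h1 : β * a⁻¹ * β⁻¹ = (β * a * β⁻¹)⁻¹ := by group
    rw [h1]; exact Subgroup.inv_mem _ (ha' β hβ)

/-- The elements of `N_S(P)` inducing elements of the core. -/
def phat (F : FusionSystem S) (P : Subgroup Ω) : Subgroup Ω where
  carrier := {s | s ∈ S ∧ ∃ hs : s ∈ Subgroup.normalizer (P : Set Ω), conjAut P s hs ∈ CS F P}
  one_mem' := by
    refine ⟨one_mem _, one_mem _, ?_⟩
    have h1 : conjAut P 1 (one_mem _) = 1 := mulAut_ext fun x hx => by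
      rw [autFun_conjAut _ hx, autFun_one hx]; simp
    rw [h1]; exact one_mem _
  mul_mem' := by
    rintro a b ⟨ha, ha', ha2⟩ ⟨hb, hb', hb2⟩
    refine ⟨mul_mem ha hb, mul_mem ha' hb', ?_⟩
    have h1 : conjAut P (a * b) (mul_mem ha' hb') = conjAut P a ha' * conjAut P b hb' :=
      mulAut_ext fun x hx => by
        rw [autFun_conjAut _ hx, autFun_mul _ _ hx, autFun_conjAut _ (autFun_mem _ hx), autFun_conjAut _ hx]
        group
    rw [h1]; exact mul_mem ha2 hb2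
  inv_mem' := by
    rintro a ⟨ha, ha', ha2⟩
    refine ⟨Subgroup.inv_mem _ ha, Subgroup.inv_mem _ ha', ?_⟩
    have h1 : conjAut P a⁻¹ (Subgroup.inv_mem _ ha') = (conjAut P a ha')⁻¹ := by
      apply eq_inv_of_mul_eq_one_left
      apply mulAut_ext
      intro x hx
      rw [autFun_mul _ _ hx, autFun_conjAut _ (autFun_mem _ hx), autFun_conjAut _ hx, autFun_one hx]
      group
    rw [h1]; exact Subgroup.inv_mem _ ha2

theorem mem_phat : s ∈ phat F P ↔ s ∈ S ∧ ∃ hs : s ∈ Subgroup.normalizer (P : Set Ω), conjAut P s hs ∈ CS F P :=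
  Iff.rfl

theorem le_phat (hP : P ≤ S) : P ≤ phat F P := by
  intro s hs
  have hsN : s ∈ Subgroup.normalizer (P : Set Ω) := Subgroup.le_normalizer hs
  have h1 : conjAut P s hsN ∈ Inn P := mem_Inn.2 ⟨s, hs, fun x hx => autFun_conjAut _ hx⟩
  exact ⟨hP hs, hsN, autInducedBy_le hP le_rfl (conjAut_mem hsN (hP hs)),
    fun β _ => Inn_le_autInducedBy hP (Inn_conj h1)⟩

variable [hp : Fact p.Prime] [Finite S] (hS : IsPGroup p S) (hF : F.IsSaturated p)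
include hS hF

theorem phat_ne (hfn : F.IsFullyNormalized P) (hnr : ¬ F.IsRadical p P) : P ≠ phat F P := by
  intro heq
  apply hnr
  refine ⟨hfn.1, le_antisymm ?_ ?_⟩
  · rintro _ ⟨α, hα, rfl⟩
    have hA : (pCore p (F.autGroup P)).map (F.autGroup P).subtype ≤ F.autGroup P := Subgroup.map_subtype_le _
    obtain ⟨β₀, hβ₀, h1⟩ := exists_conj_le_autInduced (FN.fa hS hF hfn) hA
      ((Cfsg.Agent.H28.isPGroup_pCore).map _)
    have h2 : ∀ γ ∈ pCore p (F.autGroup P), (γ : MulAut P) ∈ autInducedBy S P := by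
      intro γ hγ
      have hn : (pCore p (F.autGroup P)).Normal := inferInstance
      have h3 := hn.conj_mem γ hγ (⟨β₀, hβ₀⟩⁻¹ : F.autGroup P)
      have h4 := h1 _ ⟨_, h3, rfl⟩
      have h5 : β₀ * ((F.autGroup P).subtype ((⟨β₀, hβ₀⟩⁻¹ : F.autGroup P) * γ * (⟨β₀, hβ₀⟩⁻¹ : F.autGroup P)⁻¹)) * β₀⁻¹ = γ := by
        show β₀ * (β₀⁻¹ * (γ : MulAut P) * β₀⁻¹⁻¹) * β₀⁻¹ = γ
        group
      rwa [h5] at h4
    obtain ⟨s, hs, h3⟩ := mem_autInducedBy'.1 (h2 α hα)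
    have hsN := normalizer_of_autFun h3
    have h4 : conjAut P s hsN = α := mulAut_ext fun x hx => by rw [autFun_conjAut _ hx, h3 x hx]
    have h5 : s ∈ phat F P := by
      refine ⟨hs, hsN, ?_⟩
      rw [h4]
      refine ⟨α.2, fun β hβ => ?_⟩
      have hn : (pCore p (F.autGroup P)).Normal := inferInstance
      exact h2 _ (hn.conj_mem α hα ⟨β, hβ⟩)
    rw [← heq] at h5
    exact mem_Inn.2 ⟨s, h5, h3⟩
  · intro α hα
    have hαA : α ∈ F.autGroup P := Inn_le_autGroup hfn.1 hα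
    have hle : (Inn P).subgroupOf (F.autGroup P) ≤ pCore p (F.autGroup P) :=
      le_pCore Inn_subgroupOf_normal ((isPGroup_Inn (hS.to_le hfn.1)).comap_of_injective _ (Subgroup.subtype_injective _))
    exact ⟨⟨α, hαA⟩, hle hα, rfl⟩

theorem CS_transport (hκ : Mor F P κ) (hfn : F.IsFullyNormalized (img P κ)) {α : MulAut P} (hα : α ∈ CS F P) :
    hκ.transport α ∈ CS F (img P κ) := by
  refine ⟨hκ.transport_mem hα.1, fun β hβ => ?_⟩
  have hA : (autInducedBy S P : Subgroup (MulAut P)).map hκ.transport.toMonoidHom ≤ F.autGroup (img P κ) := by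
    rintro _ ⟨γ, hγ, rfl⟩
    exact hκ.transport_mem (autInducedBy_le hκ.le le_rfl hγ)
  obtain ⟨β₀, hβ₀, h1⟩ := exists_conj_le_autInduced (FN.fa hS hF hfn) hA ((isPGroup_autInducedBy hS).map _)
  obtain ⟨β', hβ'⟩ : ∃ β', β' = β₀⁻¹ * β := ⟨_, rfl⟩
  have hβ'A : β' ∈ F.autGroup (img P κ) := by rw [hβ']; exact mul_mem (Subgroup.inv_mem _ hβ₀) hβ
  obtain ⟨β'', hβ''⟩ : ∃ β'', β'' = hκ.transport.symm β' := ⟨_, rfl⟩
  have hβ''A : β'' ∈ F.autGroup P := by rw [hβ'']; exact hκ.transport_symm_mem hβ'A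
  have h2 := h1 _ ⟨_, hα.2 β'' hβ''A, rfl⟩
  have h3 : β₀ * hκ.transport.toMonoidHom (β'' * α * β''⁻¹) * β₀⁻¹ = β * hκ.transport α * β⁻¹ := by
    have h4 : hκ.transport β'' = β' := by rw [hβ'']; exact hκ.transport.apply_symm_apply β'
    have h5 : hκ.transport.toMonoidHom (β'' * α * β''⁻¹) = β' * hκ.transport α * β'⁻¹ := by
      show hκ.transport (β'' * α * β''⁻¹) = _
      rw [map_mul, map_mul, map_inv, h4]
    rw [h5, hβ']; group
  rwa [h3] at h2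

theorem phat_le_Nf (hκ : Mor F P κ) (hfn : F.IsFullyNormalized (img P κ)) : phat F P ≤ Nf S P κ := by
  intro s hs
  obtain ⟨h1, h2, h3⟩ := mem_phat.1 hs
  have h4 := (CS_transport hS hF hκ hfn h3).2 1 (one_mem _)
  rw [one_mul, inv_one, mul_one] at h4
  obtain ⟨t, ht, h5⟩ := mem_autInducedBy'.1 h4
  rw [mem_Nf]
  refine ⟨h1, h2, t, ht, fun x hx => ?_⟩
  rw [← h5 _ (mem_img_of_mem hx), hκ.transport_apply _ hx, autFun_conjAut _ hx]

theorem phat_map (hκ : Mor F P κ) (hfn : F.IsFullyNormalized (img P κ)) (hg : Mor F X g) (hPX : P ≤ X)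
    (he : ∀ x ∈ P, g x = κ x) (hs : s ∈ phat F P) (hsX : s ∈ X) : g s ∈ phat F (img P κ) := by
  obtain ⟨h1, h2, h3⟩ := mem_phat.1 hs
  have hIf : Finite (img P κ) := finite_of_le hκ.img_le
  have h4 : ∀ y ∈ img P κ, autFun (hκ.transport (conjAut P s h2)) y = g s * y * (g s)⁻¹ := by
    intro y hy
    obtain ⟨x, hx, rfl⟩ := hκ.mem_img.1 hy
    have hx' : s * x * s⁻¹ ∈ P := (Subgroup.mem_normalizer_iff.1 h2 x).1 hx
    rw [hκ.transport_apply _ hx, autFun_conjAut _ hx, ← he _ hx', hg.conj hsX (hPX hx), he x hx]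
  have h5 : g s ∈ Subgroup.normalizer ((img P κ : Subgroup Ω) : Set Ω) := normalizer_of_autFun h4
  refine ⟨hg.mem hsX, h5, ?_⟩
  have h6 : conjAut (img P κ) (g s) h5 = hκ.transport (conjAut P s h2) :=
    mulAut_ext fun y hy => by rw [autFun_conjAut _ hy, h4 y hy]
  rw [h6]
  exact CS_transport hS hF hκ hfn h3

theorem PPair.exists_fn (h : PPair p F E) (hX : X ≤ S) :
    ∃ χ, Mor E (normalizerIn S X) χ ∧ F.IsFullyNormalized (img X χ) := by
  obtain ⟨Q, hQ, hfn⟩ := exists_fullyNormalized (F := F) hX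
  obtain ⟨g, hg, hgX⟩ := FN.exists_map hS hF hfn hQ
  obtain ⟨γ, hγ, g₀, hg₀, e⟩ := h.factor hS hF hg
  refine ⟨g₀, hg₀, ?_⟩
  have hXN := le_normalizerIn hX
  refine FN_factor hγ (hg.mono hXN) ((h.sub _ _ hg₀).mono hXN) ?_ (fun x hx => e x (hXN hx))
  rw [hgX]; exact hfn

end

/-- Every extension of `κ` lies in `E`. -/
def HE {Ω : Type u} [Group Ω] {S : Subgroup Ω} (F E : FusionSystem S) (P₁ : Subgroup Ω) (κ : Ω → Ω) : Prop :=
  ∀ (X : Subgroup Ω) (g : Ω → Ω), P₁ ≤ X → Mor F X g → (∀ x ∈ P₁, g x = κ x) → Mor E X g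

/-- Subsystems of index prime to `p` determined on the family `𝒞`. -/
structure IPC {Ω : Type u} [Group Ω] {S : Subgroup Ω} (p : ℕ) (F E : FusionSystem S)
    (𝒞 : Subgroup Ω → Prop) : Prop where
  sub : ∀ P f, Mor E P f → Mor F P f
  inv : ∀ γ ∈ F.autGroup S, ∀ P f, Mor E P f →
    Mor E (img P (autFun γ)) (fun x => autFun γ (f (autFun γ⁻¹ x)))
  cc : ∀ P, 𝒞 P → F.IsCentric P
  conj : ∀ P f, 𝒞 P → Mor F P f → 𝒞 (img P f)
  top : 𝒞 S
  rad : ∀ P, F.IsCentric P → F.IsRadical p P → 𝒞 P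
  pel : ∀ Q, 𝒞 Q → ∀ α ∈ F.autGroup Q, (∃ k : ℕ, α ^ p ^ k = 1) → α ∈ E.autGroup Q
  ext : ∀ P X f, 𝒞 P → P ≤ X → Mor F X f → Mor E P f → Mor E X f
  gen : ∀ E' : FusionSystem S, (∀ P f, 𝒞 P → Mor E P f → Mor E' P f) → ∀ P f, Mor E P f → Mor E' P f

section
variable {Ω : Type u} [Group Ω] {S T : Subgroup Ω} {F E E' : FusionSystem S} {P Q X Y Z P₁ W M D : Subgroup Ω}
  {f g φ θ χ κ : Ω → Ω} {p : ℕ} {s : Ω} {𝒞 : Subgroup Ω → Prop}
variable [hp : Fact p.Prime] [Finite S] (hS : IsPGroup p S) (hF : F.IsSaturated p)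
include hS hF

/-- If one extension of `θ` lies in `E`, then all do. -/
theorem HE_of_ext (hsub : ∀ P f, Mor E P f → Mor F P f) (hP : F.IsCentric P₁) (hθ : Mor E M θ) (hlt : P₁ < M)
    (IH : ∀ P', F.IsCentric P' → Nat.card P₁ < Nat.card P' → ∀ (X : Subgroup Ω) (g : Ω → Ω), P' ≤ X → Mor F X g →
      Mor E P' g → Mor E X g) : HE F E P₁ θ := by
  have hMf : Finite M := finite_of_le hθ.le
  have hP₁f : Finite P₁ := finite_of_le hlt.le
  obtain ⟨M₀, hM₀⟩ : ∃ M₀, M₀ = M ⊓ Subgroup.normalizer (P₁ : Set Ω) := ⟨_, rfl⟩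
  have hlt₀ := lt_inf_normalizer (hS.to_le hθ.le) hlt
  rw [← hM₀] at hlt₀
  have hM₀M : M₀ ≤ M := by rw [hM₀]; exact inf_le_left
  have hM₀N : M₀ ≤ Subgroup.normalizer (P₁ : Set Ω) := by rw [hM₀]; exact inf_le_right
  have hθF := hsub _ _ hθ
  have hθP := hθF.mono hlt.le
  have hrec := fullyCentralized_receptive hS hF (FC_of_centric (centric_img hP hθP))
  obtain ⟨φ', hφ', e⟩ := receptive_extend hrec hθP
  have hcard : ∀ {B : Subgroup Ω}, P₁ < B → B ≤ S → Nat.card P₁ < Nat.card B := by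
    intro B hB hBS
    have hBf : Finite B := finite_of_le hBS
    exact lt_of_le_of_ne (card_le_of_le hB.le) fun h1 => hB.ne (eq_of_le_of_card hB.le h1.ge)
  have hNf : ∀ {X : Subgroup Ω} {g : Ω → Ω}, P₁ ≤ X → X ≤ Subgroup.normalizer (P₁ : Set Ω) → Mor F X g →
      (∀ x ∈ P₁, g x = θ x) → X ≤ Nf S P₁ θ := by
    intro X g hPX hXN hg he u hu
    rw [mem_Nf]
    refine ⟨hg.le hu, hXN hu, g u, hg.mem hu, fun x hx => ?_⟩
    have hx' : u * x * u⁻¹ ∈ P₁ := (Subgroup.mem_normalizer_iff.1 (hXN hu) x).1 hx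
    rw [← he _ hx', hg.conj hu (hPX hx), he x hx]
  have hM₀Nf := hNf hlt₀.le hM₀N (hθF.mono hM₀M) (fun x _ => rfl)
  have hφ'M : Mor E M₀ φ' := by
    obtain ⟨z, hz, -, hz2⟩ := agree_on_centric hS hF hP hlt₀.le (hθF.mono hM₀M) (hφ'.mono hM₀Nf)
      (fun x hx => (e x hx).symm)
    have hzM := hlt₀.le hz
    refine ((mor_conj (F := E) (hM₀M.trans hθ.le) (hθ.le (hM₀M hzM))).comp (hθ.mono hM₀M) fun x hx => ?_).congr
      fun x hx => (hz2 x hx).symm
    exact mul_mem (mul_mem hzM hx) (Subgroup.inv_mem _ hzM)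
  have hM₀c := centric_mono hP hlt₀.le (hM₀M.trans hθ.le)
  have hφ'E := IH M₀ hM₀c (hcard hlt₀ hM₀c.1) _ _ hM₀Nf hφ' hφ'M
  intro X g hPX hg he
  by_cases hPX' : P₁ = X
  · subst hPX'
    exact (hθ.mono hlt.le).congr fun x hx => (he x hx).symm
  have hXf : Finite X := finite_of_le hg.le
  have hltX := lt_inf_normalizer (hS.to_le hg.le) (lt_of_le_of_ne hPX hPX')
  obtain ⟨X₁, hX₁⟩ : ∃ X₁, X₁ = X ⊓ Subgroup.normalizer (P₁ : Set Ω) := ⟨_, rfl⟩
  rw [← hX₁] at hltX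
  have hX₁X : X₁ ≤ X := by rw [hX₁]; exact inf_le_left
  have hX₁N : X₁ ≤ Subgroup.normalizer (P₁ : Set Ω) := by rw [hX₁]; exact inf_le_right
  have hX₁Nf := hNf hltX.le hX₁N (hg.mono hX₁X) he
  have hgX₁ : Mor E X₁ g := by
    obtain ⟨z, hz, -, hz2⟩ := agree_on_centric hS hF hP hltX.le (hφ'.mono hX₁Nf) (hg.mono hX₁X)
      (fun x hx => by rw [e x hx, he x hx])
    have hzM := hltX.le hz
    refine ((mor_conj (F := E) (hX₁X.trans hg.le) (hg.le (hX₁X hzM))).comp (hφ'E.mono hX₁Nf) fun x hx => ?_).congr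
      fun x hx => (hz2 x hx).symm
    exact mul_mem (mul_mem hzM hx) (Subgroup.inv_mem _ hzM)
  have hX₁c := centric_mono hP hltX.le (hX₁X.trans hg.le)
  exact IH X₁ hX₁c (hcard hltX hX₁c.1) X g hX₁X hg hgX₁

end

end Cfsg.Agent.H28
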