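import Mathlib
import Cfsg.Agent.H28.IPI6

/-!
Subsystems of index prime to `p` given on a smaller family of centric subgroups: saturation.
-/

set_option autoImplicit false

namespace Cfsg.Agent.H28

open Cfsg.FusionSystem

universe u

section
variable {Ω : Type u} [Group Ω] {S T : Subgroup Ω} {F E E' : FusionSystem S} {P Q X Y Z P₁ W M D : Subgroup Ω}
  {f g φ θ χ κ : Ω → Ω} {p : ℕ} {s : Ω} {𝒞 : Subgroup Ω → Prop}

theorem card_lt_of_lt [Finite S] {A B : Subgroup Ω} (hAB : A < B) (hB : B ≤ S) : Nat.card A < Nat.card B := by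
  have hBf : Finite B := finite_of_le hB
  exact lt_of_le_of_ne (card_le_of_le hAB.le) fun h1 => hAB.ne (eq_of_le_of_card hAB.le h1.ge)

theorem img_lt_img [Finite S] (hf : Mor F D f) (h : Y < D) : img Y f < img D f := by
  refine lt_of_le_of_ne (img_mono h.le) fun he => h.ne ?_
  have hDf : Finite D := finite_of_le hf.le
  apply eq_of_le_of_card h.le
  rw [← (hf.mono h.le).card_img, he, hf.card_img]

/-- The property of maps used in the induction. -/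
def QnProp (F E : FusionSystem S) (Y : Subgroup Ω) (f : Ω → Ω) : Prop :=
  ∀ χ χ' κ, Mor E (normalizerIn S Y) χ → F.IsFullyNormalized (img Y χ) →
    Mor E (normalizerIn S (img Y f)) χ' → F.IsFullyNormalized (img (img Y f) χ') →
    (∀ y ∈ Y, κ (χ y) = χ' (f y)) → HE F E (img Y χ) κ

theorem QnProp.congr (h : QnProp F E Y f) (hfg : ∀ x ∈ Y, f x = g x) : QnProp F E Y g := by
  have h1 : img Y g = img Y f := img_congr fun x hx => (hfg x hx).symm
  intro χ χ' κ h2 h3 h4 h5 h6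
  rw [h1] at h4 h5
  exact h χ χ' κ h2 h3 h4 h5 fun y hy => by rw [h6 y hy, hfg y hy]

variable [hp : Fact p.Prime] [Finite S] (hS : IsPGroup p S) (hF : F.IsSaturated p)

section
variable (hsub : ∀ P f, Mor E P f → Mor F P f) (n : ℕ)
  (IH : ∀ P', F.IsCentric P' → n < Nat.card P' → ∀ (X : Subgroup Ω) (g : Ω → Ω), P' ≤ X → Mor F X g →
      Mor E P' g → Mor E X g)
include hS hF hsub IH

theorem qn_basic (hf : Mor E D f) (hYD : Y < D) (hDN : D ≤ Subgroup.normalizer (Y : Set Ω))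
    (hY : F.IsCentric Y) (hn : Nat.card Y = n) : QnProp F E Y f := by
  intro χ χ' κ hχ hfn hχ' hfn' he
  have hDS : D ≤ normalizerIn S Y := fun d hd => ⟨hf.le hd, hDN hd⟩
  have hχD := hχ.mono hDS
  have hχY := hχD.mono hYD.le
  obtain ⟨i, hi, hi1, hi2, hi3⟩ := hχD.inverse
  have hiD : ∀ y ∈ img D χ, i y ∈ D := by
    intro y hy
    obtain ⟨x, hx, rfl⟩ := hχD.mem_img.1 hy
    rw [hi1 x hx]; exact hx
  have hfD := img_le_norm hf hYD.le hDN
  have hθ := (hi.comp hf hiD).comp hχ' (fun y hy => hfD (mem_img_of_mem (hiD y hy)))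
  have hlt := img_lt_img hχD hYD
  intro X g hPX hg hgx
  refine HE_of_ext hS hF hsub (centric_img hY (hsub _ _ hχY)) hθ hlt ?_ X g hPX hg ?_
  · intro P' hP' hlt'
    rw [hχY.card_img, hn] at hlt'
    exact IH P' hP' hlt'
  · intro x hx
    obtain ⟨y, hy, rfl⟩ := hχY.mem_img.1 hx
    rw [hgx _ hx, he y hy]
    show χ' (f y) = χ' (f (i (χ y)))
    rw [hi1 y (hYD.le hy)]

omit hsub IH in
/-- The extension to the group `phat`. -/
theorem phat_ext (hκ : Mor F P κ) (hfn' : F.IsFullyNormalized (img P κ)) (hHE : HE F E P κ) :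
    ∃ g, Mor E (phat F P) g ∧ (∀ x ∈ P, g x = κ x) ∧ ∀ x ∈ phat F P, g x ∈ phat F (img P κ) := by
  obtain ⟨g, hg, e⟩ := receptive_extend (FN.rec hS hF hfn') hκ
  have h1 := hg.mono (phat_le_Nf hS hF hκ hfn')
  exact ⟨g, hHE _ _ (le_phat hκ.le) h1 e, e, fun x hx => phat_map hS hF hκ hfn' h1 (le_phat hκ.le) e hx hx⟩

theorem qn_comp (hP : PPair p F E) (hY : F.IsCentric Y) (hn : Nat.card Y = n)
    (hnr : ∀ χ, Mor F Y χ → ¬ F.IsRadical p (img Y χ))
    (h1 : QnProp F E Y f) (h2 : QnProp F E (img Y f) g) (hf : Mor F Y f) (hg : Mor F (img Y f) g) :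
    QnProp F E Y (fun x => g (f x)) := by
  intro χ χ' κ hχ hfn hχ' hfn' he
  have h3 : img Y (fun x => g (f x)) = img (img Y f) g := hf.img_comp.symm
  rw [h3] at hχ' hfn'
  obtain ⟨χ₁, hχ₁, hfn₁⟩ := hP.exists_fn hS hF hf.img_le
  have hχY := (hsub _ _ hχ).mono (le_normalizerIn hf.le)
  have hχ₁Y := (hsub _ _ hχ₁).mono (le_normalizerIn hf.img_le)
  have hχ'Y := (hsub _ _ hχ').mono (le_normalizerIn hg.img_le)
  obtain ⟨i, hi, hi1, hi2, hi3⟩ := hχY.inverse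
  obtain ⟨j, hj, hj1, hj2, hj3⟩ := hχ₁Y.inverse
  have hκ₁ := (hi.comp hf (fun y hy => by rw [← hi3]; exact mem_img_of_mem hy)).comp hχ₁Y (fun y hy => by
    obtain ⟨x, hx, rfl⟩ := hχY.mem_img.1 hy
    rw [hi1 x hx]; exact mem_img_of_mem hx)
  obtain ⟨κ₁, hκ₁d⟩ : ∃ κ₁ : Ω → Ω, κ₁ = fun y => χ₁ (f (i y)) := ⟨_, rfl⟩
  rw [← hκ₁d] at hκ₁
  have e1 : ∀ y ∈ Y, κ₁ (χ y) = χ₁ (f y) := fun y hy => by rw [hκ₁d]; simp only; rw [hi1 y hy]
  have hκ₂ := (hj.comp hg (fun y hy => by rw [← hj3]; exact mem_img_of_mem hy)).comp hχ'Y (fun y hy => by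
    obtain ⟨x, hx, rfl⟩ := hχ₁Y.mem_img.1 hy
    rw [hj1 x hx]; exact mem_img_of_mem hx)
  obtain ⟨κ₂, hκ₂d⟩ : ∃ κ₂ : Ω → Ω, κ₂ = fun y => χ' (g (j y)) := ⟨_, rfl⟩
  rw [← hκ₂d] at hκ₂
  have e2 : ∀ y ∈ img Y f, κ₂ (χ₁ y) = χ' (g y) := fun y hy => by rw [hκ₂d]; simp only; rw [hj1 y hy]
  have HE1 := h1 χ χ₁ κ₁ hχ hfn hχ₁ hfn₁ e1
  have HE2 := h2 χ₁ χ' κ₂ hχ₁ hfn₁ hχ' hfn' e2
  have hi1' : img (img Y χ) κ₁ = img (img Y f) χ₁ := by
    rw [hχY.img_comp, hf.img_comp]; exact img_congr e1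
  have hi2' : img (img (img Y f) χ₁) κ₂ = img (img Y f |> fun A => img A g) χ' := by
    rw [hχ₁Y.img_comp]
    show _ = img (img (img Y f) g) χ'
    rw [hg.img_comp]; exact img_congr e2
  obtain ⟨g₁, hg₁, a1, b1⟩ := phat_ext hS hF hκ₁ (by rw [hi1']; exact hfn₁) HE1
  obtain ⟨g₂, hg₂, a2, b2⟩ := phat_ext hS hF hκ₂ (by rw [hi2']; exact hfn') HE2
  rw [hi1'] at b1
  have hθ := hg₁.comp hg₂ b1
  have hle := le_phat (F := F) hχY.img_le
  have hlt : img Y χ < phat F (img Y χ) := lt_of_le_of_ne hle (phat_ne hS hF hfn (hnr χ hχY))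
  intro X u hPX hu hux
  refine HE_of_ext hS hF hsub (centric_img hY hχY) hθ hlt ?_ X u hPX hu ?_
  · intro P' hP' hlt'
    rw [hχY.card_img, hn] at hlt'
    exact IH P' hP' hlt'
  · intro x hx
    obtain ⟨y, hy, rfl⟩ := hχY.mem_img.1 hx
    rw [hux _ hx, he y hy]
    show χ' (g (f y)) = g₂ (g₁ (χ y))
    rw [a1 _ hx, e1 y hy, a2 _ (mem_img_of_mem (mem_img_of_mem hy)), e2 _ (mem_img_of_mem hy)]

theorem qn_inv (hY : F.IsCentric Y) (hn : Nat.card Y = n)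
    (hnr : ∀ χ, Mor F Y χ → ¬ F.IsRadical p (img Y χ))
    (h1 : QnProp F E Y f) (hf : Mor F Y f) (hg : ∀ y ∈ Y, g (f y) = y) : QnProp F E (img Y f) g := by
  intro χ χ' κ hχ hfn hχ' hfn' he
  have hmg : img (img Y f) g = Y := by
    rw [hf.img_comp]; exact img_id' hg
  rw [hmg] at hχ' hfn'
  have hχY := (hsub _ _ hχ).mono (le_normalizerIn hf.img_le)
  have hχ'Y := (hsub _ _ hχ').mono (le_normalizerIn hf.le)
  obtain ⟨i, hi, hi1, hi2, hi3⟩ := hχ'Y.inverse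
  have hκ₁ := (hi.comp hf (fun y hy => by rw [← hi3]; exact mem_img_of_mem hy)).comp hχY (fun y hy => by
    obtain ⟨x, hx, rfl⟩ := hχ'Y.mem_img.1 hy
    rw [hi1 x hx]; exact mem_img_of_mem hx)
  obtain ⟨κ₁, hκ₁d⟩ : ∃ κ₁ : Ω → Ω, κ₁ = fun y => χ (f (i y)) := ⟨_, rfl⟩
  rw [← hκ₁d] at hκ₁
  have e1 : ∀ y ∈ Y, κ₁ (χ' y) = χ (f y) := fun y hy => by rw [hκ₁d]; simp only; rw [hi1 y hy]
  have HE1 := h1 χ' χ κ₁ hχ' hfn' hχ hfn e1
  have hi1' : img (img Y χ') κ₁ = img (img Y f) χ := by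
    rw [hχ'Y.img_comp, hf.img_comp]; exact img_congr e1
  obtain ⟨g₁, hg₁, a1, b1⟩ := phat_ext hS hF hκ₁ (by rw [hi1']; exact hfn) HE1
  have hle := le_phat (F := F) hχ'Y.img_le
  have hlt : img Y χ' < phat F (img Y χ') := lt_of_le_of_ne hle (phat_ne hS hF hfn' (hnr χ' hχ'Y))
  have hlt2 := img_lt_img hg₁ hlt
  have hi4 : img (img Y χ') g₁ = img (img Y f) χ := by rw [← hi1']; exact img_congr a1
  rw [hi4] at hlt2
  obtain ⟨θ, hθ, c1, c2, c3⟩ := hg₁.inverse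
  intro X u hPX hu hux
  have hc : F.IsCentric (img (img Y f) χ) := centric_img (centric_img hY hf) hχY
  have hcard : Nat.card (img (img Y f) χ) = n := by rw [hχY.card_img, hf.card_img, hn]
  refine HE_of_ext hS hF hsub hc hθ hlt2 ?_ X u hPX hu ?_
  · intro P' hP' hlt'
    rw [hcard] at hlt'
    exact IH P' hP' hlt'
  · intro x hx
    obtain ⟨z, hz, rfl⟩ := hχY.mem_img.1 hx
    obtain ⟨y, hy, rfl⟩ := hf.mem_img.1 hz
    rw [hux _ hx, he _ hz, hg y hy, ← e1 y hy, ← a1 _ (mem_img_of_mem hy), c1 _ (hle (mem_img_of_mem hy))]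

end

variable (h : IPC p F E 𝒞)
include hS hF h

omit hF hS hp [Finite S] in
theorem IPC.pair (hrad : ∀ Q, F.IsEssential p Q → F.IsRadical p Q) : PPair p F E where
  sub := h.sub
  inv := h.inv
  pel Q hQ := h.pel Q (h.rad Q hQ.1 (hrad Q hQ))

/-- The extension property for all centric subgroups. -/
theorem IPC.ext_all : ∀ (m : ℕ) (P X : Subgroup Ω) (f : Ω → Ω), Nat.card S - Nat.card P ≤ m → F.IsCentric P →
    P ≤ X → Mor F X f → Mor E P f → Mor E X f := by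
  have hP' : PPair p F E := h.pair fun Q hQ => essential_radical hS hQ
  intro m
  induction m using Nat.strong_induction_on with
  | _ m ih =>
  intro P X f hm hPc hPX hf hfP
  by_cases h𝒞 : 𝒞 P
  · exact h.ext P X f h𝒞 hPX hf hfP
  have hPS := hPc.1
  have hPf : Finite P := finite_of_le hPS
  obtain ⟨n, hn⟩ : ∃ n, n = Nat.card P := ⟨_, rfl⟩
  have hXf : Finite X := finite_of_le hf.le
  by_cases hPX' : P = X
  · subst hPX'; exact hfP
  have hcardS : ∀ {A : Subgroup Ω}, A ≤ S → Nat.card A ≤ Nat.card S := fun hA => card_le_of_le hA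
  have IH : ∀ P', F.IsCentric P' → n < Nat.card P' → ∀ (X : Subgroup Ω) (g : Ω → Ω), P' ≤ X → Mor F X g →
      Mor E P' g → Mor E X g := by
    intro P' hP'c hlt X g hPX hg hgP
    have h1 := hcardS hP'c.1
    exact ih (Nat.card S - Nat.card P') (by omega) P' X g le_rfl hP'c hPX hg hgP
  -- the property
  have hnot : ∀ {Y : Subgroup Ω}, ¬ 𝒞 Y → ∀ χ, Mor F Y χ → ¬ 𝒞 (img Y χ) := by
    intro Y hY χ hχ h1
    apply hY
    obtain ⟨i, hi, -, -, hi3⟩ := hχ.inverse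
    rw [← hi3]
    exact h.conj _ _ h1 hi
  have hnr : ∀ {Y : Subgroup Ω}, F.IsCentric Y → ¬ 𝒞 Y → ∀ χ, Mor F Y χ → ¬ F.IsRadical p (img Y χ) := by
    intro Y hYc hY χ hχ h1
    exact hnot hY χ hχ (h.rad _ (centric_img hYc hχ) h1)
  have hC : MapProp E (fun W f => ∀ Y ≤ W, Nat.card Y = n → F.IsCentric Y → ¬ 𝒞 Y → QnProp F E Y f) := by
    refine ⟨?_, ?_, ?_, ?_⟩
    · intro W f g _ h1 h2 Y hY hYc hYn hY𝒞
      exact (h2 Y hY hYc hYn hY𝒞).congr fun x hx => h1 x (hY hx)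
    · intro W s hW hs Y hY hYc hYn hY𝒞
      have hYS : Y < S := lt_of_le_of_ne hYn.1 (by rintro rfl; exact hY𝒞 h.top)
      have hlt := lt_normalizerIn hS hYS
      exact qn_basic hS hF h.sub n IH (mor_conj (F := E) (P := normalizerIn S Y) normalizerIn_le hs) hlt
        (fun d hd => hd.2) hYn hYc
    · intro W W' f g hf hg hm h1 h2 Y hY hYc hYn hY𝒞
      have hfY := h.sub _ _ (hf.mono hY)
      have hfYW : img Y f ≤ W' := img_le_iff.2 fun x hx => hm x (hY hx)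
      have hgY := h.sub _ _ (hg.mono hfYW)
      exact qn_comp hS hF h.sub n IH hP' hYn hYc (hnr hYn hY𝒞) (h1 Y hY hYc hYn hY𝒞)
        (h2 (img Y f) hfYW (by rw [hfY.card_img, hYc]) (centric_img hYn hfY) (hnot hY𝒞 f hfY)) hfY hgY
    · intro W f i hf hi h1 h2 h3 Y hY hYc hYn hY𝒞
      have hiF := h.sub _ _ hi
      have hfF := h.sub _ _ hf
      have hiY := hiF.mono hY
      have hY' : img Y i ≤ W := by
        rw [img_le_iff]
        intro y hy
        obtain ⟨x, hx, rfl⟩ := hf.mem_img.1 (hY hy)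
        rw [h1 x hx]; exact hx
      have hfi : ∀ y ∈ Y, f (i y) = y := by
        intro y hy
        obtain ⟨x, hx, rfl⟩ := hf.mem_img.1 (hY hy)
        rw [h1 x hx]
      have hYi : img (img Y i) f = Y := by
        rw [hiY.img_comp]; exact img_id' hfi
      have h4 := qn_inv (g := i) hS hF h.sub n IH (centric_img hYn hiY) (by rw [hiY.card_img, hYc])
        (hnr (centric_img hYn hiY) (hnot hY𝒞 i hiY))
        (h3 (img Y i) hY' (by rw [hiY.card_img, hYc]) (centric_img hYn hiY) (hnot hY𝒞 i hiY))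
        (hfF.mono hY') (fun y hy => h1 y (hY' hy))
      rwa [hYi] at h4
  have hmain : ∀ W f, Mor E W f → Mor (propSys E _ hC) W f := by
    apply h.gen
    intro W f hW hf
    rw [mor_propSys]
    refine ⟨hf, fun Y hY hYc hYn hY𝒞 => ?_⟩
    have hWf : Finite W := finite_of_le hf.le
    have hlt : Y < W := lt_of_le_of_ne hY (by rintro rfl; exact hY𝒞 hW)
    have hlt' := lt_inf_normalizer (hS.to_le hf.le) hlt
    exact qn_basic hS hF h.sub n IH (hf.mono inf_le_left) hlt' inf_le_right hYn hYc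
  have hq : QnProp F E P f := (mor_propSys.1 (hmain P f hfP)).2 P le_rfl hn.symm hPc h𝒞
  -- the final step
  obtain ⟨X₁, hX₁⟩ : ∃ X₁, X₁ = X ⊓ Subgroup.normalizer (P : Set Ω) := ⟨_, rfl⟩
  have hltX := lt_inf_normalizer (hS.to_le hf.le) (lt_of_le_of_ne hPX hPX')
  rw [← hX₁] at hltX
  have hX₁X : X₁ ≤ X := by rw [hX₁]; exact inf_le_left
  have hX₁N : X₁ ≤ Subgroup.normalizer (P : Set Ω) := by rw [hX₁]; exact inf_le_right
  have hX₁S : X₁ ≤ normalizerIn S P := fun x hx => ⟨hf.le (hX₁X hx), hX₁N hx⟩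
  have hfX₁ := hf.mono hX₁X
  obtain ⟨χ, hχ, hfn⟩ := hP'.exists_fn hS hF hPS
  obtain ⟨χ', hχ', hfn'⟩ := hP'.exists_fn hS hF (h.sub _ _ hfP).img_le
  have hχX := hχ.mono hX₁S
  obtain ⟨i, hi, hi1, hi2, hi3⟩ := hχX.inverse
  have hiX : ∀ y ∈ img X₁ χ, i y ∈ X₁ := by
    intro y hy
    rw [← hi3]; exact mem_img_of_mem hy
  have hfD := img_le_norm hfX₁ hltX.le hX₁N
  have hG := ((h.sub _ _ hi).comp hfX₁ hiX).comp (h.sub _ _ hχ') (fun y hy => hfD (mem_img_of_mem (hiX y hy)))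
  have hGE := hq χ χ' (fun y => χ' (f (i y))) hχ hfn hχ' hfn'
    (fun y hy => by show χ' (f (i (χ y))) = χ' (f y); rw [hi1 y (hltX.le hy)]) (img X₁ χ) _
    (img_mono hltX.le) hG (fun x _ => rfl)
  have hfX₁E : Mor E X₁ f := by
    have h1 := hχX.comp hGE (fun x hx => mem_img_of_mem hx)
    have hχ'X := hχ'.mono hfD
    obtain ⟨j, hj, hj1, hj2, hj3⟩ := hχ'X.inverse
    refine (h1.comp hj (fun x hx => ?_)).congr fun x hx => ?_
    · show χ' (f (i (χ x))) ∈ _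
      rw [hi1 x hx]; exact mem_img_of_mem (mem_img_of_mem hx)
    · show j (χ' (f (i (χ x)))) = f x
      rw [hi1 x hx, hj1 _ (mem_img_of_mem hx)]
  exact IH X₁ (centric_mono hPc hltX.le (hfX₁.le)) (by rw [hn]; exact card_lt_of_lt hltX hfX₁.le) X f hX₁X hf hfX₁E

theorem IPC.toIPP : IPP p F E where
  sub := h.sub
  inv := h.inv
  pel Q hQ α hα hk := (h.pair fun Q hQ => essential_radical hS hQ).pel_all hS hF hQ.1 hα hk
  ext P X f hP hPX hf hfP := h.ext_all hS hF _ P X f le_rfl hP hPX hf hfP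
  gen E' hE' P f hf := h.gen E' (fun P f hP hf => hE' P f (h.cc P hP) hf) P f hf

end

end Cfsg.Agent.H28
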