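import Mathlib
import Cfsg.Agent.H28.FusFocal
import Cfsg.Agent.H28.FusNormal2
import Cfsg.Agent.H28.StrEmb
import Cfsg.Agent.H28.IPI2

/-!
Centric radical subgroups meet strongly closed subgroups carrying subsystems in centric subgroups.
-/

set_option autoImplicit false
set_option linter.all false

namespace Cfsg.Agent.H28

open Cfsg Cfsg.FusionSystem

namespace NC

variable {Ω : Type*} [Group Ω] {S T : Subgroup Ω} {F : FusionSystem S} {E : FusionSystem T}
  {p : ℕ} {P Q R : Subgroup Ω} {f g h : Ω → Ω}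

theorem mem_sup_nrm {A B : Subgroup Ω} (h : ∀ b ∈ B, ∀ a ∈ A, b * a * b⁻¹ ∈ A) {x : Ω} :
    x ∈ A ⊔ B ↔ ∃ a ∈ A, ∃ b ∈ B, a * b = x := by
  constructor
  · intro hx
    let K : Subgroup Ω :=
      { carrier := {x | ∃ a ∈ A, ∃ b ∈ B, a * b = x}
        mul_mem' := by
          rintro _ _ ⟨a, ha, b, hb, rfl⟩ ⟨a', ha', b', hb', rfl⟩
          exact ⟨a * (b * a' * b⁻¹), A.mul_mem ha (h b hb a' ha'), b * b', B.mul_mem hb hb', by
            simp [mul_assoc]⟩
        one_mem' := ⟨1, A.one_mem, 1, B.one_mem, by simp⟩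
        inv_mem' := by
          rintro _ ⟨a, ha, b, hb, rfl⟩
          refine ⟨b⁻¹ * a⁻¹ * b⁻¹⁻¹, h _ (B.inv_mem hb) _ (A.inv_mem ha), b⁻¹, B.inv_mem hb, ?_⟩
          simp [mul_assoc] }
    have : A ⊔ B ≤ K := sup_le (fun a ha => ⟨a, ha, 1, B.one_mem, by simp⟩)
      (fun b hb => ⟨1, A.one_mem, b, hb, by simp⟩)
    exact this hx
  · rintro ⟨a, ha, b, hb, rfl⟩
    exact Subgroup.mul_mem_sup ha hb

theorem autFun_map_mul' (α : MulAut P) {x y : Ω} (hx : x ∈ P) (hy : y ∈ P) :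
    autFun α (x * y) = autFun α x * autFun α y := by
  rw [autFun_apply _ (mul_mem hx hy), autFun_apply _ hx, autFun_apply _ hy, ← Subgroup.coe_mul,
    ← map_mul]
  rfl

/-- automorphisms of `P` which are trivial on `P ∩ T` and modulo `P ∩ T` -/
def stabMod (A : Subgroup (MulAut P)) (R : Subgroup Ω)
    (hR : ∀ α ∈ A, ∀ x ∈ P, x ∈ R → autFun α x ∈ R) : Subgroup A where
  carrier := {α | (∀ x ∈ P, x ∈ R → autFun (α : MulAut P) x = x) ∧
    ∀ x ∈ P, x⁻¹ * autFun (α : MulAut P) x ∈ R}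
  one_mem' := ⟨fun x hx _ => autFun_one hx, fun x hx => by
    rw [Subgroup.coe_one, autFun_one hx]; simp⟩
  mul_mem' := by
    rintro a b ⟨ha, ha'⟩ ⟨hb, hb'⟩
    refine ⟨fun x hx hxR => ?_, fun x hx => ?_⟩
    · rw [Subgroup.coe_mul, autFun_mul _ _ hx, hb x hx hxR, ha x hx hxR]
    · rw [Subgroup.coe_mul, autFun_mul _ _ hx]
      have h1 := ha' _ (autFun_mem (b : MulAut P) hx)
      have h2 := hb' x hx
      have e : x⁻¹ * autFun (a : MulAut P) (autFun (b : MulAut P) x) =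
        (x⁻¹ * autFun (b : MulAut P) x) *
          ((autFun (b : MulAut P) x)⁻¹ * autFun (a : MulAut P) (autFun (b : MulAut P) x)) := by group
      rw [e]; exact mul_mem h2 h1
  inv_mem' := by
    rintro a ⟨ha, ha'⟩
    refine ⟨fun x hx hxR => ?_, fun x hx => ?_⟩
    · have h1 := autFun_inv_apply (a : MulAut P) hx
      rw [ha x hx hxR] at h1
      exact h1
    · have h1 := ha' _ (autFun_mem ((a : MulAut P)⁻¹) hx)
      rw [autFun_apply_inv _ hx] at h1
      have h2 := inv_mem h1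
      rw [Subgroup.coe_inv]
      have e : ((autFun (a : MulAut P)⁻¹ x)⁻¹ * x)⁻¹ = x⁻¹ * autFun (a : MulAut P)⁻¹ x := by group
      rwa [e] at h2

theorem mem_stabMod {A : Subgroup (MulAut P)} {R : Subgroup Ω}
    {hR : ∀ α ∈ A, ∀ x ∈ P, x ∈ R → autFun α x ∈ R} {α : A} : α ∈ stabMod A R hR ↔
      (∀ x ∈ P, x ∈ R → autFun (α : MulAut P) x = x) ∧
      ∀ x ∈ P, x⁻¹ * autFun (α : MulAut P) x ∈ R := Iff.rfl

theorem stabMod_normal {A : Subgroup (MulAut P)} {R : Subgroup Ω}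
    {hR : ∀ α ∈ A, ∀ x ∈ P, x ∈ R → autFun α x ∈ R} : (stabMod A R hR).Normal := ⟨by
  rintro n ⟨hn, hn'⟩ a
  have hai : ∀ x ∈ P, x ∈ R → autFun (a : MulAut P)⁻¹ x ∈ R :=
    hR _ (A.inv_mem a.2)
  refine mem_stabMod.2 ⟨fun x hx hxR => ?_, fun x hx => ?_⟩
  · rw [Subgroup.coe_mul, Subgroup.coe_mul, Subgroup.coe_inv, autFun_mul _ _ hx,
      autFun_mul _ _ (autFun_mem _ hx), hn _ (autFun_mem _ hx) (hai x hx hxR),
      autFun_apply_inv _ hx]
  · rw [Subgroup.coe_mul, Subgroup.coe_mul, Subgroup.coe_inv, autFun_mul _ _ hx,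
      autFun_mul _ _ (autFun_mem _ hx)]
    set y := autFun (a : MulAut P)⁻¹ x with hy
    have hyP : y ∈ P := autFun_mem _ hx
    have hxy : x = autFun (a : MulAut P) y := by rw [hy, autFun_apply_inv _ hx]
    have h1 := hn' y hyP
    have h2 : autFun (n : MulAut P) y = y * (y⁻¹ * autFun (n : MulAut P) y) := by group
    have h3 : y⁻¹ * autFun (n : MulAut P) y ∈ P := mul_mem (inv_mem hyP) (autFun_mem _ hyP)
    have h4 := hR _ a.2 _ h3 h1
    have h5 : autFun (a : MulAut P) (autFun (n : MulAut P) y) =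
        autFun (a : MulAut P) y * autFun (a : MulAut P) (y⁻¹ * autFun (n : MulAut P) y) := by
      rw [← autFun_map_mul' _ hyP h3, mul_inv_cancel_left]
    rw [h5, hxy]
    simpa using h4⟩

theorem stabMod_isPGroup [Fact p.Prime] [Finite P] (hP : IsPGroup p P) {A : Subgroup (MulAut P)}
    {R : Subgroup Ω} {hR : ∀ α ∈ A, ∀ x ∈ P, x ∈ R → autFun α x ∈ R} :
    IsPGroup p (stabMod A R hR) := by
  intro α
  -- exponent of P
  obtain ⟨n, hn⟩ := IsPGroup.iff_card.1 hP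
  obtain ⟨h1, h2⟩ := α.2
  refine ⟨n, ?_⟩
  have key : ∀ k : ℕ, ∀ x ∈ P, autFun (((α : A) : MulAut P) ^ k) x =
      x * (x⁻¹ * autFun ((α : A) : MulAut P) x) ^ k := by
    intro k x hx
    have hc : x⁻¹ * autFun ((α : A) : MulAut P) x ∈ P := mul_mem (inv_mem hx) (autFun_mem _ hx)
    exact autFun_pow_of_fix hx hc (by group) (h1 _ hc (h2 x hx)) k
  apply Subtype.ext
  apply Subtype.ext
  refine mulAut_ext fun x hx => ?_
  have hc : x⁻¹ * autFun ((α : A) : MulAut P) x ∈ P := mul_mem (inv_mem hx) (autFun_mem _ hx)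
  have h3 : (x⁻¹ * autFun ((α : A) : MulAut P) x) ^ p ^ n = 1 := by
    have : (⟨x⁻¹ * autFun ((α : A) : MulAut P) x, hc⟩ : P) ^ p ^ n = 1 := by
      rw [← hn]; exact pow_card_eq_one'
    exact congrArg Subtype.val this
  have h4 := key (p ^ n) x hx
  rw [h3, mul_one] at h4
  rw [show (((α ^ p ^ n : stabMod A R hR) : A) : MulAut P) = ((α : A) : MulAut P) ^ p ^ n by simp]
  rw [h4]
  simp [autFun_one hx]

/-- S5251 -/
theorem noncentric_inter [Fact p.Prime] [Finite S] (hS : IsPGroup p S) (hF : F.IsSaturated p)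
    (hT : F.StronglyClosed T) (hEF : ∀ P f, Mor E P f → Mor F P f) (hPS : P ≤ S)
    (hPT : ¬ E.IsCentric (P ⊓ T)) : ∃ f, Mor F P f ∧ ∃ x ∈ S, x ∈ Subgroup.normalizer (img P f : Set Ω) ∧
      x ∉ img P f ∧ ∃ α : F.autGroup (img P f), α ∈ pCore p (F.autGroup (img P f)) ∧
        ∀ y ∈ img P f, autFun (α : MulAut (img P f)) y = x * y * x⁻¹ := by
  have hTS : T ≤ S := (stronglyClosed_iff.1 hT).1
  -- a conjugate with large centralizer
  have h1 : ∃ R', E.IsConj (P ⊓ T) R' ∧ ¬ centralizerIn T R' ≤ R' := by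
    by_contra hcon
    push Not at hcon
    exact hPT ⟨inf_le_right, fun Q hQ => hcon Q hQ⟩
  obtain ⟨R', hR', hc⟩ := h1
  obtain ⟨u, hu, rfl⟩ := isConj_iff.1 hR'
  have hu' := hEF _ _ hu
  obtain ⟨R, hRc, hRn⟩ := exists_fullyNormalized (F := F) (inf_le_left.trans hPS : P ⊓ T ≤ S)
  obtain ⟨χ, hχ, hχi⟩ := FN.exists_map hS hF hRn (isConj_trans (isConj_symm hu'.isConj) hRc)
  have hRT : R ≤ T := by
    rw [← hχi]
    intro y hy
    obtain ⟨x, hx, rfl⟩ := (hχ.mono (le_normalizerIn (hu'.img_le))).mem_img.1 hy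
    exact sc_apply hT (hχ.mono (le_normalizerIn (hu'.img_le))) hx (hu.img_le hx)
  have hcR : ¬ centralizerIn T R ≤ R := by
    intro hle
    refine hc fun x hx => ?_
    have hxS : x ∈ centralizerIn S (img (P ⊓ T) u) :=
      mem_centralizerIn.2 ⟨hTS (mem_centralizerIn.1 hx).1, (mem_centralizerIn.1 hx).2⟩
    have hxN := centralizerIn_le_normalizerIn hxS
    have h2 := img_centralizerIn_le hχ hu'.img_le (mem_img_of_mem (f := χ) hxS)
    rw [hχi] at h2
    have h3 : χ x ∈ R := hle (mem_centralizerIn.2 ⟨sc_apply hT hχ hxN (mem_centralizerIn.1 hx).1,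
      (mem_centralizerIn.1 h2).2⟩)
    rw [← hχi] at h3
    obtain ⟨y, hy, hyx⟩ := (hχ.mono (le_normalizerIn (hu'.img_le))).mem_img.1 h3
    have := hχ.inj (le_normalizerIn hu'.img_le hy) hxN hyx
    rwa [← this]
  -- the map on `P`
  obtain ⟨φ, hφ, hφi⟩ := FN.exists_map hS hF hRn hRc
  have hPN : P ≤ normalizerIn S (P ⊓ T) := by
    intro x hx
    haveI := finite_of_le (inf_le_left.trans hPS : P ⊓ T ≤ S)
    have h2 : x ∈ Subgroup.normalizer ((P ⊓ T : Subgroup Ω) : Set Ω) :=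
      mem_normalizer_of_finite fun y hy => ⟨mul_mem (mul_mem hx hy.1) (P.inv_mem hx),
        sc_conj hT (hPS hx) hy.2⟩
    exact mem_normalizerIn.2 ⟨hPS hx, Subgroup.mem_normalizer_iff.1 h2⟩
  have hφP := hφ.mono hPN
  have hPR : img P φ ⊓ T = R := by
    refine le_antisymm ?_ ?_
    · rintro y ⟨hy, hyT⟩
      obtain ⟨x, hx, rfl⟩ := hφP.mem_img.1 hy
      obtain ⟨k, hk, hk1, -, -⟩ := hφP.inverse
      have h3 := sc_apply hT hk hy hyT
      rw [hk1 x hx] at h3
      rw [← hφi]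
      exact mem_img_of_mem (f := φ) (show x ∈ P ⊓ T from ⟨hx, h3⟩)
    · rw [← hφi]
      intro y hy
      obtain ⟨x, hx, rfl⟩ := (hφ.mono (inf_le_left.trans hPN)).mem_img.1 hy
      exact ⟨mem_img_of_mem hx.1, sc_apply hT hφP hx.1 hx.2⟩
  refine ⟨φ, hφP, ?_⟩
  set Q := img P φ with hQ
  have hQS : Q ≤ S := hφP.img_le
  haveI : Finite Q := finite_of_le hQS
  have hQR : R ≤ Q := by rw [← hPR]; exact inf_le_left
  -- element of the centralizer normalizing `Q`
  have hCn : ∀ b ∈ Q, ∀ a ∈ centralizerIn T R, b * a * b⁻¹ ∈ centralizerIn T R := by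
    intro b hb a ha
    have ha' := mem_centralizerIn.1 ha
    refine mem_centralizerIn.2 ⟨sc_conj hT (hQS hb) ha'.1, fun y hy => ?_⟩
    have hy' : b⁻¹ * y * b ∈ R := by
      rw [← hPR] at hy ⊢
      exact ⟨mul_mem (mul_mem (Q.inv_mem hb) hy.1) hb, by
        simpa using sc_conj hT (S.inv_mem (hQS hb)) hy.2⟩
    have := ha'.2 _ hy'
    calc b * a * b⁻¹ * y = b * (a * (b⁻¹ * y * b)) * b⁻¹ := by group
      _ = b * ((b⁻¹ * y * b) * a) * b⁻¹ := by rw [this]
      _ = _ := by group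
  have hsupS : centralizerIn T R ⊔ Q ≤ S := sup_le (centralizerIn_le.trans hTS) hQS
  have hlt : Q < centralizerIn T R ⊔ Q := by
    refine lt_of_le_of_ne le_sup_right fun he => hcR fun x hx => ?_
    have h3 : x ∈ Q := by rw [he]; exact Subgroup.mem_sup_left hx
    rw [← hPR]; exact ⟨h3, (mem_centralizerIn.1 hx).1⟩
  haveI : Finite ↥(centralizerIn T R ⊔ Q) := finite_of_le hsupS
  obtain ⟨b, hb, hbN, hbQ⟩ := exists_mem_normalizer_of_isPGroup_lt (isPGroup_of_le hS hsupS) hlt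
  obtain ⟨x, hx, q, hq, rfl⟩ := (mem_sup_nrm hCn).1 hb
  have hxN : x ∈ Subgroup.normalizer (Q : Set Ω) := by
    have : x = (x * q) * q⁻¹ := by group
    rw [this]
    exact mul_mem hbN (inv_mem (Subgroup.le_normalizer hq))
  have hxQ : x ∉ Q := fun h => hbQ (mul_mem h hq)
  have hxT := (mem_centralizerIn.1 hx).1
  refine ⟨x, hTS hxT, hxN, hxQ, ?_⟩
  have hinv : ∀ α ∈ F.autGroup Q, ∀ y ∈ Q, y ∈ T → autFun α y ∈ T := fun α hα y hy hyT =>
    sc_apply hT (mor_autFun hQS hα) hy hyT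
  have hmem : conjAut Q x hxN ∈ F.autGroup Q := autInducedBy_le hQS le_rfl (conjAut_mem hxN (hTS hxT))
  refine ⟨⟨_, hmem⟩, ?_, fun y hy => autFun_conjAut hxN hy⟩
  refine le_pCore (stabMod_normal (hR := hinv)) (stabMod_isPGroup (isPGroup_of_le hS hQS)) ?_
  refine mem_stabMod.2 ⟨fun y hy hyT => ?_, fun y hy => ?_⟩
  · rw [autFun_conjAut hxN hy]
    have hyR : y ∈ R := by rw [← hPR]; exact ⟨hy, hyT⟩
    rw [(mem_centralizerIn.1 hx).2 y hyR]; group
  · rw [autFun_conjAut hxN hy]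
    have h4 := sc_conj hT (S.inv_mem (hQS hy)) hxT
    have e : y⁻¹ * (x * y * x⁻¹) = (y⁻¹ * x * y⁻¹⁻¹) * x⁻¹ := by group
    rw [e]
    exact mul_mem h4 (inv_mem hxT)

theorem not_radical_of_conj [Fact p.Prime] [Finite S] (hf : Mor F P f) (hc : F.IsCentric P) {x : Ω}
    (hxS : x ∈ S) (hx : x ∉ img P f) {α : F.autGroup (img P f)}
    (hα : α ∈ pCore p (F.autGroup (img P f)))
    (h : ∀ y ∈ img P f, autFun (α : MulAut (img P f)) y = x * y * x⁻¹) : ¬ F.IsRadical p P := by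
  intro hr
  haveI : Finite P := finite_of_le hf.le
  haveI : Finite (MulAut P) := finite_mulAut
  haveI : Finite ↥(img P f) := finite_of_le hf.img_le
  haveI : Finite (MulAut ↥(img P f)) := finite_mulAut
  have h1 : hf.autEquiv.symm α ∈ pCore p (F.autGroup P) := by
    have hN : ((pCore p (F.autGroup (img P f))).comap hf.autEquiv.toMonoidHom).Normal := by
      haveI := normal_pCore (p := p) (X := F.autGroup (img P f))
      infer_instance
    have hNp : IsPGroup p ((pCore p (F.autGroup (img P f))).comap hf.autEquiv.toMonoidHom) :=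
      isPGroup_pCore.comap_of_injective _ hf.autEquiv.injective
    refine le_pCore hN hNp ?_
    rw [Subgroup.mem_comap]
    simpa using hα
  have h2 : ((hf.autEquiv.symm α : F.autGroup P) : MulAut P) ∈ Inn P := by
    rw [← hr.2]; exact ⟨_, h1, rfl⟩
  obtain ⟨u, hu, hu1⟩ := mem_Inn.1 h2
  have h3 : ∀ y ∈ img P f, (f u) * y * (f u)⁻¹ = x * y * x⁻¹ := by
    intro y hy
    obtain ⟨z, hz, rfl⟩ := hf.mem_img.1 hy
    rw [← h _ hy, ← hf.conj hu hz, ← hu1 z hz, ← hf.autEquiv_apply _ hz]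
    simp
  refine hx ?_
  have h4 : (f u)⁻¹ * x ∈ centralizerIn S (img P f) := by
    refine mem_centralizerIn.2 ⟨mul_mem (S.inv_mem (hf.mem hu)) hxS, fun y hy => ?_⟩
    have h5 := h3 y hy
    calc (f u)⁻¹ * x * y = (f u)⁻¹ * (x * y * x⁻¹) * x := by group
      _ = (f u)⁻¹ * ((f u) * y * (f u)⁻¹) * x := by rw [h5]
      _ = _ := by group
  have h6 := centric_centralizer (centric_img hc hf) h4
  have e : x = f u * ((f u)⁻¹ * x) := by group
  rw [e]
  exact mul_mem (mem_img_of_mem hu) h6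

end NC

end Cfsg.Agent.H28
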