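import Mathlib
import Cfsg.Agent.H28.IPI7
import Cfsg.Agent.H28.FusInv

/-!
Subsystems of index prime to `p` coming from a normal subsystem over a strongly closed subgroup.
-/

set_option autoImplicit false

namespace Cfsg.Agent.H28

open Cfsg.FusionSystem

universe u

/-- A subgroup `K` of `Aut_F(T)` controlling a subsystem of index prime to `p`. -/
structure KData {Ω : Type u} [Group Ω] {S T : Subgroup Ω} (p : ℕ) (F : FusionSystem S) (E : FusionSystem T)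
    (K : Subgroup (MulAut T)) : Prop where
  sc : F.StronglyClosed T
  sub : ∀ P f, Mor E P f → Mor F P f
  inv : ∀ P f, Mor E P f → ∀ α ∈ F.autGroup T, Mor E (img P (autFun α)) (fun x => autFun α (f (autFun α⁻¹ x)))
  frat : ∀ P f, P ≤ T → Mor F P f → ∃ α ∈ F.autGroup T, ∃ g, Mor E P g ∧ ∀ x ∈ P, f x = autFun α (g x)
  Kle : K ≤ F.autGroup T
  Kn : ∀ α ∈ F.autGroup T, ∀ κ ∈ K, α * κ * α⁻¹ ∈ K
  Kp : ∀ α ∈ F.autGroup T, (∃ k : ℕ, α ^ p ^ k = 1) → α ∈ K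
  KE : E.autGroup T ≤ K

/-- The maps acting on the intersection with `T` as an element of `K` times a map of `E`. -/
def kProp {Ω : Type u} [Group Ω] {T : Subgroup Ω} (E : FusionSystem T)
    (K : Subgroup (MulAut T)) (P : Subgroup Ω) (f : Ω → Ω) : Prop :=
  ∃ α ∈ K, ∃ g, Mor E (P ⊓ T) g ∧ ∀ x ∈ P ⊓ T, f x = autFun α (g x)

section
variable {Ω : Type u} [Group Ω] {S T : Subgroup Ω} {F : FusionSystem S} {E : FusionSystem T}
  {K : Subgroup (MulAut T)} {P Q X Y Z D : Subgroup Ω}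
  {f g φ θ χ κ : Ω → Ω} {p : ℕ} {s : Ω}

theorem kdata_of_invariant (hE : E.IsInvariantIn F) (Kle : K ≤ F.autGroup T)
    (Kn : ∀ α ∈ F.autGroup T, ∀ κ ∈ K, α * κ * α⁻¹ ∈ K)
    (Kp : ∀ α ∈ F.autGroup T, (∃ k : ℕ, α ^ p ^ k = 1) → α ∈ K) (KE : E.autGroup T ≤ K) : KData p F E K := by
  obtain ⟨h1, h2, h3, h4⟩ := invariant_iff.1 hE
  refine ⟨h2, subsystem_iff.1 h1, ?_, h4, Kle, Kn, Kp, KE⟩
  intro P f hf α hα
  obtain ⟨g, hg, e⟩ := h3 P f hf α hα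
  refine hg.congr fun y hy => ?_
  have hαP := (mor_autFun h2.1 hα).mono hf.le
  obtain ⟨x, hx, rfl⟩ := hαP.mem_img.1 hy
  rw [e x hx, autFun_inv_apply _ (hf.le hx)]

theorem inter_img (hT : F.StronglyClosed T) (hf : Mor F P f) : img P f ⊓ T = img (P ⊓ T) f := by
  have hfm := hf.mono (inf_le_left : P ⊓ T ≤ P)
  apply le_antisymm
  · rintro y ⟨hy, hyT⟩
    obtain ⟨i, hi, hi1, hi2, hi3⟩ := hf.inverse
    have h1 : i y ∈ T := sc_apply hT hi hy hyT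
    have h2 : i y ∈ P := by rw [← hi3]; exact mem_img_of_mem hy
    rw [hfm.mem_img]
    exact ⟨i y, ⟨h2, h1⟩, hi2 y hy⟩
  · rw [img_le_iff]
    rintro x ⟨hx, hxT⟩
    exact ⟨mem_img_of_mem hx, sc_apply hT hf hx hxT⟩

theorem centric_autFun [Finite S] (h : KData p F E K) {γ : MulAut T} (hγ : γ ∈ F.autGroup T)
    (hQ : E.IsCentric Q) : E.IsCentric (img Q (autFun γ)) := by
  have hTS := h.sc.1
  have hγm := mor_autFun hTS hγ
  have hγ' := Subgroup.inv_mem _ hγ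
  have hγQ := hγm.mono hQ.1
  have hle : img Q (autFun γ) ≤ T := img_le_iff.2 fun x hx => autFun_mem _ (hQ.1 hx)
  refine ⟨hle, ?_⟩
  intro R hR
  obtain ⟨g, hg, rfl⟩ := isConj_iff.1 hR
  have h1 := h.inv _ _ hg _ hγ'
  have h2 : img (img Q (autFun γ)) (autFun γ⁻¹) = Q := by
    rw [hγQ.img_comp]
    exact img_id' fun x hx => autFun_inv_apply _ (hQ.1 hx)
  rw [h2] at h1
  have h3 := hQ.2 _ h1.isConj
  intro c hc
  obtain ⟨hcT, hc⟩ := mem_centralizerIn.1 hc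
  have h4 : autFun γ⁻¹ c ∈ centralizerIn T (img Q fun x => autFun γ⁻¹ (g (autFun γ⁻¹⁻¹ x))) := by
    refine mem_centralizerIn.2 ⟨autFun_mem _ hcT, ?_⟩
    intro y hy
    obtain ⟨x, hx, rfl⟩ := h1.mem_img.1 hy
    rw [inv_inv]
    have h5 : g (autFun γ x) ∈ T := hg.mem (mem_img_of_mem hx)
    rw [← (mor_autFun hTS hγ').mul hcT h5, hc _ (mem_img_of_mem (mem_img_of_mem hx)),
      (mor_autFun hTS hγ').mul h5 hcT]
  obtain ⟨x, hx, h5⟩ := h1.mem_img.1 (h3 h4)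
  simp only [inv_inv] at h5
  have h6 : g (autFun γ x) ∈ T := hg.mem (mem_img_of_mem hx)
  have h7 : c = g (autFun γ x) := by
    have h8 := congrArg (autFun γ) h5
    rw [autFun_apply_inv _ h6, autFun_apply_inv _ hcT] at h8
    exact h8.symm
  rw [h7]; exact mem_img_of_mem (mem_img_of_mem hx)

theorem conjAut_pow_one [Finite S] (hS : IsPGroup p S) (hT : F.StronglyClosed T) (hs : s ∈ S)
    (hsN : s ∈ Subgroup.normalizer (T : Set Ω)) : ∃ k : ℕ, conjAut T s hsN ^ p ^ k = 1 := by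
  obtain ⟨k, hk⟩ := isPGroup_autInducedBy (P := T) hS ⟨conjAut T s hsN, conjAut_mem hsN hs⟩
  exact ⟨k, congrArg Subtype.val hk⟩

theorem kconj [Finite S] (hS : IsPGroup p S) (h : KData p F E K) (hs : s ∈ S)
    (hsN : s ∈ Subgroup.normalizer (T : Set Ω)) : conjAut T s hsN ∈ K :=
  h.Kp _ (autInducedBy_le h.sc.1 le_rfl (conjAut_mem hsN hs)) (conjAut_pow_one hS h.sc hs hsN)

theorem kProp_prop [Finite S] (hS : IsPGroup p S) (h : KData p F E K) : MapProp F (kProp E K) where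
  congr P f g _ h1 := by
    rintro ⟨α, hα, g₀, hg₀, e⟩
    exact ⟨α, hα, g₀, hg₀, fun x hx => by rw [← h1 x hx.1, e x hx]⟩
  conj P s hP hs := by
    have hsN := sc_normalizer h.sc hs
    refine ⟨conjAut T s hsN, kconj hS h hs hsN, fun x => x, mor_self inf_le_right, fun x hx => ?_⟩
    rw [autFun_conjAut _ hx.2]
  comp P Q f g hf hg hm := by
    rintro ⟨γ, hγ, f₀, hf₀, e1⟩ ⟨δ, hδ, g₀, hg₀, e2⟩
    have hγ' : γ⁻¹ ∈ F.autGroup T := Subgroup.inv_mem _ (h.Kle hγ)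
    have h1 := h.inv _ _ hg₀ _ hγ'
    have h2 : ∀ x ∈ P ⊓ T, f₀ x = autFun γ⁻¹ (f x) := by
      intro x hx
      rw [e1 x hx, autFun_inv_apply _ (hf₀.mem hx)]
    have hmT : ∀ x ∈ P ⊓ T, f x ∈ Q ⊓ T := fun x hx => ⟨hm x hx.1, sc_apply h.sc hf hx.1 hx.2⟩
    have h3 := hf₀.comp h1 (fun x hx => by rw [h2 x hx]; exact mem_img_of_mem (hmT x hx))
    refine ⟨δ * γ, mul_mem hδ hγ, _, h3, fun x hx => ?_⟩
    have h4 : autFun γ⁻¹⁻¹ (f₀ x) = f x := by rw [inv_inv, e1 x hx]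
    have h5 : g₀ (f x) ∈ T := hg₀.mem (hmT x hx)
    show g (f x) = autFun (δ * γ) (autFun γ⁻¹ (g₀ (autFun γ⁻¹⁻¹ (f₀ x))))
    rw [h4, autFun_mul _ _ (autFun_mem _ h5), autFun_apply_inv _ h5, e2 _ (hmT x hx)]
  inv P f i hf hi h1 h2 := by
    rintro ⟨γ, hγ, f₀, hf₀, e1⟩
    obtain ⟨j, hj, hj1, hj2, -⟩ := hf₀.inverse
    have h3 := h.inv _ _ hj _ (h.Kle hγ)
    have hfT := hf.mono (inf_le_left : P ⊓ T ≤ P)
    have h4 : img (img (P ⊓ T) f₀) (autFun γ) = img (P ⊓ T) f := by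
      rw [hf₀.img_comp]
      exact img_congr fun x hx => (e1 x hx).symm
    rw [h4, ← inter_img h.sc hf] at h3
    refine ⟨γ⁻¹, Subgroup.inv_mem _ hγ, _, h3, fun y hy => ?_⟩
    rw [inter_img h.sc hf] at hy
    obtain ⟨x, hx, rfl⟩ := hfT.mem_img.1 hy
    show i (f x) = autFun γ⁻¹ (autFun γ (j (autFun γ⁻¹ (f x))))
    have h6 : j (f₀ x) ∈ T := by rw [hj1 x hx]; exact hx.2
    rw [h1 x hx.1, e1 x hx, autFun_inv_apply _ (hf₀.mem hx), autFun_inv_apply _ h6, hj1 x hx]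

theorem kProp_inv [Finite S] (h : KData p F E K) {γ : MulAut S} (hγ : γ ∈ F.autGroup S) (hf : Mor F P f)
    (hk : kProp E K P f) : kProp E K (img P (autFun γ)) (fun x => autFun γ (f (autFun γ⁻¹ x))) := by
  have hTS := h.sc.1
  have hγm := mor_autFun le_rfl hγ
  have hγP := hγm.mono hf.le
  obtain ⟨δ, hδ, hδe⟩ := (hγm.mono hTS).exists_aut (sc_img_eq h.sc hγm hTS)
  obtain ⟨α, hα, g, hg, e⟩ := hk
  have h1 := h.inv _ _ hg _ hδ
  have h2 : img (P ⊓ T) (autFun δ) = img P (autFun γ) ⊓ T := by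
    rw [inter_img h.sc hγP]
    exact img_congr fun x hx => hδe x hx.2
  rw [h2] at h1
  refine ⟨δ * α * δ⁻¹, h.Kn _ hδ _ hα, _, h1, fun y hy => ?_⟩
  rw [← h2] at hy
  have hδm := (mor_autFun hTS hδ).mono (inf_le_right : P ⊓ T ≤ T)
  obtain ⟨x, hx, rfl⟩ := hδm.mem_img.1 hy
  have h3 : autFun δ⁻¹ (autFun δ x) = x := autFun_inv_apply _ hx.2
  have h4 : autFun γ⁻¹ (autFun δ x) = x := by
    rw [hδe x hx.2, autFun_inv_apply _ (hTS hx.2)]
  have h5 : g x ∈ T := hg.mem hx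
  show autFun γ (f (autFun γ⁻¹ (autFun δ x))) = autFun (δ * α * δ⁻¹) (autFun δ (g (autFun δ⁻¹ (autFun δ x))))
  rw [h3, h4, autFun_mul _ _ (autFun_mem _ h5), autFun_inv_apply _ h5, autFun_mul _ _ h5, ← e x hx, hδe]
  rw [e x hx]; exact autFun_mem _ h5

variable [hp : Fact p.Prime] [Finite S] (hS : IsPGroup p S) (hF : F.IsSaturated p) (h : KData p F E K)
include hS hF h

/-- The elements of `p`-power order have the property. -/
theorem kProp_pel (hQ : Q ≤ S) {α : MulAut Q} (hα : α ∈ F.autGroup Q) (hk : ∃ k : ℕ, α ^ p ^ k = 1) :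
    kProp E K Q (autFun α) := by
  obtain ⟨k, hk⟩ := hk
  have hTS := h.sc.1
  obtain ⟨ρ, hρ, -, s, hs, h1⟩ := exists_conj_of_pElement hS hF hQ hα hk
  obtain ⟨γ, hγ, ψ, hψ, e⟩ := h.frat _ _ inf_le_right (hρ.mono (inf_le_left : Q ⊓ T ≤ Q))
  obtain ⟨i, hi, hi1, hi2, hi3⟩ := hψ.inverse
  have hsN := sc_normalizer h.sc hs
  have hαm := mor_autFun hQ hα
  have hαT : ∀ x ∈ Q ⊓ T, autFun α x ∈ Q ⊓ T := fun x hx => ⟨autFun_mem _ hx.1, sc_apply h.sc hαm hx.1 hx.2⟩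
  obtain ⟨κ, hκ⟩ : ∃ κ, κ = γ⁻¹ * conjAut T s hsN * γ⁻¹⁻¹ := ⟨_, rfl⟩
  have hκK : κ ∈ K := by rw [hκ]; exact h.Kn _ (Subgroup.inv_mem _ hγ) _ (kconj hS h hs hsN)
  have h2 : ∀ x ∈ Q ⊓ T, autFun κ (ψ x) = ψ (autFun α x) := by
    intro x hx
    have h3 := h1 x hx.1
    rw [e x hx, e _ (hαT x hx)] at h3
    have hψT : ψ x ∈ T := hψ.mem hx
    have hγT := autFun_mem γ hψT
    rw [hκ, inv_inv, autFun_mul _ _ hψT, autFun_mul _ _ hγT, autFun_conjAut _ hγT, ← h3,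
      autFun_inv_apply _ (hψ.mem (hαT x hx))]
  have hκ' : κ⁻¹ ∈ F.autGroup T := Subgroup.inv_mem _ (h.Kle hκK)
  have h3 := h.inv _ _ hi _ hκ'
  have h4 : ∀ x ∈ Q ⊓ T, ψ x = autFun κ⁻¹ (ψ (autFun α x)) := by
    intro x hx
    rw [← h2 x hx, autFun_inv_apply _ (hψ.mem hx)]
  refine ⟨κ, hκK, _, hψ.comp h3 (fun x hx => ?_), fun x hx => ?_⟩
  · rw [h4 x hx]; exact mem_img_of_mem (mem_img_of_mem (hαT x hx))
  · show autFun α x = autFun κ (autFun κ⁻¹ (i (autFun κ⁻¹⁻¹ (ψ x))))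
    rw [inv_inv, h2 x hx, hi1 _ (hαT x hx), autFun_apply_inv _ (hαT x hx).2]

/-- An element of `Aut_F(T)` acting as a map of `E` on an `E`-centric subgroup belongs to `K`. -/
theorem kclaim (hE : E.IsSaturated p) : ∀ (n : ℕ) (Q : Subgroup Ω), Nat.card T - Nat.card Q ≤ n →
    E.IsCentric Q → ∀ δ ∈ F.autGroup T, Mor E Q (autFun δ) → δ ∈ K := by
  have hTS := h.sc.1
  have hTf : Finite T := finite_of_le hTS
  have hTp := hS.to_le hTS
  intro n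
  induction n using Nat.strong_induction_on with
  | _ n ih =>
  intro Q hn hQ δ hδ hδE
  by_cases hQT : Q = T
  · subst hQT
    exact h.KE ((mor_autFun_iff le_rfl).1 hδE)
  have hQle := hQ.1
  have hQf : Finite Q := finite_of_le hQle
  have hlt := lt_normalizerIn hTp (lt_of_le_of_ne hQle hQT)
  have hNT : normalizerIn T Q ≤ T := normalizerIn_le
  have hNf : Finite (normalizerIn T Q) := finite_of_le hNT
  have hδm := mor_autFun hTS hδ
  have hrec := fullyCentralized_receptive hTp hE (FC_of_centric (centric_img hQ hδE))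
  obtain ⟨ψ, hψ, e⟩ := receptive_extend hrec hδE
  have hNle : normalizerIn T Q ≤ Nf T Q (autFun δ) := by
    intro t ht
    rw [mem_Nf]
    exact ⟨ht.1, ht.2, autFun δ t, autFun_mem _ ht.1, fun x hx => hδm.conj ht.1 (hQle hx)⟩
  have hψN := hψ.mono hNle
  have hδ' := Subgroup.inv_mem _ hδ
  have hδ'm := mor_autFun hTS hδ'
  have hρ := (h.sub _ _ hψN).comp hδ'm (fun x hx => hψN.mem hx)
  -- ρ acts trivially on Q and on N/Q
  have hρQ : ∀ x ∈ Q, autFun δ⁻¹ (ψ x) = x := fun x hx => by rw [e x hx, autFun_inv_apply _ (hQle hx)]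
  have hρN : ∀ t ∈ normalizerIn T Q, t⁻¹ * autFun δ⁻¹ (ψ t) ∈ Q := by
    intro t ht
    apply centric_centralizer hQ
    have htT := hNT ht
    refine mem_centralizerIn.2 ⟨mul_mem (Subgroup.inv_mem _ htT) (autFun_mem _ (hψN.mem ht)), fun x hx => ?_⟩
    have h1 : t * x * t⁻¹ ∈ Q := (Subgroup.mem_normalizer_iff.1 ht.2 x).1 hx
    have h2 := hρ.conj ht (hlt.le hx)
    rw [hρQ _ h1, hρQ x hx] at h2
    obtain ⟨r, hr⟩ : ∃ r, r = autFun δ⁻¹ (ψ t) := ⟨_, rfl⟩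
    rw [← hr] at h2 ⊢
    have h3 : t⁻¹ * r * x = t⁻¹ * (r * x * r⁻¹) * r := by group
    rw [h3, ← h2]; group
  have hρimg : img (normalizerIn T Q) (fun x => autFun δ⁻¹ (ψ x)) = normalizerIn T Q := by
    apply eq_of_le_of_card
    · rw [img_le_iff]
      intro t ht
      have h1 : autFun δ⁻¹ (ψ t) = t * (t⁻¹ * autFun δ⁻¹ (ψ t)) := by group
      rw [h1]
      exact mul_mem ht (hlt.le (hρN t ht))
    · rw [hρ.card_img]
  obtain ⟨ρ, hρA, hρe⟩ := hρ.exists_aut hρimg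
  have hρk : ∃ k : ℕ, ρ ^ p ^ k = 1 := by
    obtain ⟨k, hk⟩ := (IsPGroup.iff_card.1 (hTp.to_le hQle))
    refine ⟨k, mulAut_ext fun t ht => ?_⟩
    obtain ⟨z, hz⟩ : ∃ z, z = t⁻¹ * autFun δ⁻¹ (ψ t) := ⟨_, rfl⟩
    have hzQ : z ∈ Q := by rw [hz]; exact hρN t ht
    have hρt : autFun ρ t = t * z := by rw [hρe t ht, hz]; group
    have hρz : autFun ρ z = z := by rw [hρe z (hlt.le hzQ), hρQ z hzQ]
    have h1 : ∀ m : ℕ, autFun (ρ ^ m) t = t * z ^ m := by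
      intro m
      induction m with
      | zero => rw [pow_zero, pow_zero, autFun_one ht, mul_one]
      | succ m ihm =>
        rw [pow_succ', autFun_mul _ _ ht, ihm]
        have hm := mor_autFun (hNT.trans hTS) hρA
        rw [hm.mul ht (hlt.le (pow_mem hzQ m)), hρt, hm.pow (hlt.le hzQ), hρz, pow_succ', mul_assoc]
    rw [h1, autFun_one ht, ← hk]
    have h2 : z ^ Nat.card Q = 1 := by
      have := pow_card_eq_one' (x := (⟨z, hzQ⟩ : Q))
      exact congrArg Subtype.val this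
    rw [h2, mul_one]
  obtain ⟨κ, hκ, ψ', hψ', e'⟩ := kProp_pel hS hF h (hNT.trans hTS) hρA hρk
  have hNi : normalizerIn T Q ⊓ T = normalizerIn T Q := inf_eq_left.2 hNT
  rw [hNi] at hψ' e'
  obtain ⟨j, hj, hj1, hj2, hj3⟩ := hψ'.inverse
  have hjN : ∀ y ∈ img (normalizerIn T Q) ψ', j y ∈ normalizerIn T Q := fun y hy => by
    rw [← hj3]; exact mem_img_of_mem hy
  have h5 : Mor E (img (normalizerIn T Q) ψ') (autFun (δ * κ)) := by
    refine (hj.comp hψN hjN).congr fun y hy => ?_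
    obtain ⟨t, ht, rfl⟩ := hψ'.mem_img.1 hy
    have hψ't : ψ' t ∈ T := hψ'.mem ht
    rw [hj1 t ht, autFun_mul _ _ hψ't, ← e' t ht, hρe t ht, autFun_apply_inv _ (hψN.mem ht)]
  have h6 : E.IsCentric (img (normalizerIn T Q) ψ') := centric_img (centric_mono hQ hlt.le hNT) hψ'
  have h7 := card_lt_of_lt hlt hNT
  have h8 := card_le_of_le hNT
  have h9 := ih (Nat.card T - Nat.card (normalizerIn T Q)) (by omega) _ (by rw [hψ'.card_img]) h6 _
    (mul_mem hδ (h.Kle hκ)) h5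
  have h10 := mul_mem h9 (Subgroup.inv_mem _ hκ)
  rwa [mul_inv_cancel_right] at h10

/-- The extension property. -/
theorem kProp_ext (hE : E.IsSaturated p) (hP : E.IsCentric (P ⊓ T)) (hPX : P ≤ X) (hf : Mor F X f)
    (hk : kProp E K P f) : kProp E K X f := by
  obtain ⟨α, hα, φ₀, hφ₀, e1⟩ := hk
  obtain ⟨γ, hγ, ψ, hψ, e2⟩ := h.frat _ _ inf_le_right (hf.mono (inf_le_left : X ⊓ T ≤ X))
  have hle : P ⊓ T ≤ X ⊓ T := inf_le_inf_right T hPX
  refine ⟨γ, ?_, ψ, hψ, e2⟩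
  have hψP := hψ.mono hle
  obtain ⟨j, hj, hj1, hj2, hj3⟩ := hψP.inverse
  have hjN : ∀ y ∈ img (P ⊓ T) ψ, j y ∈ P ⊓ T := fun y hy => by rw [← hj3]; exact mem_img_of_mem hy
  have h1 : Mor E (img (P ⊓ T) ψ) (autFun (α⁻¹ * γ)) := by
    refine (hj.comp hφ₀ hjN).congr fun y hy => ?_
    obtain ⟨x, hx, rfl⟩ := hψP.mem_img.1 hy
    have hψx : ψ x ∈ T := hψP.mem hx
    rw [hj1 x hx, autFun_mul _ _ hψx, ← e2 x (hle hx), e1 x hx, autFun_inv_apply _ (hφ₀.mem hx)]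
  have h2 := kclaim hS hF h hE _ _ le_rfl (centric_img hP hψP) _ (mul_mem (Subgroup.inv_mem _ (h.Kle hα)) hγ) h1
  have h3 := mul_mem hα h2
  rwa [mul_inv_cancel_left] at h3

end

end Cfsg.Agent.H28
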