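import Mathlib
import Cfsg.Agent.H28.PChar1
import Cfsg.Agent.H28.IPI5
import Cfsg.Agent.H28.NCent

/-!
Subsystems of index prime to `p` coming from a normal subsystem over a strongly closed subgroup: the main theorem.
-/

set_option autoImplicit false

namespace Cfsg.Agent.H28

open Cfsg.FusionSystem

universe u

section
variable {Ω : Type u} [Group Ω] {S T : Subgroup Ω} {F : FusionSystem S} {E : FusionSystem T}
  {K : Subgroup (MulAut T)} {P Q X Y Z D : Subgroup Ω}
  {f g φ θ χ κ : Ω → Ω} {p : ℕ} {s : Ω}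

/-- The family of subgroups. -/
def CFam (F : FusionSystem S) (E : FusionSystem T) (P : Subgroup Ω) : Prop := F.IsCentric P ∧ E.IsCentric (P ⊓ T)

/-- The system of maps with the property. -/
def kSys1 [Finite S] (hS : IsPGroup p S) (h : KData p F E K) : FusionSystem S := propSys F _ (kProp_prop hS h)

theorem mor_kSys1 [Finite S] {hS : IsPGroup p S} {h : KData p F E K} : Mor (kSys1 hS h) P f ↔ Mor F P f ∧ kProp E K P f :=
  mor_propSys

/-- The subsystem generated by the maps on the family. -/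
def kSys0 [Finite S] (hS : IsPGroup p S) (h : KData p F E K) : FusionSystem S :=
  propSys (kSys1 hS h) _ (capProp (kSys1 hS h)
    (fun E' => ∀ P f, CFam F E P → Mor (kSys1 hS h) P f → Mor E' P f))

theorem kSys0_sub1 [Finite S] {hS : IsPGroup p S} {h : KData p F E K} (hf : Mor (kSys0 hS h) P f) :
    Mor (kSys1 hS h) P f := (mor_propSys.1 hf).1

theorem kSys0_iff [Finite S] {hS : IsPGroup p S} {h : KData p F E K} (hP : CFam F E P) :
    Mor (kSys0 hS h) P f ↔ Mor (kSys1 hS h) P f :=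
  ⟨fun h => kSys0_sub1 h, fun h => mor_propSys.2 ⟨h, fun _ hE' => hE' P f hP h⟩⟩

theorem cfam_conj [Finite S] (h : KData p F E K) (hP : CFam F E P) (hf : Mor F P f) : CFam F E (img P f) := by
  refine ⟨centric_img hP.1 hf, ?_⟩
  rw [inter_img h.sc hf]
  obtain ⟨γ, hγ, ψ, hψ, e⟩ := h.frat _ _ inf_le_right (hf.mono (inf_le_left : P ⊓ T ≤ P))
  rw [img_congr e, ← hψ.img_comp]
  exact centric_autFun h hγ (centric_img hP.2 hψ)

theorem cfam_mono (hP : CFam F E P) (hPX : P ≤ X) (hX : X ≤ S) : CFam F E X :=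
  ⟨centric_mono hP.1 hPX hX, centric_mono hP.2 (inf_le_inf_right T hPX) inf_le_right⟩

theorem cfam_top [Finite S] (h : KData p F E K) : CFam F E S := by
  have hTf : Finite T := finite_of_le h.sc.1
  refine ⟨centric_self, ?_⟩
  rw [inf_eq_right.2 h.sc.1]; exact centric_self

variable [hp : Fact p.Prime] [Finite S] (hS : IsPGroup p S) (hF : F.IsSaturated p) (h : KData p F E K)
include hS hF

theorem kSys0_ipc (hE : E.IsSaturated p) : IPC p F (kSys0 hS h) (CFam F E) where
  sub P f hf := (mor_kSys1.1 (kSys0_sub1 hf)).1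
  inv γ hγ P f hf := by
    have key : ∀ {P f}, Mor (kSys1 hS h) P f →
        Mor (kSys1 hS h) (img P (autFun γ)) (fun x => autFun γ (f (autFun γ⁻¹ x))) := by
      intro P f hf
      obtain ⟨hfF, hfk⟩ := mor_kSys1.1 hf
      have hγP := (mor_autFun le_rfl hγ).mono hfF.le
      have hγP' := (mor_autFun le_rfl (Subgroup.inv_mem _ hγ)).mono hγP.img_le
      refine mor_kSys1.2 ⟨?_, kProp_inv h hγ hfF hfk⟩
      refine (hγP'.comp hfF fun y hy => ?_).comp (mor_autFun le_rfl hγ) fun y hy => ?_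
      · obtain ⟨x, hx, rfl⟩ := hγP.mem_img.1 hy
        rw [autFun_inv_apply _ (hfF.le hx)]; exact hx
      · obtain ⟨x, hx, rfl⟩ := hγP.mem_img.1 hy
        rw [autFun_inv_apply _ (hfF.le hx)]; exact hfF.mem hx
    obtain ⟨h1, h2⟩ := mor_propSys.1 hf
    refine mor_propSys.2 ⟨key h1, fun E' hE' => ?_⟩
    refine (mor_propSys.1 (h2 (propSys F _ (conj_prop hγ E')) fun P f hP hf => ?_)).2
    refine mor_propSys.2 ⟨(mor_kSys1.1 hf).1, ?_⟩
    exact hE' _ _ (cfam_conj h hP ((mor_autFun le_rfl hγ).mono hP.1.1)) (key hf)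
  cc P hP := hP.1
  conj P f hP hf := cfam_conj h hP hf
  top := cfam_top h
  rad P hP hr := by
    refine ⟨hP, ?_⟩
    by_contra hc
    obtain ⟨f, hf, x, hxS, hxN, hx, α, hα, h1⟩ := NC.noncentric_inter hS hF h.sc h.sub hP.1 hc
    exact NC.not_radical_of_conj hf hP hxS hx hα h1 hr
  pel Q hQ α hα hk := by
    rw [← mor_autFun_iff hQ.1.1, kSys0_iff hQ, mor_kSys1]
    exact ⟨mor_autFun hQ.1.1 hα, kProp_pel hS hF h hQ.1.1 hα hk⟩
  ext P X f hP hPX hf hfP := by
    have hX := cfam_mono hP hPX hf.le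
    rw [kSys0_iff hX, mor_kSys1]
    exact ⟨hf, kProp_ext hS hF h hE hP.2 hPX hf (mor_kSys1.1 (kSys0_sub1 hfP)).2⟩
  gen E' hE' P f hf := (mor_propSys.1 hf).2 E' fun P f hP h => hE' P f hP ((kSys0_iff hP).2 h)

theorem kSys0_ipp (hE : E.IsSaturated p) : IPP p F (kSys0 hS h) := (kSys0_ipc hS hF h hE).toIPP hS hF

/-- A saturated subsystem of index prime to `p` which is invariant is normal. -/
theorem normal_of_pair {F₀ : FusionSystem S} (hF₀ : F₀.IsSaturated p) (hP : PPair p F F₀) : F₀.IsNormalIn F p := by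
  rw [normalIn_iff]
  refine ⟨⟨hF₀, hF, ?_⟩, ?_⟩
  · rw [invariant_iff]
    refine ⟨subsystem_iff.2 hP.sub, ?_, ?_, ?_⟩
    · rw [stronglyClosed_iff]
      exact ⟨le_rfl, fun R f _ hf x hx => hf.mem hx⟩
    · intro P f hf α hα
      exact ⟨_, hP.inv α hα P f hf, fun x hx => by rw [autFun_inv_apply _ (hf.le hx)]⟩
    · intro P f _ hf
      exact hP.factor hS hF hf
  · intro α hα
    have h1 : S ⊔ centralizerIn S S = S := sup_eq_left.2 centralizerIn_le
    have hαF := (mor_autFun_iff le_rfl).1 (hP.sub _ _ (mor_autFun le_rfl hα))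
    have hαm := mor_autFun le_rfl hαF
    obtain ⟨β, hβ, hβe⟩ : ∃ β ∈ F.autGroup (S ⊔ centralizerIn S S), ∀ x ∈ S, autFun β x = autFun α x := by
      rw [h1]; exact ⟨α, hαF, fun x _ => rfl⟩
    refine ⟨β, hβ, hβe, fun c hc => ?_⟩
    obtain ⟨hcS, hcc⟩ := mem_centralizerIn.1 hc
    rw [hβe c hcS]
    have h2 : autFun α c ∈ S := autFun_mem _ hcS
    refine ⟨mul_mem (Subgroup.inv_mem _ hcS) h2, ?_⟩
    refine mul_mem (Subgroup.inv_mem _ hc) (mem_centralizerIn.2 ⟨h2, fun y hy => ?_⟩)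
    have h3 : autFun α (autFun α⁻¹ y) = y := autFun_apply_inv _ hy
    have h4 : autFun α⁻¹ y ∈ S := autFun_mem _ hy
    rw [← h3, ← hαm.mul hcS h4, hcc _ h4, hαm.mul h4 hcS]

/-- The normal subsystem is contained in the subsystem. -/
theorem kSys0_contains (hE : E.IsNormalIn F p) (hf : Mor E P f) : Mor (kSys0 hS h) P f := by
  obtain ⟨⟨hEs, -, hEi⟩, hext⟩ := normalIn_iff.1 hE
  have hTS := h.sc.1
  have hTf : Finite T := finite_of_le hTS
  have hTp := hS.to_le hTS
  have hipp := kSys0_ipp hS hF h hEs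
  have hPP : PPair p E (meetSys hTS (kSys0 hS h) E) := by
    have hTc : ∀ γ ∈ E.autGroup T, Mor (kSys0 hS h) T (autFun γ) := by
      intro γ hγ
      obtain ⟨β, hβ, h1, -⟩ := hext γ hγ
      have hle : T ⊔ centralizerIn S T ≤ S := sup_le hTS centralizerIn_le
      have hβm := mor_autFun hle hβ
      have hci : (T ⊔ centralizerIn S T) ⊓ T = T := inf_eq_right.2 le_sup_left
      have hfc : F.IsFullyCentralized T := by
        rw [fullyCentralized_iff]
        refine ⟨hTS, fun f hf => ?_⟩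
        rw [sc_img_eq h.sc hf le_rfl]
      have hcf : CFam F E (T ⊔ centralizerIn S T) := by
        refine ⟨FC_sup_centric hfc, ?_⟩
        rw [hci]; exact centric_self
      have h2 : Mor (kSys0 hS h) (T ⊔ centralizerIn S T) (autFun β) := by
        rw [kSys0_iff hcf, mor_kSys1]
        refine ⟨hβm, γ, h.KE hγ, fun x => x, ?_, fun x hx => ?_⟩
        · rw [hci]; exact mor_self le_rfl
        · rw [hci] at hx
          exact h1 x hx
      exact (h2.mono le_sup_left).congr h1
    refine ⟨fun P f hf => (mor_meetSys.1 hf).1, ?_, ?_⟩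
    · intro γ hγ P f hf
      obtain ⟨hfE, hfk⟩ := mor_meetSys.1 hf
      have hγE := mor_autFun le_rfl hγ
      have hγ'E := mor_autFun le_rfl (Subgroup.inv_mem _ hγ)
      have hγk := hTc _ hγ
      have hγ'k := hTc _ (Subgroup.inv_mem _ hγ)
      have hγP := hγE.mono hfE.le
      have hile := hγP.img_le
      have hm1 : ∀ y ∈ img P (autFun γ), autFun γ⁻¹ y ∈ P := fun y hy => by
        obtain ⟨x, hx, rfl⟩ := hγP.mem_img.1 hy
        rw [autFun_inv_apply _ (hfE.le hx)]; exact hx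
      have hm2 : ∀ y ∈ img P (autFun γ), f (autFun γ⁻¹ y) ∈ T := fun y hy => hfE.mem (hm1 y hy)
      rw [mor_meetSys]
      exact ⟨((hγ'E.mono hile).comp hfE hm1).comp hγE hm2, ((hγ'k.mono hile).comp hfk hm1).comp hγk hm2⟩
    · intro Q hQ α hα hk
      have hQT := hQ.1.1
      rw [← mor_autFun_iff hQT, mor_meetSys]
      refine ⟨mor_autFun hQT hα, ?_⟩
      rw [mor_autFun_iff (hQT.trans hTS)]
      exact hipp.pair.pel_all hS hF (hQT.trans hTS)
        ((mor_autFun_iff (hQT.trans hTS)).1 (h.sub _ _ (mor_autFun hQT hα))) hk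
  have hTc : ∀ γ ∈ E.autGroup T, Mor (kSys0 hS h) T (autFun γ) := by
    intro γ hγ
    obtain ⟨β, hβ, h1, -⟩ := hext γ hγ
    have hle : T ⊔ centralizerIn S T ≤ S := sup_le hTS centralizerIn_le
    have hβm := mor_autFun hle hβ
    have hci : (T ⊔ centralizerIn S T) ⊓ T = T := inf_eq_right.2 le_sup_left
    have hfc : F.IsFullyCentralized T := by
      rw [fullyCentralized_iff]
      refine ⟨hTS, fun f hf => ?_⟩
      rw [sc_img_eq h.sc hf le_rfl]
    have hcf : CFam F E (T ⊔ centralizerIn S T) := by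
      refine ⟨FC_sup_centric hfc, ?_⟩
      rw [hci]; exact centric_self
    have h2 : Mor (kSys0 hS h) (T ⊔ centralizerIn S T) (autFun β) := by
      rw [kSys0_iff hcf, mor_kSys1]
      refine ⟨hβm, γ, h.KE hγ, fun x => x, ?_, fun x hx => ?_⟩
      · rw [hci]; exact mor_self le_rfl
      · rw [hci] at hx
        exact h1 x hx
    exact (h2.mono le_sup_left).congr h1
  obtain ⟨γ, hγ, g, hg, e⟩ := hPP.factor hTp hEs hf
  exact ((mor_meetSys.1 hg).2.comp (hTc γ hγ) (fun x hx => hg.mem hx)).congr fun x hx => (e x hx).symm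

end

end Cfsg.Agent.H28
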