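import Mathlib

/-!
The combinatorial part of Yoshida's theorem: a monomial cocycle with nontrivial transfer gives a wreath
product quotient.
-/

set_option autoImplicit false

namespace Cfsg.Agent.H28

universe u v w

section coboundary
variable {S I A : Type*} [Group S] [MulAction S I] [CommGroup A]

theorem exists_coboundary (c : S → I → A) (hc : ∀ s t i, c (s * t) i = c s (t • i) * c t i)
    (H : Subgroup S) (hz : ∀ y ∈ H, ∀ i, y • i = i → c y i = 1) :
    ∃ ν : I → A, ∀ y ∈ H, ∀ i, c y i = ν (y • i) * (ν i)⁻¹ := by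
  have hex : ∀ i : I, ∃ h : H, h • (Quotient.out (Quotient.mk (MulAction.orbitRel H I) i)) = i := by
    intro i
    have h1 : (MulAction.orbitRel H I).r (Quotient.out (Quotient.mk (MulAction.orbitRel H I) i)) i :=
      Quotient.mk_out (s := MulAction.orbitRel H I) i
    exact MulAction.mem_orbit_iff.1 ((MulAction.orbitRel H I).iseqv.symm h1)
  choose h hh using hex
  refine ⟨fun i => c (h i) (Quotient.out (Quotient.mk (MulAction.orbitRel H I) i)), fun y hy i => ?_⟩
  have h1 : Quotient.mk (MulAction.orbitRel H I) (y • i) = Quotient.mk (MulAction.orbitRel H I) i :=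
    Quotient.sound ⟨⟨y, hy⟩, rfl⟩
  have h2 := hh (y • i)
  have h3 := hh i
  set r := Quotient.out (Quotient.mk (MulAction.orbitRel H I) i) with hr
  show c y i = c (h (y • i)) (Quotient.out (Quotient.mk (MulAction.orbitRel H I) (y • i))) *
    (c (h i) (Quotient.out (Quotient.mk (MulAction.orbitRel H I) i)))⁻¹
  rw [h1] at h2 ⊢
  rw [← hr] at h2 ⊢
  set k : S := (y * (h i : S))⁻¹ * (h (y • i) : S) with hk
  have hkH : k ∈ H := H.mul_mem (H.inv_mem (H.mul_mem hy (h i).2)) (h (y • i)).2
  have h2' : (h (y • i) : S) • r = y • i := h2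
  have h3' : (h i : S) • r = i := h3
  have hkr : k • r = r := by
    rw [hk, mul_smul, h2', inv_smul_eq_iff, mul_smul, h3']
  have h4 : (h (y • i) : S) = y * (h i : S) * k := by rw [hk]; group
  rw [h4, hc, hkr, hz k hkH r hkr, mul_one, hc, h3', mul_inv_cancel_right]

end coboundary

section span
variable {S B : Type*} [Group S] [Finite S] {p : ℕ} [Fact p.Prime] [MulAction S B] [Fintype B]

theorem fun_eq_top (hS : IsPGroup p S) (htr : MulAction.IsPretransitive S B)
    (K : AddSubgroup (B → ZMod p)) (hK : ∀ s : S, ∀ f ∈ K, (fun b => f (s • b)) ∈ K)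
    (f₀ : B → ZMod p) (hf₀ : f₀ ∈ K) (hsum : ∑ b, f₀ b ≠ 0) : K = ⊤ := by
  classical
  by_contra hne
  have hlt : AddSubgroup.toZModSubmodule p K < ⊤ := by
    rw [lt_top_iff_ne_top]
    intro h
    apply hne
    rw [AddSubgroup.eq_top_iff']
    intro x
    have : x ∈ AddSubgroup.toZModSubmodule p K := by rw [h]; trivial
    exact this
  obtain ⟨φ, hφ, hφK⟩ := Submodule.exists_le_ker_of_lt_top _ hlt
  -- the annihilator
  let Φ : AddSubgroup (B → ZMod p) :=
    { carrier := {c | ∀ f ∈ K, ∑ b, c b * f b = 0}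
      zero_mem' := by intro f _; simp
      add_mem' := by
        intro a b ha hb f hf
        simp only [Pi.add_apply, add_mul, Finset.sum_add_distrib]
        rw [ha f hf, hb f hf, add_zero]
      neg_mem' := by
        intro a ha f hf
        simp only [Pi.neg_apply, neg_mul, Finset.sum_neg_distrib]
        rw [ha f hf, neg_zero] }
  have hΦ : ∀ c, c ∈ Φ ↔ ∀ f ∈ K, ∑ b, c b * f b = 0 := fun c => Iff.rfl
  letI act : MulAction S Φ :=
    { smul := fun s c => ⟨fun b => (c : B → ZMod p) (s⁻¹ • b), by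
        rw [hΦ]
        intro f hf
        have h1 := (hΦ _).1 c.2 _ (hK s f hf)
        rw [← h1]
        refine Fintype.sum_equiv (MulAction.toPerm s⁻¹) _ _ fun b => ?_
        show _ = (c : B → ZMod p) (s⁻¹ • b) * f (s • s⁻¹ • b)
        rw [smul_inv_smul]⟩
      one_smul := fun c => by
        apply Subtype.ext
        funext b
        show (c : B → ZMod p) ((1 : S)⁻¹ • b) = _
        rw [inv_one, one_smul]
      mul_smul := fun s t c => by
        apply Subtype.ext
        funext b
        show (c : B → ZMod p) ((s * t)⁻¹ • b) = (c : B → ZMod p) (t⁻¹ • s⁻¹ • b)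
        rw [mul_inv_rev, mul_smul] }
  have hact : ∀ (s : S) (c : Φ) (b : B), ((s • c : Φ) : B → ZMod p) b = (c : B → ZMod p) (s⁻¹ • b) :=
    fun _ _ _ => rfl
  -- a nonzero element
  let c₁ : B → ZMod p := fun b => φ (Pi.single b 1)
  have hc₁ : ∀ f : B → ZMod p, ∑ b, c₁ b * f b = φ f := by
    intro f
    have h1 : f = ∑ b, f b • (Pi.single b (1 : ZMod p) : B → ZMod p) := by
      funext b
      rw [Finset.sum_apply]
      simp [Pi.single_apply]
    conv_rhs => rw [h1]
    rw [map_sum]
    refine Finset.sum_congr rfl fun b _ => ?_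
    rw [map_smul, smul_eq_mul, mul_comm]
  have hc₁Φ : c₁ ∈ Φ := by
    rw [hΦ]
    intro f hf
    rw [hc₁]
    exact hφK (show f ∈ AddSubgroup.toZModSubmodule p K from hf)
  have hc₁0 : (⟨c₁, hc₁Φ⟩ : Φ) ≠ 0 := by
    intro h
    apply hφ
    have h1 : c₁ = 0 := congrArg Subtype.val h
    ext f
    have h2 := hc₁ (Pi.single f 1)
    rw [h1] at h2
    simp at h2
    simp only [LinearMap.coe_comp, Function.comp_apply, LinearMap.coe_single, LinearMap.zero_apply]
    exact h2.symm
  have hdvd : p ∣ Nat.card Φ := by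
    have h1 : addOrderOf (⟨c₁, hc₁Φ⟩ : Φ) = p := by
      apply addOrderOf_eq_prime _ hc₁0
      apply Subtype.ext
      funext b
      show ((p • (⟨c₁, hc₁Φ⟩ : Φ) : Φ) : B → ZMod p) b = 0
      rw [AddSubgroup.coe_nsmul, Pi.smul_apply, nsmul_eq_mul, CharP.cast_eq_zero, zero_mul]
    calc p = addOrderOf (⟨c₁, hc₁Φ⟩ : Φ) := h1.symm
      _ ∣ Nat.card Φ := addOrderOf_dvd_natCard _
  have h0 : (0 : Φ) ∈ MulAction.fixedPoints S Φ := by
    intro s
    apply Subtype.ext
    rfl
  obtain ⟨c, hc, hc0⟩ := hS.exists_fixed_point_of_prime_dvd_card_of_fixed_point Φ hdvd h0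
  -- `c` is constant
  have hconst : ∀ b b' : B, (c : B → ZMod p) b = (c : B → ZMod p) b' := by
    intro b b'
    obtain ⟨s, hs⟩ := htr.exists_smul_eq b' b
    have h1 : s⁻¹ • b = b' := by rw [← hs, inv_smul_smul]
    have h2 : ((s • c : Φ) : B → ZMod p) b = (c : B → ZMod p) b :=
      congrArg (fun d : Φ => (d : B → ZMod p) b) (hc s)
    rw [hact, h1] at h2
    exact h2.symm
  have hB : Nonempty B := by
    by_contra h
    rw [not_nonempty_iff] at h
    exact hsum (by simp)
  obtain ⟨b₀⟩ := hB
  have hu : (c : B → ZMod p) b₀ ≠ 0 := by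
    intro h
    apply hc0
    apply Subtype.ext
    funext b
    rw [hconst b b₀, h]; rfl
  have h1 := (hΦ _).1 c.2 f₀ hf₀
  have h2 : ∑ b, (c : B → ZMod p) b * f₀ b = (c : B → ZMod p) b₀ * ∑ b, f₀ b := by
    rw [Finset.mul_sum]
    exact Finset.sum_congr rfl fun b _ => by rw [hconst b b₀]
  rw [h2] at h1
  rcases mul_eq_zero.1 h1 with h | h
  · exact hu h
  · exact hsum h

end span

section wreath
variable {S : Type*} [Group S] [Finite S] {p : ℕ} [hp : Fact p.Prime]

theorem factorization_sq_factorial (p : ℕ) [hp : Fact p.Prime] : ((p ^ 2).factorial).factorization p = p + 1 := by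
  rw [Nat.factorization_def _ hp.out, sq, padicValNat_factorial_mul]
  have h1 : p.factorial = (p * 1).factorial := by rw [mul_one]
  rw [h1, padicValNat_factorial_mul]
  simp
  omega

/-- A monomial cocycle over a maximal subgroup, with nontrivial transfer. -/
theorem wreath_of_cocycle (hS : IsPGroup p S) (M : Subgroup S) [hM : M.Normal] (hMi : M.index = p)
    (C : S → (S ⧸ M) → Multiplicative (ZMod p)) (hC : ∀ s t b, C (s * t) b = C s (t • b) * C t b)
    (y₀ : S) (hy₀ : y₀ ∈ M) (hprod : ∀ [Fintype (S ⧸ M)], ∏ b, C y₀ b ≠ 1) :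
    ∃ (W : Sylow p (Equiv.Perm (Fin (p ^ 2)))) (f : S →* ↥(W : Subgroup (Equiv.Perm (Fin (p ^ 2))))),
      Function.Surjective f := by
  classical
  letI : Fintype (S ⧸ M) := Fintype.ofFinite _
  have hcardB : Fintype.card (S ⧸ M) = p := by
    rw [← Nat.card_eq_fintype_card]; exact hMi
  have hC1 : ∀ b, C 1 b = 1 := by
    intro b
    have h1 := hC 1 1 b
    rw [mul_one, one_smul] at h1
    exact (mul_eq_left.1 h1.symm)
  have hMtriv : ∀ y ∈ M, ∀ b : S ⧸ M, y • b = b := by
    intro y hy b
    induction b using QuotientGroup.induction_on with | _ s => ?_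
    show ((y * s : S) : S ⧸ M) = s
    rw [eq_comm, QuotientGroup.eq]
    have := hM.conj_mem y hy s⁻¹
    rw [inv_inv] at this
    rwa [← mul_assoc]
  -- the functions
  let K : AddSubgroup ((S ⧸ M) → ZMod p) :=
    { carrier := {f | ∃ y ∈ M, ∀ b, f b = Multiplicative.toAdd (C y b)}
      zero_mem' := ⟨1, M.one_mem, fun b => by rw [hC1]; rfl⟩
      add_mem' := by
        rintro f g ⟨y, hy, hf⟩ ⟨z, hz, hg⟩
        refine ⟨y * z, M.mul_mem hy hz, fun b => ?_⟩
        rw [Pi.add_apply, hf, hg, hC, hMtriv z hz]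
        rfl
      neg_mem' := by
        rintro f ⟨y, hy, hf⟩
        refine ⟨y⁻¹, M.inv_mem hy, fun b => ?_⟩
        rw [Pi.neg_apply, hf]
        have h1 := hC y⁻¹ y b
        rw [inv_mul_cancel, hC1, hMtriv y hy] at h1
        have h2 : C y⁻¹ b = (C y b)⁻¹ := eq_inv_of_mul_eq_one_left h1.symm
        rw [h2]; rfl }
  have hKmem : ∀ f, f ∈ K ↔ ∃ y ∈ M, ∀ b, f b = Multiplicative.toAdd (C y b) := fun _ => Iff.rfl
  have htr : MulAction.IsPretransitive S (S ⧸ M) := inferInstance
  have hKtop : K = ⊤ := by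
    refine fun_eq_top hS htr K ?_ (fun b => Multiplicative.toAdd (C y₀ b)) ⟨y₀, hy₀, fun _ => rfl⟩ ?_
    · rintro s f ⟨y, hy, hf⟩
      refine ⟨s⁻¹ * y * s, ?_, fun b => ?_⟩
      · have := hM.conj_mem y hy s⁻¹
        rwa [inv_inv] at this
      · show f (s • b) = _
        rw [hf, hC, hC]
        have h1 : y • s • b = s • b := hMtriv y hy _
        rw [h1]
        have h2 := hC s⁻¹ s b
        rw [inv_mul_cancel, hC1] at h2
        have h3 : C s⁻¹ (s • b) * C y (s • b) * C s b = (C s⁻¹ (s • b) * C s b) * C y (s • b) := by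
          rw [mul_right_comm]
        rw [h3, ← h2, one_mul]
    · intro h
      apply hprod
      apply Multiplicative.toAdd.injective
      rw [toAdd_prod, toAdd_one]
      exact h
  -- the monomial representation
  let Y := (S ⧸ M) × Multiplicative (ZMod p)
  letI act : MulAction S Y :=
    { smul := fun s y => (s • y.1, C s y.1 * y.2)
      one_smul := fun y => by
        show ((1 : S) • y.1, C 1 y.1 * y.2) = y
        rw [one_smul, hC1, one_mul]
      mul_smul := fun s t y => by
        show ((s * t) • y.1, C (s * t) y.1 * y.2) = (s • t • y.1, C s (t • y.1) * (C t y.1 * y.2))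
        rw [mul_smul, hC, mul_assoc] }
  have hactY : ∀ (s : S) (y : Y), s • y = (s • y.1, C s y.1 * y.2) := fun _ _ => rfl
  let φ : S →* Equiv.Perm Y := MulAction.toPermHom S Y
  have hφ : ∀ s y, φ s y = (s • y.1, C s y.1 * y.2) := fun _ _ => rfl
  -- the kernel
  have hker : φ.ker ≤ M := by
    intro s hs
    rw [MonoidHom.mem_ker] at hs
    have h1 := congrArg (fun e : Equiv.Perm Y => (e (((1 : S) : S ⧸ M), 1)).1) hs
    simp only [hφ] at h1
    have h2 : ((s * 1 : S) : S ⧸ M) = ((1 : S) : S ⧸ M) := h1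
    rw [mul_one, eq_comm, QuotientGroup.eq, inv_one, one_mul] at h2
    exact h2
  -- the hom on `M`
  let ψ : M →* Multiplicative ((S ⧸ M) → ZMod p) :=
    { toFun := fun y => Multiplicative.ofAdd fun b => Multiplicative.toAdd (C y b)
      map_one' := by
        apply Multiplicative.toAdd.injective
        funext b
        show Multiplicative.toAdd (C 1 b) = 0
        rw [hC1]; rfl
      map_mul' := by
        intro y z
        apply Multiplicative.toAdd.injective
        funext b
        show Multiplicative.toAdd (C ((y : S) * z) b) = Multiplicative.toAdd (C y b) + Multiplicative.toAdd (C z b)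
        rw [hC, hMtriv z z.2]; rfl }
  have hψ : Function.Surjective ψ := by
    intro f
    have h1 : Multiplicative.toAdd f ∈ K := by rw [hKtop]; trivial
    obtain ⟨y, hy, h2⟩ := (hKmem _).1 h1
    refine ⟨⟨y, hy⟩, ?_⟩
    apply Multiplicative.toAdd.injective
    funext b
    exact (h2 b).symm
  have hψker : ψ.ker = φ.ker.subgroupOf M := by
    ext y
    rw [MonoidHom.mem_ker, Subgroup.mem_subgroupOf, MonoidHom.mem_ker]
    constructor
    · intro h
      ext z : 1
      rw [hφ]
      have h1 : C (y : S) z.1 = 1 := by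
        apply Multiplicative.toAdd.injective
        exact congrFun (congrArg Multiplicative.toAdd h) z.1
      rw [h1, one_mul, hMtriv y y.2]; rfl
    · intro h
      apply Multiplicative.toAdd.injective
      funext b
      have h1 := congrArg (fun e : Equiv.Perm Y => (e (b, 1)).2) h
      simp only [hφ, mul_one] at h1
      show Multiplicative.toAdd (C y b) = 0
      have h2 : C (y : S) b = 1 := h1
      rw [h2]; rfl
  have hidx : φ.ker.index = p ^ (p + 1) := by
    have h1 : φ.ker.relIndex M * M.index = φ.ker.index := Subgroup.relIndex_mul_index hker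
    have h2 : φ.ker.relIndex M = p ^ p := by
      show (φ.ker.subgroupOf M).index = _
      rw [← hψker, Subgroup.index_ker, MonoidHom.range_eq_top.2 hψ, Subgroup.card_top]
      rw [Nat.card_congr (Multiplicative.toAdd (α := (S ⧸ M) → ZMod p)), Nat.card_eq_fintype_card,
        Fintype.card_fun, ZMod.card, hcardB]
    rw [← h1, h2, hMi, pow_succ]
  -- transfer to `Fin (p ^ 2)`
  haveI : Fintype Y := Fintype.ofFinite _
  have hYcard : Fintype.card Y = p ^ 2 := by
    show Fintype.card ((S ⧸ M) × Multiplicative (ZMod p)) = p ^ 2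
    rw [← Nat.card_eq_fintype_card, Nat.card_prod, Nat.card_eq_fintype_card, hcardB,
      Nat.card_congr (Multiplicative.toAdd (α := ZMod p)), Nat.card_zmod, sq]
  let e : Y ≃ Fin (p ^ 2) := Fintype.equivFinOfCardEq hYcard
  let Φ : S →* Equiv.Perm (Fin (p ^ 2)) := e.permCongrHom.toMonoidHom.comp φ
  have hΦker : Φ.ker = φ.ker := by
    ext s
    rw [MonoidHom.mem_ker, MonoidHom.mem_ker]
    show e.permCongrHom (φ s) = 1 ↔ _
    rw [map_eq_one_iff _ e.permCongrHom.injective]
  have hrange : Nat.card Φ.range = p ^ (p + 1) := by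
    rw [← Subgroup.index_ker, hΦker, hidx]
  have hpg : IsPGroup p Φ.range := IsPGroup.iff_card.2 ⟨_, hrange⟩
  obtain ⟨W, hW⟩ := hpg.exists_le_sylow
  have hWcard : Nat.card (W : Subgroup (Equiv.Perm (Fin (p ^ 2)))) = p ^ (p + 1) := by
    rw [W.card_eq_multiplicity, Nat.card_eq_fintype_card, Fintype.card_perm, Fintype.card_fin,
      factorization_sq_factorial]
  have hWeq : Φ.range = (W : Subgroup (Equiv.Perm (Fin (p ^ 2)))) :=
    Subgroup.eq_of_le_of_card_ge hW (by rw [hrange, hWcard])
  refine ⟨W, Φ.codRestrict _ (fun s => hW ⟨s, rfl⟩), ?_⟩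
  rintro ⟨w, hw⟩
  rw [← hWeq] at hw
  obtain ⟨s, hs⟩ := hw
  exact ⟨s, Subtype.ext hs⟩

end wreath

end Cfsg.Agent.H28
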