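import Mathlib
import Cfsg.Agent.H2.Frat
import Cfsg.Agent.H28.Yosh1

/-!
The combinatorial part of Yoshida's theorem, continued.
-/

set_option autoImplicit false

open scoped commutatorElement

namespace Cfsg.Agent.H28

universe u v w

section
variable {S : Type*} [Group S] [Finite S] {p : ℕ} [hp : Fact p.Prime]

theorem wreath_of_transitive (hS : IsPGroup p S) {J : Type*} [Fintype J] [MulAction S J] (j₀ : J)
    (htr : ∀ j : J, ∃ s : S, s • j₀ = j) (hnf : ∃ s : S, s • j₀ ≠ j₀)
    (c : S → J → Multiplicative (ZMod p)) (hc : ∀ s t i, c (s * t) i = c s (t • i) * c t i)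
    (x : S) (hx : ∏ j, c x j ≠ 1)
    (hH2 : ∀ y ∈ Subgroup.zpowers (x ^ p), ∀ i, y • i = i → c y i = 1) :
    ∃ (W : Sylow p (Equiv.Perm (Fin (p ^ 2)))) (f : S →* ↥(W : Subgroup (Equiv.Perm (Fin (p ^ 2))))),
      Function.Surjective f := by
  classical
  have hQ : MulAction.stabilizer S j₀ ≠ ⊤ := by
    intro h
    obtain ⟨s, hs⟩ := hnf
    apply hs
    have : s ∈ MulAction.stabilizer S j₀ := by rw [h]; trivial
    exact this
  obtain ⟨M, hQM, hMi, hMn⟩ := H2.exists_le_index_eq hS hQ
  haveI := hMn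
  choose σ hσ using htr
  let π : J → S ⧸ M := fun j => ((σ j : S) : S ⧸ M)
  have hπ : ∀ (s : S) (j : J), π (s • j) = s • π j := by
    intro s j
    show ((σ (s • j) : S) : S ⧸ M) = ((s * σ j : S) : S ⧸ M)
    rw [eq_comm, QuotientGroup.eq]
    apply hQM
    rw [MulAction.mem_stabilizer_iff, mul_smul, hσ, inv_smul_eq_iff, mul_smul, hσ]
  have hstab : ∀ (y : S) (b : S ⧸ M), y • b = b → y ∈ M := by
    intro y b h
    induction b using QuotientGroup.induction_on with | _ s => ?_
    have h1 : ((y * s : S) : S ⧸ M) = s := h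
    rw [eq_comm, QuotientGroup.eq] at h1
    have h2 := hMn.conj_mem _ h1 s
    have h3 : s * (s⁻¹ * (y * s)) * s⁻¹ = y := by group
    rwa [h3] at h2
  let C : S → (S ⧸ M) → Multiplicative (ZMod p) := fun y b =>
    ∏ j ∈ Finset.univ.filter (fun j => π j = b), c y j
  have hCdef : ∀ y b, C y b = ∏ j ∈ Finset.univ.filter (fun j => π j = b), c y j := fun _ _ => rfl
  have hC : ∀ s t b, C (s * t) b = C s (t • b) * C t b := by
    intro s t b
    rw [hCdef, hCdef, hCdef]
    rw [Finset.prod_congr rfl fun j _ => hc s t j, Finset.prod_mul_distrib]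
    congr 1
    refine Finset.prod_equiv (MulAction.toPerm t) ?_ ?_
    · intro j
      simp only [Finset.mem_filter, Finset.mem_univ, true_and]
      show π j = b ↔ π (t • j) = t • b
      rw [hπ]
      exact (smul_left_cancel_iff t).symm
    · intro j _
      rfl
  have hprodC : ∀ [Fintype (S ⧸ M)], ∏ b, C x b = ∏ j, c x j := by
    intro _
    rw [← Finset.prod_fiberwise Finset.univ π (c x)]
  have hxM : x ∈ M := by
    by_contra hxM
    apply hx
    have hzp : ∀ y ∈ Subgroup.zpowers x, y ∈ M → y ∈ Subgroup.zpowers (x ^ p) := by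
      rintro _ ⟨n, rfl⟩ hn
      have hn' : x ^ n ∈ M := hn
      have h1 : ((p : ℤ) ∣ n) := by
        by_contra hd
        have h2 : IsCoprime (n : ℤ) (p : ℤ) := by
          rw [isCoprime_comm]
          exact (Int.isCoprime_iff_gcd_eq_one.2 (by
            rw [Int.gcd_eq_natAbs, Int.natAbs_natCast]
            exact (Nat.Prime.coprime_iff_not_dvd hp.out).2 (fun h => hd (Int.natCast_dvd.2 h))))
        obtain ⟨a, b, hab⟩ := h2
        apply hxM
        have h3 : x ^ p ∈ M := H2.pow_mem_of_index hMi x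
        have h4 : x = (x ^ n) ^ a * (x ^ p) ^ b := by
          rw [← zpow_natCast x p, ← zpow_mul, ← zpow_mul, ← zpow_add]
          conv_lhs => rw [← zpow_one x]
          congr 1
          rw [← hab]; ring
        rw [h4]
        exact mul_mem (zpow_mem hn' a) (zpow_mem h3 b)
      obtain ⟨m, rfl⟩ := h1
      refine ⟨m, ?_⟩
      show (x ^ p) ^ m = x ^ ((p : ℤ) * m)
      rw [zpow_mul, zpow_natCast]
    obtain ⟨ν, hν⟩ := exists_coboundary c hc (Subgroup.zpowers x) (fun y hy i hi =>
      hH2 y (hzp y hy (hstab y (π i) (by rw [← hπ, hi]))) i hi)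
    rw [Finset.prod_congr rfl fun j _ => hν x (Subgroup.mem_zpowers x) j, Finset.prod_mul_distrib,
      Finset.prod_inv_distrib]
    have h1 : ∏ j, ν (x • j) = ∏ j, ν j :=
      Fintype.prod_equiv (MulAction.toPerm x) _ _ fun j => rfl
    rw [h1, mul_inv_cancel]
  exact wreath_of_cocycle hS M hMi C hC x hxM (fun {_} => by rw [hprodC]; exact hx)

/-- The combinatorial core of Yoshida's theorem. -/
theorem wreath_of_transfer (hS : IsPGroup p S) {I : Type*} [Fintype I] [MulAction S I]
    (hnf : ∀ i : I, ∃ s : S, s • i ≠ i)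
    (c : S → I → Multiplicative (ZMod p)) (hc : ∀ s t i, c (s * t) i = c s (t • i) * c t i)
    (x : S) (hx : ∏ j, c x j ≠ 1)
    (hH2 : ∀ y ∈ Subgroup.zpowers (x ^ p), ∀ i, y • i = i → c y i = 1) :
    ∃ (W : Sylow p (Equiv.Perm (Fin (p ^ 2)))) (f : S →* ↥(W : Subgroup (Equiv.Perm (Fin (p ^ 2))))),
      Function.Surjective f := by
  classical
  letI : Fintype (Quotient (MulAction.orbitRel S I)) := Fintype.ofFinite _
  obtain ⟨o, ho⟩ : ∃ o : Quotient (MulAction.orbitRel S I),
      ∏ i ∈ Finset.univ.filter (fun i => Quotient.mk (MulAction.orbitRel S I) i = o), c x i ≠ 1 := by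
    by_contra h
    push Not at h
    apply hx
    rw [← Finset.prod_fiberwise Finset.univ (fun i => Quotient.mk (MulAction.orbitRel S I) i) (c x)]
    exact Finset.prod_eq_one fun o _ => h o
  have hmem : ∀ i, Quotient.mk (MulAction.orbitRel S I) i = o ↔ i ∈ MulAction.orbit S (Quotient.out o) := by
    intro i
    rw [← MulAction.orbitRel_apply]
    constructor
    · intro h
      rw [← h]
      exact (MulAction.orbitRel S I).iseqv.symm (Quotient.mk_out (s := MulAction.orbitRel S I) i)
    · intro h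
      rw [← Quotient.out_eq o]
      exact Quotient.sound h
  letI : Fintype (MulAction.orbit S (Quotient.out o)) := Fintype.ofFinite _
  have hsum : ∏ j : MulAction.orbit S (Quotient.out o), c x (j : I) ≠ 1 := by
    intro h
    apply ho
    rw [← h]
    refine Finset.prod_subtype _ (fun i => ?_) (c x)
    rw [Finset.mem_filter]
    simp only [Finset.mem_univ, true_and]
    exact hmem i
  refine wreath_of_transitive hS (J := MulAction.orbit S (Quotient.out o))
    ⟨Quotient.out o, MulAction.mem_orbit_self _⟩ ?_ ?_ (fun s j => c s (j : I)) ?_ x hsum ?_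
  · rintro ⟨j, s, rfl⟩
    exact ⟨s, Subtype.ext rfl⟩
  · obtain ⟨s, hs⟩ := hnf (Quotient.out o)
    exact ⟨s, fun h => hs (congrArg Subtype.val h)⟩
  · intro s t i
    exact hc s t i
  · intro y hy i hi
    exact hH2 y hy i (congrArg Subtype.val hi)

/-- In a finite `p`-group, an element outside a subgroup containing the Frattini subgroup is detected by a
homomorphism onto the group of order `p`. -/
theorem exists_hom_of_frattini (hS : IsPGroup p S) {N : Subgroup S} (hN : frattini S ≤ N) {x : S}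
    (hx : x ∉ N) : ∃ l : S →* Multiplicative (ZMod p), (∀ y ∈ N, l y = 1) ∧ l x ≠ 1 := by
  classical
  -- a maximal subgroup containing `N` but not `x`
  obtain ⟨M, ⟨hNM, hxM⟩, hmax⟩ := Set.Finite.exists_maximal
    (s := {M : Subgroup S | N ≤ M ∧ x ∉ M}) (Set.toFinite _) ⟨N, le_rfl, hx⟩
  have hΦM : frattini S ≤ M := hN.trans hNM
  have hMn : M.Normal := by
    have h1 : commutator S ≤ M := (H2.commutator_le_frattini hS).trans hΦM
    refine ⟨fun a ha g => ?_⟩
    have h2 : ⁅g, a⁆ ∈ M := h1 (Subgroup.commutator_mem_commutator (Subgroup.mem_top g) (Subgroup.mem_top a))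
    have h3 : g * a * g⁻¹ = ⁅g, a⁆ * a := by rw [commutatorElement_def]; group
    rw [h3]; exact mul_mem h2 ha
  have hpow : ∀ y : S, y ^ p ∈ M := fun y => hΦM (H2.pow_mem_frattini hS y)
  have hgen : ∀ y ∉ M, x ∈ M ⊔ Subgroup.zpowers y := by
    intro y hy
    by_contra h
    have h1 := hmax ⟨hNM.trans le_sup_left, h⟩ (le_sup_left (a := M) (b := Subgroup.zpowers y))
    exact hy (h1 (le_sup_right (a := M) (Subgroup.mem_zpowers y)))
  have hMtop : M ≠ ⊤ := fun h => hxM (h ▸ Subgroup.mem_top x)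
  obtain ⟨M', hMM', hMi', hMn'⟩ := H2.exists_le_index_eq hS hMtop
  have hxM' : x ∉ M' := by
    intro hxM'
    have hM'top : M' ≠ ⊤ := by
      intro h
      rw [h, Subgroup.index_top] at hMi'
      exact hp.out.one_lt.ne hMi'
    obtain ⟨y, hy⟩ : ∃ y, y ∉ M' := by
      by_contra h
      push Not at h
      exact hM'top ((Subgroup.eq_top_iff' M').2 h)
    have h1 := hgen y (fun h => hy (hMM' h))
    rw [← SetLike.mem_coe, Subgroup.normal_mul] at h1
    obtain ⟨m, hm, _, ⟨j, rfl⟩, hmj⟩ := h1
    have hmj' : m * y ^ j = x := hmj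
    have h2 : y ^ j ∈ M' := by
      have : y ^ j = m⁻¹ * x := by rw [← hmj']; group
      rw [this]
      exact mul_mem (inv_mem (hMM' hm)) hxM'
    have h3 : (p : ℤ) ∣ j := by
      by_contra hd
      have h2' : IsCoprime (j : ℤ) (p : ℤ) := by
        rw [isCoprime_comm]
        exact (Int.isCoprime_iff_gcd_eq_one.2 (by
          rw [Int.gcd_eq_natAbs, Int.natAbs_natCast]
          exact (Nat.Prime.coprime_iff_not_dvd hp.out).2 (fun h => hd (Int.natCast_dvd.2 h))))
      obtain ⟨a, b, hab⟩ := h2'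
      apply hy
      have h4 : y = (y ^ j) ^ a * (y ^ p) ^ b := by
        rw [← zpow_natCast y p, ← zpow_mul, ← zpow_mul, ← zpow_add]
        conv_lhs => rw [← zpow_one y]
        congr 1
        rw [← hab]; ring
      rw [h4]
      exact mul_mem (zpow_mem h2 a) (zpow_mem (hMM' (hpow y)) b)
    obtain ⟨k, rfl⟩ := h3
    apply hxM
    rw [← hmj', zpow_mul, zpow_natCast]
    exact mul_mem hm (zpow_mem (hpow y) k)
  have hMeq : M' ≤ M := hmax ⟨hNM.trans hMM', hxM'⟩ hMM'
  have hMi : M.index = p := by rw [le_antisymm hMM' hMeq]; exact hMi'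
  let e : S ⧸ M ≃* Multiplicative (ZMod p) := mulEquivOfPrimeCardEq (p := p) hMi (by
    rw [Nat.card_congr (Multiplicative.toAdd (α := ZMod p)), Nat.card_zmod])
  refine ⟨e.toMonoidHom.comp (QuotientGroup.mk' M), fun y hy => ?_, fun h => ?_⟩
  · show e (QuotientGroup.mk' M y) = 1
    rw [MulEquiv.map_eq_one_iff]
    exact (QuotientGroup.eq_one_iff y).2 (hNM hy)
  · apply hxM
    have h1 : e (QuotientGroup.mk' M x) = 1 := h
    rw [MulEquiv.map_eq_one_iff] at h1
    exact (QuotientGroup.eq_one_iff x).1 h1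

end

end Cfsg.Agent.H28
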