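import Mathlib
import Cfsg.Prelude.Def_FusionSystem
import Cfsg.Agent.H28.Mach3
import Cfsg.Agent.H28.Trf3
import Cfsg.Agent.H28.Yosh2

/-!
Yoshida's theorem for fusion systems.
-/

set_option autoImplicit false
open Cfsg Cfsg.FusionSystem

namespace Cfsg.Agent.H28

universe u v w

section
variable {Ω : Type u} [Group Ω] {S T : Subgroup Ω} {F H : FusionSystem S} {P Q R : Subgroup Ω}
  {f g k : Ω → Ω} {x y s t z : Ω} {p : ℕ}

theorem mem_foc_of_conj (hf : Mor F P f) (hx : x ∈ P) (h : f x ∈ F.focalSubgroup) : x ∈ F.focalSubgroup := by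
  have h1 := foc_mem hf hx
  have h2 : x = f x * (x⁻¹ * f x)⁻¹ := by group
  rw [h2]; exact mul_mem h (inv_mem h1)

/-- Yoshida's theorem. -/
theorem yoshida [Fact p.Prime] [Finite S] (hS : IsPGroup p S) (hF : F.IsSaturated p)
    (hHF : ∀ P f, Mor H P f → Mor F P f) (hHA : ∀ f, Mor F S f → Mor H S f)
    (hne : ¬ F.focalSubgroup ≤ H.focalSubgroup) :
    ∃ (W : Sylow p (Equiv.Perm (Fin (p ^ 2)))) (f : S →* ↥(W : Subgroup (Equiv.Perm (Fin (p ^ 2))))),
      Function.Surjective f := by
  classical
  have hp : p.Prime := Fact.out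
  -- an element to be detected
  have h1 : ¬ F.focalSubgroup ≤ (frattini ↥S).map S.subtype ⊔ H.focalSubgroup := fun h => hne (tate_a hS hF hHF h)
  obtain ⟨x₀, hx₀, hx₀'⟩ := SetLike.not_le_iff_exists.1 h1
  have hx₀S : x₀ ∈ S := foc_le hx₀
  have hN : frattini ↥S ≤ ((frattini ↥S).map S.subtype ⊔ H.focalSubgroup).subgroupOf S := by
    intro y hy
    rw [Subgroup.mem_subgroupOf]
    exact le_sup_left (b := H.focalSubgroup) (Subgroup.mem_map_of_mem S.subtype hy)
  obtain ⟨l, hl, hlx₀⟩ := exists_hom_of_frattini hS hN (x := ⟨x₀, hx₀S⟩) (fun h => hx₀' (Subgroup.mem_subgroupOf.1 h))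
  have hlH : ∀ y : S, (y : Ω) ∈ H.focalSubgroup → l y = 1 := fun y hy =>
    hl y (Subgroup.mem_subgroupOf.2 (le_sup_right (a := (frattini ↥S).map S.subtype) hy))
  -- minimal order
  obtain ⟨x, ⟨hxF, hlx⟩, hmin⟩ := Set.Finite.exists_minimalFor (fun x : S => orderOf x)
    {x : S | (x : Ω) ∈ F.focalSubgroup ∧ l x ≠ 1} (Set.toFinite _) ⟨⟨x₀, hx₀S⟩, hx₀, hlx₀⟩
  have hmin' : ∀ y : S, (y : Ω) ∈ F.focalSubgroup → orderOf y < orderOf x → l y = 1 := by
    intro y hy hlt
    by_contra h
    exact absurd (hmin ⟨hy, h⟩ hlt.le) (not_le.2 hlt)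
  -- the biset
  obtain ⟨X, _, _, hX, n, hn, hpn⟩ := biset_exists hS hF
  have hfree : ∀ (t : S) (ω : X), ((1, t) : S × S) • ω = ω → t = 1 := fun t ω h => right_free hX.iso h
  have hcard : Nat.card (RI S X) = n := by
    have h1 := card_RI (S := S) (X := X) hfree
    rw [hn] at h1
    exact (Nat.eq_of_mul_eq_mul_left Nat.card_pos h1).symm
  have hT : ∀ P f (hf : Mor F P f) x (hx : x ∈ P),
      trf hfree l ⟨f x, hf.mem hx⟩ = trf hfree l ⟨x, hf.le hx⟩ := by
    intro P f hf x hx
    obtain ⟨g, hg⟩ := leftHom_conj hX hf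
    unfold trf
    rw [MonoidHom.comp_apply, MonoidHom.comp_apply, hg x hx, map_mul, map_mul, map_inv,
      mul_comm (trfHat hfree l g), mul_inv_cancel_right]
  have hTx : trf hfree l x = 1 := stable_kills hT hxF
  letI : Fintype (RI S X) := Fintype.ofFinite _
  letI act : MulAction S (RI S X) := riAct S X
  have hsm : ∀ (a : S) (ω : X), a • (Quotient.mk (rSet S X) ω) = Quotient.mk (rSet S X) (((a, 1) : S × S) • ω) :=
    fun _ _ => rfl
  have hout : ∀ (a : S) (i : RI S X), a • i = Quotient.mk (rSet S X) (((a, 1) : S × S) • Quotient.out i) := by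
    intro a i
    conv_lhs => rw [← Quotient.out_eq i]
    rfl
  let c : S → RI S X → Multiplicative (ZMod p) := fun s i => coc S l (leftHom S X s : Equiv.Perm X) (Quotient.out i)
  have hcdef : ∀ s i, c s i = coc S l (leftHom S X s : Equiv.Perm X) (Quotient.out i) := fun _ _ => rfl
  have hc : ∀ s t i, c (s * t) i = c s (t • i) * c t i := by
    intro s t i
    have h1 : c s (t • i) = coc S l (leftHom S X s : Equiv.Perm X) (((t, 1) : S × S) • Quotient.out i) := by
      rw [hcdef, hout t i]
      obtain ⟨u, hu⟩ := exists_kap S (((t, 1) : S × S) • Quotient.out i)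
      rw [← hu, coc_inv hfree]
    rw [h1]
    show l (kap S ((leftHom S X (s * t) : Equiv.Perm X) (Quotient.out i))) * (l (kap S (Quotient.out i)))⁻¹ =
      l (kap S ((leftHom S X s : Equiv.Perm X) (((t, 1) : S × S) • Quotient.out i))) *
        (l (kap S (((t, 1) : S × S) • Quotient.out i)))⁻¹ *
      (l (kap S ((leftHom S X t : Equiv.Perm X) (Quotient.out i))) * (l (kap S (Quotient.out i)))⁻¹)
    have h2 : (leftHom S X (s * t) : Equiv.Perm X) (Quotient.out i) =
        (leftHom S X s : Equiv.Perm X) (((t, 1) : S × S) • Quotient.out i) := by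
      rw [leftHom_apply, leftHom_apply, ← mul_smul]
      congr 1
      exact Prod.ext rfl (one_mul _).symm
    rw [h2, leftHom_apply t, mul_assoc, inv_mul_cancel_left]
  -- stabilizers
  have hstab : ∀ (y : S) (i : RI S X), y • i = i → ∃ t : S, ((y, t) : S × S) • Quotient.out i = Quotient.out i ∧
      c y i = l t := by
    intro y i hi
    have h1 := kap_spec (S := S) (((y, 1) : S × S) • Quotient.out i)
    rw [← hout y i, hi, ← mul_smul] at h1
    have h2 : ((1, kap S (((y, 1) : S × S) • Quotient.out i)) : S × S) * ((y, 1) : S × S) =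
        ((y, kap S (((y, 1) : S × S) • Quotient.out i)) : S × S) := Prod.ext (one_mul _) (mul_one _)
    rw [h2] at h1
    refine ⟨_, h1, ?_⟩
    have h3 : kap S (Quotient.out i) = 1 := by
      have h4 := kap_spec (S := S) (Quotient.out i)
      rw [Quotient.out_eq] at h4
      exact hfree _ _ h4
    rw [hcdef]
    unfold coc
    rw [h3, map_one, inv_one, mul_one, leftHom_apply]
  -- full fixed points
  have hfix : ∀ i : RI S X, (∀ s : S, s • i = i) → ∀ s : S, c s i = l s := by
    intro i hi s
    obtain ⟨P, f, hf, hK⟩ := hX.iso (Quotient.out i)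
    have h1 : ∀ s : S, ∃ t : S, (t : Ω) ∈ P ∧ (s : Ω) = f t ∧ c s i = l t := by
      intro s
      obtain ⟨t, ht, hct⟩ := hstab s i (hi s)
      have h2 := (hK _).1 (MulAction.mem_stabilizer_iff.2 ht)
      exact ⟨t, h2.1, h2.2, hct⟩
    have himg : img P f = S := by
      apply le_antisymm
      · rw [img_le_iff]; exact fun z hz => hf.mem hz
      · intro s hs
        obtain ⟨t, ht, hft, -⟩ := h1 ⟨s, hs⟩
        rw [hf.mem_img]
        exact ⟨t, ht, hft.symm⟩
    haveI : Finite P := finite_of_le hf.le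
    have hPS : P = S := by
      have h2 : Nat.card (img P f) = Nat.card P := hf.card_img
      rw [himg] at h2
      exact eq_of_le_of_card hf.le h2.le
    subst hPS
    obtain ⟨t, ht, hft, hct⟩ := h1 s
    rw [hct]
    have h2 : (t : Ω)⁻¹ * f t ∈ H.focalSubgroup := foc_mem (hHA f hf) ht
    rw [← hft] at h2
    have h3 := hlH (t⁻¹ * s) h2
    rw [map_mul, map_inv, inv_mul_eq_one] at h3
    exact h3
  have hprod : ∏ i, c x i = 1 := by
    rw [← hTx]
    unfold trf
    rw [MonoidHom.comp_apply, trfHat_apply]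
  -- nonfixed points
  let Pf : RI S X → Prop := fun i => ∀ s : S, s • i = i
  have hPf : ∀ (s : S) i, ¬ Pf i → ¬ Pf (s • i) := by
    intro s i hi h
    apply hi
    intro t
    have h1 := h (s * t * s⁻¹)
    rw [← mul_smul] at h1
    have h2 : s * t * s⁻¹ * s = s * t := by group
    rw [h2, mul_smul] at h1
    exact (smul_left_cancel_iff s).1 h1
  letI actI : MulAction S {i : RI S X // ¬ Pf i} :=
    { smul := fun s i => ⟨s • (i : RI S X), hPf s i i.2⟩
      one_smul := fun i => Subtype.ext (one_smul S (i : RI S X))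
      mul_smul := fun s t i => Subtype.ext (mul_smul s t (i : RI S X)) }
  have hmul := Fintype.prod_subtype_mul_prod_subtype Pf (c x)
  rw [hprod] at hmul
  have hfixprod : ∏ i : {i : RI S X // Pf i}, c x (i : RI S X) = l x ^ Fintype.card {i : RI S X // Pf i} := by
    rw [Finset.prod_congr rfl fun (i : {i : RI S X // Pf i}) _ => hfix i i.2 x, Finset.prod_const, Finset.card_univ]
  have hcardfix : ¬ p ∣ Fintype.card {i : RI S X // Pf i} := by
    intro hd
    have h1 := hS.card_modEq_card_fixedPoints (RI S X)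
    have h2 : Nat.card (MulAction.fixedPoints S (RI S X)) = Fintype.card {i : RI S X // Pf i} := by
      rw [Nat.card_eq_fintype_card]
      exact Fintype.card_congr (Equiv.subtypeEquivRight fun i => Iff.rfl)
    rw [h2, hcard] at h1
    apply hpn
    exact (Nat.modEq_zero_iff_dvd.1 (h1.trans (Nat.modEq_zero_iff_dvd.2 hd)))
  have hlxp : ∀ a : Multiplicative (ZMod p), a ^ p = 1 := by
    intro a
    apply Multiplicative.toAdd.injective
    rw [toAdd_pow, toAdd_one, nsmul_eq_mul, CharP.cast_eq_zero, zero_mul]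
  have hnon : ∏ i : {i : RI S X // ¬ Pf i}, c x (i : RI S X) ≠ 1 := by
    intro h
    rw [h, mul_one, hfixprod] at hmul
    exact hlx (eq_one_of_pow_coprime (k := 1) hcardfix hmul (by rw [pow_one]; exact hlxp _))
  refine wreath_of_transfer hS (I := {i : RI S X // ¬ Pf i}) ?_ (fun s i => c s (i : RI S X)) ?_ x hnon ?_
  · rintro ⟨i, hi⟩
    by_contra h
    push Not at h
    exact hi fun s => congrArg Subtype.val (h s)
  · intro s t i
    exact hc s t i
  · intro y hy i hi
    have hi' : y • (i : RI S X) = i := congrArg Subtype.val hi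
    obtain ⟨t, ht, hct⟩ := hstab y i hi'
    show c y (i : RI S X) = 1
    rw [hct]
    obtain ⟨P, f, hf, htP, hft⟩ := stab_fusion hX.iso ht
    have hyF : (y : Ω) ∈ F.focalSubgroup := by
      obtain ⟨m, rfl⟩ := hy
      show (((x ^ p) ^ m : S) : Ω) ∈ _
      push_cast
      exact zpow_mem (pow_mem hxF p) m
    refine hmin' t (mem_foc_of_conj hf htP (by rw [hft]; exact hyF)) ?_
    -- orders
    have h1 : orderOf t ∣ orderOf y := by
      apply orderOf_dvd_of_pow_eq_one
      apply Subtype.ext
      have h2 : f ((t : Ω) ^ orderOf y) = 1 := by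
        rw [hf.pow htP, hft]
        have := pow_orderOf_eq_one y
        exact congrArg Subtype.val this
      have h3 : f ((t : Ω) ^ orderOf y) = f 1 := by rw [h2, hf.one]
      have h4 := hf.inj (P.pow_mem htP _) P.one_mem h3
      push_cast
      exact h4
    have h2 : orderOf y ∣ orderOf (x ^ p) := orderOf_dvd_of_mem_zpowers hy
    have hx1 : x ≠ 1 := by
      rintro rfl
      exact hlx (map_one l)
    have hpx : p ∣ orderOf x := by
      obtain ⟨j, hj⟩ := IsPGroup.iff_orderOf.1 hS x
      rw [hj]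
      rcases j with _ | j
      · exact absurd (orderOf_eq_one_iff.1 (by rw [hj, pow_zero])) hx1
      · exact dvd_pow_self p (Nat.succ_ne_zero j)
    have h3 : orderOf (x ^ p) = orderOf x / p := orderOf_pow_of_dvd hp.ne_zero hpx
    have hpos : 0 < orderOf x := orderOf_pos x
    have h4 : orderOf x / p < orderOf x := Nat.div_lt_self hpos hp.one_lt
    exact lt_of_le_of_lt (Nat.le_of_dvd (orderOf_pos _) (h1.trans h2)) (by rw [h3]; exact h4)

end

end Cfsg.Agent.H28
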